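import Cfsg.Agent.H35.S4Defs

/-!
# The odd order trick in type III
-/

set_option autoImplicit false
set_option linter.unusedSectionVars false

namespace Cfsg.Agent.H51.S4F0a

open Cfsg Cfsg.Agent.H63 Cfsg.Agent.H63.SL Cfsg.Agent.H35.S4 Subgroup
open scoped commutatorElement

universe u v

variable {F : Type v} [Field F] {G : Type u} [Group G] {L : Subgroup G} {x : ZMod 8 → F → G}
  {t : G} {A : Type v} [CommRing A] {j : F →+* A} {σ : A ≃+* A} {y : ZMod 8 → A → G}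

theorem cj_of_cm {a b c : G} (h : ⁅a, b⁆ = c) : a * b * a⁻¹ = c * b := by
  rw [← h, commutatorElement_def, inv_mul_cancel_right]

theorem cj_mul (g a b : G) : g * (a * b) * g⁻¹ = g * a * g⁻¹ * (g * b * g⁻¹) := by group

theorem cj_cj (g g' a : G) : g * g' * a * (g * g')⁻¹ = g * (g' * a * g'⁻¹) * g⁻¹ := by group

theorem cj_fix {g a : G} (h : Commute g a) : g * a * g⁻¹ = a := by
  rw [h.eq, mul_inv_cancel_right]

theorem comm_cm {g a b : G} (ha : Commute g a) (hb : Commute g b) : Commute g ⁅a, b⁆ :=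
  ((ha.mul_right hb).mul_right ha.inv_right).mul_right hb.inv_right

theorem comm_of_sq {o z : G} (ho : Odd (orderOf o)) (H : Commute (o * o) z) : Commute o z := by
  obtain ⟨m, hm⟩ := ho
  have : o = (o * o) ^ (m + 1) := by
    rw [← pow_two, ← pow_mul, show 2 * (m + 1) = orderOf o + 1 by omega, pow_succ,
      pow_orderOf_eq_one, one_mul]
  rw [this]
  exact H.pow_left _

theorem x0 (p : Pin2 x) (i : ZMod 8) : x i 0 = 1 := by
  have := p.add i 0 0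
  rwa [add_zero, left_eq_mul] at this

theorem xsq (p : Pin2 x) (i : ZMod 8) (a : F) : x i a * x i a = 1 := by
  rw [← p.add, ← two_mul, p.two, zero_mul, x0 p]

section DS

variable (p : Pin2 x) (D : DblS L x t j σ y)
include D

theorem y0 {i : ZMod 8} (hi : sh i) : y i 0 = 1 := by
  have := D.add i hi 0 0
  rwa [add_zero, left_eq_mul] at this

theorem aa (a : A) : a + a = 0 := by rw [← two_mul, D.quad.two, zero_mul]

theorem ysq {i : ZMod 8} (hi : sh i) (a : A) : y i a * y i a = 1 := by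
  rw [← D.add i hi, aa D, y0 D hi]

theorem sj (u : F) : σ (j u) = j u := (D.quad.fix _).2 ⟨u, rfl⟩

theorem ex_tr (a : A) : ∃ n, j n = a + σ a :=
  let ⟨n, hn⟩ := (D.quad.fix (a + σ a)).1 (by rw [map_add, D.quad.sq, add_comm]); ⟨n, hn.symm⟩

theorem ex_nm (a : A) : ∃ n, j n = a * σ a :=
  let ⟨n, hn⟩ := (D.quad.fix (a * σ a)).1 (by rw [map_mul, D.quad.sq, mul_comm]); ⟨n, hn.symm⟩

include p

theorem jinj : Function.Injective j := (injective_iff_map_eq_zero j).2 fun a ha =>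
  p.inj 1 a (by rw [← D.res 1 (by decide), ha, y0 D (by decide)])

theorem c32 (b : A) (u : F) : Commute (y 3 b) (x 2 u) := (D.c1 3 (by decide) b u).2

theorem c34 (b : A) (u : F) : Commute (y 3 b) (x 4 u) := (D.c1 3 (by decide) b u).1

theorem c24 (u w : F) : Commute (x 2 u) (x 4 w) := p.c2 2 u w

theorem a12 (a : A) (u : F) : y 1 a * x 2 u * (y 1 a)⁻¹ = x 2 u :=
  cj_fix (D.c1 1 (by decide) a u).1

theorem a13 (a b : A) {n : F} (h : j n = a * b + σ (a * b)) :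
    y 1 a * y 3 b * (y 1 a)⁻¹ = x 2 n * y 3 b := cj_of_cm (D.s2 1 (by decide) a b n h)

theorem a14 (a : A) {n : F} (h : j n = a * σ a) (u : F) :
    y 1 a * x 4 u * (y 1 a)⁻¹ = x 2 (n * u) * y 3 (σ a * j u) * x 4 u :=
  cj_of_cm (D.s3 1 (by decide) a n h u).1

theorem a54 (a : A) (u : F) : y 5 a * x 4 u * (y 5 a)⁻¹ = x 4 u :=
  cj_fix (D.c1 5 (by decide) a u).2

theorem a53 (a b : A) {n : F} (h : j n = b * a + σ (b * a)) :
    y 5 a * y 3 b * (y 5 a)⁻¹ = x 4 n * y 3 b := by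
  have e : ⁅y 3 b, y 5 a⁆ = x 4 n := D.s2 3 (by decide) b a n h
  have e' : ⁅y 5 a, y 3 b⁆ = x 4 n := by
    rw [← commutatorElement_inv, e, inv_eq_of_mul_eq_one_right (xsq p 4 n)]
  exact cj_of_cm e'

theorem a52 (a : A) {n : F} (h : j n = a * σ a) (u : F) :
    y 5 a * x 2 u * (y 5 a)⁻¹ = x 4 (n * u) * y 3 (σ a * j u) * x 2 u :=
  cj_of_cm (D.s3 5 (by decide) a n h u).2

/-- products in `S` -/
theorem nf (a c a' c' : F) (b b' : A) :
    x 2 a * y 3 b * x 4 c * (x 2 a' * y 3 b' * x 4 c') =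
      x 2 (a + a') * y 3 (b + b') * x 4 (c + c') := by
  rw [((c24 p D a' c).mul_left (c34 p D b' c)).symm.mul_mul_mul_comm,
    (c32 p D b a').mul_mul_mul_comm, p.add, p.add, D.add 3 (by decide)]

theorem nf2 (a : F) : x 2 a = x 2 a * y 3 0 * x 4 0 := by
  rw [y0 D (by decide), x0 p, mul_one, mul_one]

theorem nf3 (c : F) (b : A) : x 4 c * y 3 b = x 2 0 * y 3 b * x 4 c := by
  rw [x0 p, one_mul, (c34 p D b c).eq]

theorem nf3' (a : F) (b : A) : x 2 a * y 3 b = x 2 a * y 3 b * x 4 0 := by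
  rw [x0 p, mul_one]

theorem nf4 (a : F) : x 4 a = x 2 0 * y 3 0 * x 4 a := by
  rw [y0 D (by decide), x0 p, mul_one, one_mul]

theorem nf5 (a c : F) (b : A) : x 4 c * y 3 b * x 2 a = x 2 a * y 3 b * x 4 c := by
  rw [← ((c24 p D a c).mul_right (c32 p D b a).symm).eq, ← (c34 p D b c).eq, mul_assoc]

variable {a a' : A} (ha : a * a' = 1) {N N' : F} (hN : j N = a * σ a) (hN' : j N' = a' * σ a')
include ha

theorem sa : σ a * σ a' = 1 := by rw [← map_mul, ha, map_one]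

include hN hN'

theorem NN : N * N' = 1 := jinj p D (by
  rw [map_mul, hN, hN', map_one, mul_mul_mul_comm, ha, sa p D ha, one_mul])

theorem n4 (u : F) : y 1 a * y 5 (σ a') * y 1 a * x 4 u * (y 1 a * y 5 (σ a') * y 1 a)⁻¹ =
    x 2 (N * u) := by
  have s := sa p D ha
  have two := p.two
  rw [cj_cj, cj_cj, a14 p D a hN, cj_mul (y 5 _), cj_mul (y 5 _), a54 p D,
    a52 p D (σ a') (n := N') (by rw [hN', D.quad.sq, mul_comm]),
    a53 p D (σ a') _ (n := 0) (by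
      rw [show σ a * j u * σ a' = j u by linear_combination j u * s, sj D, aa D, map_zero]),
    nf5 p D, nf3 p D, nf4 p D u, nf p D, nf p D, D.quad.sq, map_mul, hN,
    show a' * (a * σ a * j u) + σ a * j u + 0 = 0 by
      linear_combination σ a * j u * ha + aa D (σ a * j u),
    show N' * (N * u) + 0 + u = 0 by linear_combination u * NN p D ha hN hN' + u * two,
    add_zero, add_zero, ← nf2 p D, a12 p D]

theorem n2' (u : F) : y 1 a * y 5 (σ a') * y 1 a * x 2 u * (y 1 a * y 5 (σ a') * y 1 a)⁻¹ =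
    x 4 (N' * u) := by
  have s := sa p D ha
  have two := p.two
  rw [cj_cj, cj_cj, a12 p D, a52 p D (σ a') (n := N') (by rw [hN', D.quad.sq, mul_comm]),
    cj_mul, cj_mul, a12 p D, a14 p D a hN, D.quad.sq, a13 p D a _ (n := 0) (by
      rw [show a * (a' * j u) = j u by linear_combination j u * ha, sj D, aa D, map_zero]),
    nf3' p D 0, nf2 p D u, nf p D, nf p D, map_mul, hN',
    show σ a * (a' * σ a' * j u) + a' * j u + 0 = 0 by
      linear_combination a' * j u * s + aa D (a' * j u),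
    show N * (N' * u) + 0 + u = 0 by linear_combination u * NN p D ha hN hN' + u * two,
    add_zero, add_zero, ← nf4 p D]

theorem n3 (b : A) : y 1 a * y 5 (σ a') * y 1 a * y 3 b * (y 1 a * y 5 (σ a') * y 1 a)⁻¹ =
    y 3 (a' * σ a * σ b) := by
  have s := sa p D ha
  have two := p.two
  obtain ⟨T, hT⟩ := ex_tr D (a * b)
  have e1 : a' * j T + b = a' * σ a * σ b := by
    rw [hT, map_mul]; linear_combination b * ha + aa D b
  rw [cj_cj, cj_cj, a13 p D a b hT, cj_mul (y 5 _),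
    a52 p D (σ a') (n := N') (by rw [hN', D.quad.sq, mul_comm]),
    a53 p D (σ a') b (n := N' * T) (by
      rw [map_mul, hN', hT, map_mul, map_mul, D.quad.sq]
      linear_combination σ a' * b * ha + a' * σ b * s),
    nf5 p D, nf3 p D, nf p D, D.quad.sq, e1, add_zero, show N' * T + N' * T = 0 by
      linear_combination N' * T * two, ← nf3' p D, cj_mul, a12 p D,
    a13 p D a _ (n := T) (by
      rw [hT, show a * (a' * σ a * σ b) = σ (a * b) by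
        rw [map_mul]; linear_combination σ a * σ b * ha, D.quad.sq, add_comm]),
    ← mul_assoc, xsq p, one_mul]

end DS

variable (C : Ctx L x t) (D : DblS L x t j σ y)
include C

theorem tor_n1 {h : G} {α β : Fˣ} (H : Tor x h α β) :
    Tor x (n2 x 1 * h * (n2 x 1)⁻¹) α⁻¹ (α ^ 2 * β) := by
  intro i a
  have i1 := inv_eq_of_mul_eq_one_right (C.kb.nsq 1)
  have e : wt α β (2 * 1 + 4 - i) = wt α⁻¹ (α ^ 2 * β) i := by
    revert i
    have : ∀ i : ZMod 8, i = 0 ∨ i = 1 ∨ i = 2 ∨ i = 3 ∨ i = 4 ∨ i = 5 ∨ i = 6 ∨ i = 7 := by decide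
    intro i
    rcases this i with rfl | rfl | rfl | rfl | rfl | rfl | rfl | rfl <;>
      simp +decide only [wt, if_true, if_false] <;> apply Units.ext <;> push_cast <;> field_simp
  rw [cj_cj, cj_cj, show (n2 x 1)⁻¹ * x i a * (n2 x 1)⁻¹⁻¹ = x (2 * 1 + 4 - i) a by
    rw [i1]; exact C.kp.nn 1 i a, H, C.kp.nn, e, show 2 * 1 + 4 - (2 * 1 + 4 - i) = i by ring]

theorem cenL {g : G} (h2 : ∀ u, Commute g (x 2 u)) (h3 : ∀ u, Commute g (x 3 u))
    (h4 : ∀ u, Commute g (x 4 u)) (h6 : ∀ u, Commute g (x 6 u)) (h0 : ∀ u, Commute g (x 0 u)) :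
    g ∈ C[L] := by
  have p := C.mod.pin
  have h1 : ∀ u, Commute g (x 1 u) := fun u => by
    have e : ⁅x 0 u, x 3 1⁆ = x 1 (u * 1) * x 2 (u * 1 ^ 2) := p.rl 0 (by decide) u 1
    have := (e ▸ comm_cm (h0 u) (h3 1)).mul_right (h2 (u * 1 ^ 2)).inv_right
    rwa [mul_inv_cancel_right, mul_one] at this
  have h5 : ∀ u, Commute g (x 5 u) := fun u => by
    have e : ⁅x 3 1, x 6 u⁆ = x 4 (1 ^ 2 * u) * x 5 (1 * u) := p.rs 3 (by decide) 1 u
    have := (h4 (1 ^ 2 * u)).inv_right.mul_right (e ▸ comm_cm (h3 1) (h6 u))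
    rwa [inv_mul_cancel_left, one_mul] at this
  have h7 : ∀ u, Commute g (x 7 u) := fun u => by
    have e : ⁅x 5 1, x 0 u⁆ = x 6 (1 ^ 2 * u) * x 7 (1 * u) := p.rs 5 (by decide) 1 u
    have := (h6 (1 ^ 2 * u)).inv_right.mul_right (e ▸ comm_cm (h5 1) (h0 u))
    rwa [inv_mul_cancel_left, one_mul] at this
  have all : ∀ i u, Commute g (x i u) := by
    have : ∀ i : ZMod 8, i = 0 ∨ i = 1 ∨ i = 2 ∨ i = 3 ∨ i = 4 ∨ i = 5 ∨ i = 6 ∨ i = 7 := by decide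
    intro i
    rcases this i with rfl | rfl | rfl | rfl | rfl | rfl | rfl | rfl <;> assumption
  have : L ≤ C1[g] := by
    rw [← C.mod.gen, UU, H34.rootU, closure_le]
    rintro _ ⟨i, -, hi⟩
    obtain ⟨a, rfl⟩ := (C.kp.memX i _).1 hi
    exact mem_centralizer_singleton_iff.2 (all i a).symm
  exact fun l hl => mem_centralizer_singleton_iff.1 (this hl)

include D

theorem odd_k {k : G} (h2 : ∀ u, Commute k (x 2 u)) (h3 : ∀ b, Commute k (y 3 b))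
    (h4 : ∀ u, Commute k (x 4 u)) (h6 : ∀ u, Commute k (x 6 u)) (h0 : ∀ u, Commute k (x 0 u)) :
    Odd (orderOf k) := by
  let X : Set G := {g | (∃ u, g = x 2 u) ∨ (∃ b, g = y 3 b) ∨ (∃ u, g = x 4 u) ∨
    (∃ u, g = x 6 u) ∨ ∃ u, g = x 0 u}
  have tt : t * t = 1 := by rw [← pow_two, ← C.tc.t2, pow_orderOf_eq_one]
  have ti := inv_eq_of_mul_eq_one_right tt
  have hX : ∀ g ∈ X, t * g * t⁻¹ ∈ X := by
    have f : ∀ i u, t * x i u * t⁻¹ = x i u := fun i u => cj_fix (C.kb.tL _ (C.kb.xL i u))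
    rintro _ (⟨u, rfl⟩ | ⟨u, rfl⟩ | ⟨u, rfl⟩ | ⟨u, rfl⟩ | ⟨u, rfl⟩)
    · exact Or.inl ⟨u, f _ _⟩
    · exact Or.inr (Or.inl ⟨_, D.conj 3 (by decide) u⟩)
    · exact Or.inr (Or.inr (Or.inl ⟨u, f _ _⟩))
    · exact Or.inr (Or.inr (Or.inr (Or.inl ⟨u, f _ _⟩)))
    · exact Or.inr (Or.inr (Or.inr (Or.inr ⟨u, f _ _⟩)))
  have hΓ : ∀ g ∈ centralizer X, t * g * t⁻¹ ∈ centralizer X := fun g hg z hz => by
    have : Commute (t * z * t⁻¹) g := hg _ (hX z hz)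
    have := this.conj t
    rwa [show t * (t * z * t⁻¹) * t⁻¹ = t * t * z * (t * t)⁻¹ by group, tt, one_mul, inv_one,
      mul_one] at this
  refine C.kb.oddN (centralizer X) (mem_normalizer_iff.2 fun g => ⟨hΓ g, fun hg => ?_⟩)
    (fun g hg hgt hgg => ?_) k ?_
  · have := hΓ _ hg
    rwa [show t * (t * g * t⁻¹) * t⁻¹ = t * t * g * (t * t)⁻¹ by group, tt, one_mul, inv_one,
      mul_one] at this
  · have c3 : ∀ b, Commute g (y 3 b) := fun b => (hg _ (Or.inr (Or.inl ⟨b, rfl⟩))).symm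
    refine (C.tc.one g (cenL C (fun u => (hg _ (Or.inl ⟨u, rfl⟩)).symm)
      (fun u => D.res 3 (by decide) u ▸ c3 _)
      (fun u => (hg _ (Or.inr (Or.inr (Or.inl ⟨u, rfl⟩)))).symm)
      (fun u => (hg _ (Or.inr (Or.inr (Or.inr (Or.inl ⟨u, rfl⟩))))).symm)
      (fun u => (hg _ (Or.inr (Or.inr (Or.inr (Or.inr ⟨u, rfl⟩))))).symm)) hgt hgg).resolve_right
      fun e => ?_
    obtain ⟨ω, hω⟩ := D.quad.tr
    have := D.conj 3 (by decide) ω
    rw [cj_fix (e ▸ c3 ω), hω, D.add 3 (by decide), left_eq_mul, ← map_one j,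
      D.res 3 (by decide)] at this
    exact one_ne_zero (C.mod.pin.inj 3 1 this)
  · rintro _ (⟨u, rfl⟩ | ⟨u, rfl⟩ | ⟨u, rfl⟩ | ⟨u, rfl⟩ | ⟨u, rfl⟩)
    exacts [(h2 u).symm, (h3 u).symm, (h4 u).symm, (h6 u).symm, (h0 u).symm]

theorem n3n (a c : A) : n2 x 3 * (y 1 a * y 5 c * y 1 a) * (n2 x 3)⁻¹ =
    y 1 (σ a) * y 5 (σ c) * y 1 (σ a) := by
  have e1 : n2 x 3 * y 1 a * (n2 x 3)⁻¹ = y 1 (σ a) := D.wey 3 1 (by decide) a
  have e5 : n2 x 3 * y 5 c * (n2 x 3)⁻¹ = y 5 (σ c) := D.wey 3 5 (by decide) c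
  rw [cj_mul, cj_mul, e1, e5]

theorem cj_tr {w n n' z z' c c' : G} (h1 : w * n * w⁻¹ = n') (h2 : w * z * w⁻¹ = z')
    (h3 : w * c * w⁻¹ = c') (H : n * z * n⁻¹ = c) : n' * z' * n'⁻¹ = c' := by
  rw [← h1, ← h2, ← h3, ← H]; group

theorem kcom {n h h' z z' : G} (H : n * (h' * z * h'⁻¹) * n⁻¹ = h * z' * h⁻¹)
    (e : n * z * n⁻¹ = z') : Commute (h⁻¹ * (n * h' * n⁻¹)) z' := by
  have : h⁻¹ * (n * h' * n⁻¹) * z' * (h⁻¹ * (n * h' * n⁻¹))⁻¹ = z' := by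
    nth_rewrite 1 [← e]
    rw [show h⁻¹ * (n * h' * n⁻¹) * (n * z * n⁻¹) * (h⁻¹ * (n * h' * n⁻¹))⁻¹ =
      h⁻¹ * (n * (h' * z * h'⁻¹) * n⁻¹) * h by group, H]
    group
  exact mul_inv_eq_iff_eq_mul.1 this

theorem k_com {a a' : A} (ha : a * a' = 1) {h : G} (hh : h ∈ TT x L 2) {n k : G}
    (hn : n = y 1 a * y 5 (σ a') * y 1 a)
    (hk : k = h⁻¹ * (n * (n2 x 1 * h * (n2 x 1)⁻¹) * n⁻¹)) :
    (∀ u, Commute k (x 2 u)) ∧ (∀ b, Commute k (y 3 b)) ∧ (∀ u, Commute k (x 4 u)) ∧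
      (∀ u, Commute k (x 6 u)) ∧ ∀ u, Commute k (x 0 u) := by
  have p := C.mod.pin
  obtain ⟨N, hN⟩ := ex_nm D a
  obtain ⟨N', hN'⟩ := ex_nm D a'
  have nn := NN p D ha hN hN'
  have s := sa p D ha
  obtain ⟨hL, α, β, H, hw⟩ := (C.kb.memT 2 h).1 hh
  have hw' : α ^ 2 * β = 1 := hw
  have H' := tor_n1 C H
  rw [hw'] at H'
  have hb : β = (α ^ 2)⁻¹ := eq_inv_of_mul_eq_one_right hw'
  subst hb
  have hL' : n2 x 1 * h * (n2 x 1)⁻¹ ∈ L :=
    mul_mem (mul_mem (C.kb.nL 1) hL) (inv_mem (C.kb.nL 1))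
  have m4 := n4 p D ha hN hN'
  have m2 := n2' p D ha hN hN'
  have m3 := n3 p D ha hN hN'
  have q := n3n C D (σ a) a'
  rw [D.quad.sq] at q
  have r4 := n4 p D (a := σ a) (a' := σ a') s (N := N) (N' := N')
    (by rw [hN, D.quad.sq, mul_comm]) (by rw [hN', D.quad.sq, mul_comm])
  have r2 := n2' p D (a := σ a) (a' := σ a') s (N := N) (N' := N')
    (by rw [hN, D.quad.sq, mul_comm]) (by rw [hN', D.quad.sq, mul_comm])
  rw [D.quad.sq] at r4 r2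
  have m6 : ∀ u, n * x 6 u * n⁻¹ = x 0 (N * u) := fun u =>
    hn ▸ cj_tr C D q (C.kp.nn 3 4 u) (C.kp.nn 3 2 _) (r4 u)
  have m0 : ∀ u, n * x 0 u * n⁻¹ = x 6 (N' * u) := fun u =>
    hn ▸ cj_tr C D q (C.kp.nn 3 2 u) (C.kp.nn 3 4 _) (r2 u)
  rw [← hn] at m4 m2 m3
  have u1 : ∀ u, N * (N' * u) = u := fun u => by rw [← mul_assoc, nn, one_mul]
  have u2 : ∀ u, N' * (N * u) = u := fun u => by rw [← mul_assoc, mul_comm N', nn, one_mul]
  subst hk
  refine ⟨fun u => kcom C D (z := x 4 (N' * u)) ?_ (by rw [m4, u1]),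
    fun b => kcom C D (z := y 3 (a' * σ a * σ b)) ?_ ?_,
    fun u => kcom C D (z := x 2 (N * u)) ?_ (by rw [m2, u2]),
    fun u => kcom C D (z := x 0 (N * u)) ?_ (by rw [m0, u2]),
    fun u => kcom C D (z := x 6 (N' * u)) ?_ (by rw [m6, u1])⟩
  · rw [H', H, m4]
    congr 1
    simp +decide only [wt, if_true, if_false]
    simp [u1]
  · rw [D.tor _ hL' _ _ H' 3 (by decide), D.tor _ hL _ _ H 3 (by decide), m3]
    congr 1
    have : wt α⁻¹ 1 3 = wt α (α ^ 2)⁻¹ 3 := by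
      simp +decide only [wt, if_true, if_false]
      apply Units.ext; push_cast; field_simp
    rw [this, map_mul, map_mul, map_mul, sj D, D.quad.sq, D.quad.sq]
    linear_combination j (wt α (α ^ 2)⁻¹ 3 : Fˣ) * b * (σ a * σ a' * ha + s)
  · rw [m3, map_mul, map_mul, D.quad.sq, D.quad.sq]
    congr 1
    linear_combination b * (σ a * σ a' * ha + s)
  · rw [H', H, m2]
    congr 1
    simp +decide only [wt, if_true, if_false]
    simp [mul_left_comm N' (_ ^ 2)⁻¹, u2]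
  · rw [H', H, m0]
    congr 1
    simp +decide only [wt, if_true, if_false]
    simp [u2]
  · rw [H', H, m6]
    congr 1
    simp +decide only [wt, if_true, if_false]
    simp [mul_left_comm N (_ ^ 2), u1]

theorem hz {a s ν : A} (H : Hz σ s ν) (u : F) : Hz σ (a * s) (a * σ a * ν + j u) := by
  rw [Hz] at H ⊢
  rw [map_add, map_mul, map_mul, map_mul, D.quad.sq, sj D]
  linear_combination a * σ a * H + aa D (j u)

omit D

theorem dec {Yh : ZMod 8 → Subgroup G} {S P R W2 W4 : Subgroup G} {E : ZMod 8 → A → A → G}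
    {f : A → A → F} (T : T3 L x t j σ y Yh S P R W2 W4) (hW : ∀ p, p ∈ W2 ↔ p ∈ TldS L x t 2)
    (Df : DblF L x t j σ y E f) {a a' : A} (ha : a * a' = 1) {e : G} (he : e ∈ W4) :
    ∃ e2 ∈ W2, ∃ s ∈ S,
      y 1 a * y 5 (σ a') * y 1 a * e * (y 1 a * y 5 (σ a') * y 1 a)⁻¹ = e2 * s := by
  have D := T.ds
  have p := C.mod.pin
  have i1 := inv_eq_of_mul_eq_one_right (C.kb.nsq 1)
  have w24 : ∀ s ν, Hz σ s ν → n2 x 1 * E 2 s ν * (n2 x 1)⁻¹ = E 4 s ν := Df.wey 1 2 (by decide)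
  have w42 : ∀ s ν, Hz σ s ν → n2 x 1 * E 4 s ν * (n2 x 1)⁻¹ = E 2 s ν := Df.wey 1 4 (by decide)
  have m2 : ∀ {s ν}, Hz σ s ν → E 2 s ν ∈ W2 := fun h =>
    (hW _).2 ((Df.mem 2 (by decide) _).2 ⟨_, _, h, rfl⟩)
  have m4 : ∀ {s ν}, Hz σ s ν → E 4 s ν ∈ W4 := fun h => (T.l3.sw _).2 (w42 _ _ h ▸ m2 h)
  obtain ⟨s, ν, H, hs⟩ := (Df.mem 2 (by decide) _).1 ((hW _).1 ((T.l3.sw e).1 he))
  obtain rfl : e = E 4 s ν := by
    rw [← w24 _ _ H, ← hs, ← cj_cj, C.kb.nsq, one_mul, inv_one, mul_one]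
  have y3S : ∀ b, y 3 b ∈ S := fun b => (T.l1.memS _).2 ⟨0, b, 0, by
    rw [x0 p, x0 p, one_mul, mul_one]⟩
  have cS : ∀ {g}, g ∈ R → ∀ {z}, z ∈ S → Commute z g := fun hg z hz =>
    ((T.l2.mem _).1 hg).2.1 z hz
  have R2 : ∀ {g}, g ∈ W2 → g ∈ R := fun hg => (T.l3.two ▸ hg).1
  have R4 : ∀ {g}, g ∈ W4 → g ∈ R := fun hg => (T.l3.four ▸ hg).1
  have hat : ∀ i, sh i → ∀ b, y i b ∈ HatS L x t 0 i := fun i hi b => (D.hat i hi _).2 ⟨b, rfl⟩
  have c54 : ∀ c, Commute (E 4 s ν) (y 5 c) := fun c =>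
    ((Df.mem 4 (by decide) _).2 ⟨_, _, H, rfl⟩).2.2.1 _ (Or.inr (hat 5 (by decide) c))
  have H2 := hz C D (a := a) H (f a s)
  have e1 := cj_of_cm (Df.l3 a s ν H)
  have c12 : Commute (E 2 (a * s) (a * σ a * ν + j (f a s))) (y 1 a) :=
    ((Df.mem 2 (by decide) _).2 ⟨_, _, H2, rfl⟩).2.2.1 _ (Or.inl (hat 1 (by decide) a))
  have he2 := m2 H2
  have H4 := hz C D (a := a') H2 (f a' (a * s))
  have e5 := cj_tr C D (D.wey 1 1 (by decide) a') (w42 _ _ H2) rfl (cj_of_cm (Df.l3 a' _ _ H2))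
  rw [cj_mul, cj_mul, w24 _ _ H4, w42 _ _ H2, D.wey 1 3 (by decide)] at e5
  have as : a' * (a * s) = s := by linear_combination s * ha
  rw [as] at e5 H4
  generalize a' * σ a' * (a * σ a * ν + j (f a s)) + j (f a' (a * s)) = μ at e5 H4
  obtain ⟨b0, hb0⟩ := T.l3.l2 _ he2 _ (m4 H4)
  generalize E 2 (a * s) (a * σ a * ν + j (f a s)) = e2 at e1 c12 he2 e5 hb0
  have x4S : E 4 s μ * E 4 s ν ∈ S := by
    rw [Df.mul 4 (by decide) _ _ _ _ H4 H, aa D]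
    obtain ⟨u, hu⟩ := (D.quad.fix (μ + ν + s * σ s)).1 (by
      rw [Hz] at H H4
      rw [map_add, map_add, map_mul, D.quad.sq]
      linear_combination H + H4 + aa D (s * σ s) - aa D μ - aa D ν)
    rw [hu, Df.res 4 (by decide)]
    exact (T.l1.memS _).2 ⟨0, 0, u, by rw [x0 p, y0 D (by decide), one_mul, one_mul]⟩
  have g5 := (mem_normalizer_iff.1 (T.l1.nS.2.2 (σ a')).2 _).1 (y3S (σ a * ν))
  change y 5 (σ a') * e2 * (y 5 (σ a'))⁻¹ = E 4 s μ * y 3 _ * e2 at e5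
  generalize σ (σ a' * (a * σ a * ν + j (f a s))) = b1 at e5
  refine ⟨e2, he2, y 1 a * ((y 3 b0)⁻¹ * y 3 b1 * (y 5 (σ a') * y 3 (σ a * ν) * (y 5 (σ a'))⁻¹) *
    (E 4 s μ * E 4 s ν)) * (y 1 a)⁻¹, (mem_normalizer_iff.1 (T.l1.nS.2.2 a).1 _).1
      (mul_mem (mul_mem (mul_mem (inv_mem (y3S _)) (y3S _)) g5) x4S), ?_⟩
  rw [cj_cj, cj_cj, e1, cj_mul (y 5 _), cj_mul (y 5 _), e5, cj_fix (c54 _).symm]
  generalize y 5 (σ a') * y 3 (σ a * ν) * (y 5 (σ a'))⁻¹ = g at g5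
  have k1 : E 4 s μ * e2 = e2 * (y 3 b0)⁻¹ * E 4 s μ := by
    rw [← (cS (R2 he2) (inv_mem (y3S b0))).eq, ← hb0, commutatorElement_def]; group
  nth_rewrite 2 [← cj_fix c12.symm]
  rw [← cj_mul, mul_assoc (E 4 s μ), (cS (R2 he2) (y3S b1)).eq, ← mul_assoc (E 4 s μ), k1,
    mul_assoc _ (y 3 b1), mul_assoc _ (E 4 s μ),
    ← (cS (R4 (m4 H4)) (mul_mem (y3S b1) g5)).eq]
  group

omit C

/-- **F0A** -/
theorem f0a : F0aStmt.{u, v} := by
  intro F _ _ G _ _ L x t C A _ j σ y Yh S P R W2 W4 E f T hW Df a a' ha e he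
  have D := T.ds
  obtain ⟨e2, he2, s, hs, hr⟩ := dec C T hW Df ha he
  have nR : y 1 a * y 5 (σ a') * y 1 a ∈ N[R] :=
    mul_mem (mul_mem (T.l2'.n1 a).1 (T.l2'.n1 _).2) (T.l2'.n1 a).1
  rw [T.l3.four] at he
  rw [T.l3.two] at he2 ⊢
  refine ⟨(mem_normalizer_iff.1 nR e).1 he.1, fun h hh => ?_⟩
  obtain ⟨k2, k3, k4, k6, k0⟩ := k_com C D ha hh rfl rfl
  have ko := odd_k C D k2 k3 k4 k6 k0
  have c1 : Commute (n2 x 1 * h * (n2 x 1)⁻¹) e := he.2 _ (C.kb.nT 1 2 h hh)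
  have c2 := c1.conj (y 1 a * y 5 (σ a') * y 1 a)
  generalize y 1 a * y 5 (σ a') * y 1 a = n at *
  generalize n * (n2 x 1 * h * (n2 x 1)⁻¹) * n⁻¹ = m at *
  rw [hr] at c2 ⊢
  have kS : ∀ z ∈ S, Commute (h⁻¹ * m) z := fun z hz => by
    obtain ⟨a, b, c, rfl⟩ := (T.l1.memS z).1 hz
    exact ((k2 a).mul_right (k3 b)).mul_right (k4 c)
  have c3 : Commute h e2 := he2.2 h hh
  have s1 : s⁻¹ * (h⁻¹ * s * h⁻¹⁻¹) ∈ S := mul_mem (inv_mem hs)
    ((mem_normalizer_iff.1 (inv_mem (T.l1.nS.2.1 hh.1)) _).1 hs)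
  have e1 : h⁻¹ * m * (e2 * s) * (h⁻¹ * m)⁻¹ = e2 * s * (s⁻¹ * (h⁻¹ * s * h⁻¹⁻¹)) := by
    rw [cj_cj, cj_fix c2, cj_mul, cj_fix c3.inv_left]; group
  have c4 : Commute (h⁻¹ * m * (h⁻¹ * m)) (e2 * s) := by
    have : h⁻¹ * m * (h⁻¹ * m) * (e2 * s) * (h⁻¹ * m * (h⁻¹ * m))⁻¹ = e2 * s := by
      rw [cj_cj, e1, cj_mul, e1, cj_fix (kS _ s1), mul_assoc, T.l1.sqS _ s1, mul_one]
    exact mul_inv_eq_iff_eq_mul.1 this
  simpa using (c2.mul_left (comm_of_sq ko c4).inv_left).eq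

end Cfsg.Agent.H51.S4F0a
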