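import Cfsg.Agent.H50.E72Defs

/-! Project E72: fixed spaces of an elementary abelian group of order 81 with fusion by weight. -/

set_option autoImplicit false
set_option maxRecDepth 100000

namespace Cfsg.Agent.H51.E72A13a

open Cfsg.Agent.H50.E72 Cfsg.Lie Module Multiplicative

/-- representatives of the weights -/
def rp (i : ℕ) : E4 := fun j => if j.val < i then 1 else 0

theorem wt_rp : ∀ e : E4, wt4 e = wt4 (rp (wt4 e)) := by decide +kernel
theorem three : ∀ e : E4, 3 • e = 0 := by decide +kernel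
theorem wt_lt : ∀ e : E4, wt4 e < 5 := by decide +kernel

theorem cnt (hc : CntStmt) (hk : KitStmt) {n : Type} [Fintype n] [DecidableEq n]
    (π : G0 →* Matrix n n (ZMod 2)) (x : Multiplicative E4 →* G0)
    (h : ∀ e e', wt4 e = wt4 e' → IsConj (x (ofAdd e)) (x (ofAdd e'))) (k : ℕ)
    (ι : (Fin (k + 1) → ZMod 3) →+ E4) (m : ℕ → ℕ)
    (hm : ∀ i < 5, (Finset.univ.filter fun e => wt4 (ι e) = i).card = m i) :
    m 0 * Fintype.card n + m 1 * fx π (x (ofAdd (rp 1))) + m 2 * fx π (x (ofAdd (rp 2))) +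
      m 3 * fx π (x (ofAdd (rp 3))) + m 4 * fx π (x (ofAdd (rp 4))) =
      3 ^ k * Fintype.card n + 2 * 3 ^ k * finrank K (Fix π (Set.range fun e => x (ofAdd (ι e)))) := by
  have e := hc n π k (x.comp (AddMonoidHom.toMultiplicative ι)) ⊤ fun _ _ _ => trivial
  have t : ∀ W : Submodule K (n → K), finrank K ↥(⊤ ⊓ W) = finrank K W := fun W => by
    rw [top_inf_eq]
  simp only [t, finrank_top, finrank_fintype_fun_eq_card] at e
  have e1 : ∑ e : Multiplicative (Fin (k + 1) → ZMod 3),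
      finrank K (eig π ((x.comp (AddMonoidHom.toMultiplicative ι)) e) 1) =
      ∑ e : Fin (k + 1) → ZMod 3, fx π (x (ofAdd (rp (wt4 (ι e))))) :=
    Fintype.sum_equiv toAdd _ _ fun e => (hk n π).1 _ _ 1 (h _ _ (wt_rp _))
  have e2 : ∑ e : Fin (k + 1) → ZMod 3, fx π (x (ofAdd (rp (wt4 (ι e))))) =
      ∑ i ∈ Finset.range 5, m i * fx π (x (ofAdd (rp i))) := by
    rw [← Finset.sum_fiberwise_of_maps_to (g := fun e => wt4 (ι e)) (t := Finset.range 5)
      fun e _ => Finset.mem_range.2 (wt_lt _)]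
    refine Finset.sum_congr rfl fun i hi => ?_
    rw [← hm i (Finset.mem_range.1 hi), ← smul_eq_mul, ← Finset.sum_const]
    exact Finset.sum_congr rfl fun e he => by rw [(Finset.mem_filter.1 he).2]
  have e3 : fx π (x (ofAdd (rp 0))) = Fintype.card n := by
    rw [show rp 0 = 0 from rfl, ofAdd_zero, map_one]
    exact (hk n π).2.2.1
  rw [e1, e2] at e
  simp only [Finset.sum_range_succ, Finset.sum_range_zero, zero_add, e3] at e
  exact e

/-- the first three coordinates -/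
def i3 : (Fin 3 → ZMod 3) →+ E4 := AddMonoidHom.mk' (fun e => ![e 0, e 1, e 2, 0]) fun a b => by
  funext i; fin_cases i <;> simp
/-- another hyperplane -/
def j3 : (Fin 3 → ZMod 3) →+ E4 := AddMonoidHom.mk' (fun e => ![e 0, -e 0, e 1, e 2]) fun a b => by
  funext i; fin_cases i <;> simp [add_comm]
/-- the first two coordinates -/
def i2 : (Fin 2 → ZMod 3) →+ E4 := AddMonoidHom.mk' (fun e => ![e 0, e 1, 0, 0]) fun a b => by
  funext i; fin_cases i <;> simp

theorem fix_mono {n : Type} [Fintype n] [DecidableEq n] (π : G0 →* Matrix n n (ZMod 2))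
    {S T : Set G0} (h : S ⊆ T) : finrank K (Fix π T) ≤ finrank K (Fix π S) :=
  Submodule.finrank_mono fun _ hv => (mem_Fix π).2 fun g hg => (mem_Fix π).1 hv g (h hg)

theorem fix_eq {n : Type} [Fintype n] [DecidableEq n] (π : G0 →* Matrix n n (ZMod 2))
    {S T : Set G0} (h : S ⊆ T) (h' : T ⊆ Subgroup.closure S) : Fix π T = Fix π S := by
  refine le_antisymm (fun _ hv => (mem_Fix π).2 fun g hg => (mem_Fix π).1 hv g (h hg))
    fun v hv => (mem_Fix π).2 fun g hg => ?_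
  refine Subgroup.closure_induction (p := fun g _ => act π g v = v) ((mem_Fix π).1 hv)
    (by rw [map_one]; rfl) (fun a b _ _ ha hb => by rw [map_mul, Module.End.mul_apply, hb, ha])
    (fun a _ ha => ?_) (h' hg)
  conv_lhs => rw [← ha]
  rw [← Module.End.mul_apply, ← map_mul, inv_mul_cancel, map_one]
  rfl

theorem dec2 : ∀ e : Fin 2 → ZMod 3,
    i2 e = (e 0).val • ![1, 0, 0, 0] + (e 1).val • ![0, 1, 0, 0] := by decide +kernel
theorem dec3 : ∀ e : Fin 3 → ZMod 3, i3 e =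
    (e 0).val • ![1, 0, 0, 0] + (e 1).val • ![0, 1, 0, 0] + (e 2).val • ![0, 0, 1, 0] := by
  decide +kernel

theorem arith {p1 p2 p3 p4 : ℕ × ℕ} {d4 d3 d' d2 da : ℕ}
    (h1 : p1 ∈ [(2, 79), (14, 49), (20, 43), (20, 49), (32, 67)])
    (h2 : p2 ∈ [(2, 79), (14, 49), (20, 43), (20, 49), (32, 67)])
    (h3 : p3 ∈ [(2, 79), (14, 49), (20, 43), (20, 49), (32, 67)])
    (h4 : p4 ∈ [(2, 79), (14, 49), (20, 43), (20, 49), (32, 67)])
    (e4 : 1 * 56 + 8 * p1.1 + 24 * p2.1 + 32 * p3.1 + 16 * p4.1 = 3 ^ 3 * 56 + 2 * 3 ^ 3 * d4)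
    (e3 : 1 * 56 + 6 * p1.1 + 12 * p2.1 + 8 * p3.1 + 0 * p4.1 = 3 ^ 2 * 56 + 2 * 3 ^ 2 * d3)
    (e' : 1 * 56 + 4 * p1.1 + 6 * p2.1 + 8 * p3.1 + 8 * p4.1 = 3 ^ 2 * 56 + 2 * 3 ^ 2 * d')
    (e2 : 1 * 56 + 4 * p1.1 + 4 * p2.1 + 0 * p3.1 + 0 * p4.1 = 3 ^ 1 * 56 + 2 * 3 ^ 1 * d2)
    (ea : 1 * 133 + 8 * p1.2 + 24 * p2.2 + 32 * p3.2 + 16 * p4.2 = 3 ^ 3 * 133 + 2 * 3 ^ 3 * da)
    (l3 : d4 ≤ d3) (l' : d4 ≤ d') : 52 ≤ p2.1 + p4.1 ∨ d2 = 4 ∧ d3 < 4 := by
  simp only [List.mem_cons, List.not_mem_nil, or_false] at h1 h2 h3 h4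
  rcases h1 with rfl | rfl | rfl | rfl | rfl <;> rcases h2 with rfl | rfl | rfl | rfl | rfl <;>
    first
    | omega
    | (rcases h3 with rfl | rfl | rfl | rfl | rfl <;>
        first
        | omega
        | (rcases h4 with rfl | rfl | rfl | rfl | rfl <;> omega))

theorem a13a (h3 : C3Stmt) (hc : CntStmt) (hk : KitStmt) : A13aStmt := by
  intro π hπ x hx h
  have c : ∀ i, rp i ≠ 0 → (fx π (x (ofAdd (rp i))), fx ad (x (ofAdd (rp i)))) ∈
      [(2, 79), (14, 49), (20, 43), (20, 49), (32, 67)] := fun i hi => h3 π hπ _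
    (by rw [← map_pow, ← ofAdd_nsmul, three (rp i), ofAdd_zero, map_one])
    fun e => hi (ofAdd_eq_one.1 (hx (e.trans (map_one x).symm)))
  have e4 := cnt hc hk π x h 3 (AddMonoidHom.id _) (fun i => [1, 8, 24, 32, 16].getD i 0)
    (by decide +kernel)
  have e3 := cnt hc hk π x h 2 i3 (fun i => [1, 6, 12, 8, 0].getD i 0) (by decide +kernel)
  have e' := cnt hc hk π x h 2 j3 (fun i => [1, 4, 6, 8, 8].getD i 0) (by decide +kernel)
  have e2 := cnt hc hk π x h 1 i2 (fun i => [1, 4, 4, 0, 0].getD i 0) (by decide +kernel)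
  have ea := cnt hc hk ad x h 3 (AddMonoidHom.id _) (fun i => [1, 8, 24, 32, 16].getD i 0)
    (by decide +kernel)
  rw [show Fintype.card chevE7.Idx = 133 by rw [Fintype.card_sum, Fintype.card_fin, Fintype.card_fin]; rfl]
    at ea
  rw [Fintype.card_fin] at e4 e3 e' e2
  have r := arith (c 1 (by decide)) (c 2 (by decide)) (c 3 (by decide)) (c 4 (by decide))
    e4 e3 e' e2 ea (fix_mono π (by rintro _ ⟨e, rfl⟩; exact ⟨_, rfl⟩))
    (fix_mono π (by rintro _ ⟨e, rfl⟩; exact ⟨_, rfl⟩))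
  have f2 : Fix π (Set.range fun e => x (ofAdd (i2 e))) =
      Fix π {x (ofAdd ![1, 0, 0, 0]), x (ofAdd ![0, 1, 0, 0])} := by
    refine fix_eq π ?_ ?_
    · rintro _ (rfl | rfl)
      · exact ⟨![1, 0], rfl⟩
      · exact ⟨![0, 1], rfl⟩
    · rintro _ ⟨e, rfl⟩
      simp only [dec2 e, ofAdd_add, ofAdd_nsmul, map_mul, map_pow]
      exact mul_mem (pow_mem (Subgroup.subset_closure (by simp)) _)
        (pow_mem (Subgroup.subset_closure (by simp)) _)
  have f3 : Fix π (Set.range fun e => x (ofAdd (i3 e))) =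
      Fix π {x (ofAdd ![1, 0, 0, 0]), x (ofAdd ![0, 1, 0, 0]), x (ofAdd ![0, 0, 1, 0])} := by
    refine fix_eq π ?_ ?_
    · rintro _ (rfl | rfl | rfl)
      · exact ⟨![1, 0, 0], rfl⟩
      · exact ⟨![0, 1, 0], rfl⟩
      · exact ⟨![0, 0, 1], rfl⟩
    · rintro _ ⟨e, rfl⟩
      simp only [dec3 e, ofAdd_add, ofAdd_nsmul, map_mul, map_pow]
      exact mul_mem (mul_mem (pow_mem (Subgroup.subset_closure (by simp)) _)
        (pow_mem (Subgroup.subset_closure (by simp)) _))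
        (pow_mem (Subgroup.subset_closure (by simp)) _)
  rw [f2, f3, show rp 2 = ![1, 1, 0, 0] by decide, show rp 4 = ![1, 1, 1, 1] by decide] at r
  exact r

end Cfsg.Agent.H51.E72A13a
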