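import Cfsg.Agent.H6.E82Defs

/-! Project E82: the number of trivial composition factors of a self-dual module. -/

set_option autoImplicit false

namespace Cfsg.Agent.H51.E82Pr

open Cfsg.Agent.H6.E82 Module Finset

theorem ee0 : ∀ r < 64, EE 65 r 0 = if r = 0 then 1 else 0 := by decide +kernel

theorem se0 (m : ℕ → ℕ) : SE m 65 0 = m 0 := by
  rw [SE, sum_eq_single 0 (fun r hr h => by rw [ee0 r (mem_range.1 hr), if_neg h, mul_zero])
    (by simp), ee0 0 (by norm_num), if_pos rfl, mul_one]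

theorem pw6 {m : ℕ → ℕ} (h : ∀ r < 64, m (sg r) = m r) : pw m = 6 * m 1 := by
  have h1 : m 2 = m 1 := h 1 (by norm_num)
  have h2 : m 4 = m 2 := h 2 (by norm_num)
  have h3 : m 8 = m 4 := h 4 (by norm_num)
  have h4 : m 16 = m 8 := h 8 (by norm_num)
  have h5 : m 32 = m 16 := h 16 (by norm_num)
  rw [pw]
  omega

theorem pr (ser : SerStmt) (mult : MultStmt) (zz : ZzStmt) (perp : PerpStmt) (hfr : FrStmt)
    (pr1 : Pr1Stmt) : PrStmt := by
  intro p W _ _ _ ρ B fr hB hs hF m hm m0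
  obtain ⟨s1, -, s3⟩ := ser p W ρ
  have d0 : ∀ U m, Mult ρ p U m → dm ρ (x0 p) 1 U = m 0 := fun U m h => by
    rw [← se0 m, ← h.1 0 (by norm_num), pow_zero]
  have z : ∀ U L, Ser ρ p U L → L.count 0 ≤ pw fun r => L.count r := fun U L h => by
    have := zz p W ρ U L h
    rwa [hF, inf_bot_eq, finrank_bot, zero_add] at this
  obtain ⟨M, iM, fM, dM, mx⟩ := pr1 (x0 p) W ρ fr hs
  obtain ⟨L, hL⟩ := s3 ⊥ [] M .nil bot_le iM
  rw [List.append_nil] at hL
  obtain ⟨mM, rM⟩ := mult p W ρ M L hL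
  have c0 : L.count 0 = 0 := (d0 _ _ mM).symm.trans dM
  obtain ⟨M', r, st, -⟩ := s1 M ⊤ iM (fun _ _ _ => trivial) (lt_top_iff_ne_top.2 fun e =>
    m0 (by rw [← d0 _ _ hm, ← e, dM]))
  obtain ⟨mM', rM'⟩ := mult p W ρ M' _ (hL.cons st)
  have c1 : (r :: L).count 0 ≠ 0 := fun e => by
    have h1 := Submodule.finrank_mono (mx M' st.2.2.1 ((d0 _ _ mM').trans e))
    have h2 : 0 < dS r := card_pos.2 ⟨0, by simp [JS]⟩
    rw [rM, rM', List.map_cons, List.sum_cons] at h1
    omega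
  obtain rfl : r = 0 := by
    by_contra h
    exact c1 (by rw [List.count_cons_of_ne h, c0])
  have z1 := z _ _ (hL.cons st)
  have p1 := pw6 (hfr p W ρ fr hs M _ fM mM)
  have p2 := pw6 (hfr p W ρ fr hs ⊤ _ (fun _ _ => trivial) hm)
  obtain ⟨L', hL'⟩ := s3 ⊥ [] (B.orthogonal M) .nil bot_le fun g v hv w hw => by
    have := hB.2.2 g (ρ g⁻¹ w) v
    rw [← Module.End.mul_apply, ← map_mul, mul_inv_cancel, map_one] at this
    exact this.trans (hv _ (iM _ w hw))
  rw [List.append_nil] at hL'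
  have a := perp p W ρ B hB M m _ _ iM hm mM (mult p W ρ _ _ hL').1
  have z2 := z _ _ hL'
  have a0 := a 0 (by norm_num)
  have a1 := a 1 (by norm_num)
  have a2 := a 2 (by norm_num)
  have a3 := a 4 (by norm_num)
  have a4 := a 8 (by norm_num)
  have a5 := a 16 (by norm_num)
  have a6 := a 32 (by norm_num)
  simp only [pw, List.count_cons, beq_iff_eq, Nat.reduceEqDiff, if_true, if_false, add_zero]
    at z1 z2 p1 p2
  omega

end Cfsg.Agent.H51.E82Pr
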