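import Mathlib
import Cfsg.Agent.H8.SylowIn

/-! Fixed points of Sylow subgroups on orbits: basic counting. -/

set_option autoImplicit false
set_option linter.unusedSectionVars false

namespace Cfsg.Agent.H51.FP

open Subgroup
open scoped Pointwise

universe u

variable {G : Type u} [Group G] [Finite G]

section defs
variable {W : Type*} [MulAction G W]

/-- orbit of a point under a subgroup -/
def orb (K : Subgroup G) (b : W) : Set W := {w | ∃ k ∈ K, k • b = w}

/-- stabilizer of a point in a subgroup -/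
def st (K : Subgroup G) (b : W) : Subgroup G := K ⊓ MulAction.stabilizer G b

/-- common fixed points -/
def Fx (Y : Set G) (W : Type*) [MulAction G W] : Set W := {w | ∀ y ∈ Y, y • w = w}

/-- invariant sets -/
def Inv (K : Subgroup G) (S : Set W) : Prop := ∀ k ∈ K, ∀ w ∈ S, k • w ∈ S

theorem mem_st {K : Subgroup G} {b : W} {g : G} : g ∈ st K b ↔ g ∈ K ∧ g • b = b := by
  simp [st, MulAction.mem_stabilizer_iff]

theorem st_le (K : Subgroup G) (b : W) : st K b ≤ K := inf_le_left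

theorem mem_Fx1 {x : G} {w : W} : w ∈ Fx {x} W ↔ x • w = w := by simp [Fx]

theorem mem_orb_self (K : Subgroup G) (b : W) : b ∈ orb K b := ⟨1, K.one_mem, one_smul _ _⟩

theorem smul_mem_orb {K : Subgroup G} {k : G} (hk : k ∈ K) (b : W) : k • b ∈ orb K b := ⟨k, hk, rfl⟩

theorem inv_orb (K : Subgroup G) (b : W) : Inv K (orb K b) := by
  rintro k hk _ ⟨l, hl, rfl⟩
  exact ⟨k * l, K.mul_mem hk hl, mul_smul _ _ _⟩

theorem Inv.mono {K L : Subgroup G} {S : Set W} (h : Inv K S) (hL : L ≤ K) : Inv L S :=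
  fun k hk => h k (hL hk)

theorem Inv.orb_sub {K : Subgroup G} {S : Set W} (h : Inv K S) {b : W} (hb : b ∈ S) :
    orb K b ⊆ S := by
  rintro _ ⟨k, hk, rfl⟩
  exact h k hk b hb

theorem Inv.diff {K : Subgroup G} {S T : Set W} (h : Inv K S) (hT : Inv K T) : Inv K (S \ T) := by
  intro k hk w hw
  refine ⟨h k hk w hw.1, fun h2 => hw.2 ?_⟩
  have := hT k⁻¹ (K.inv_mem hk) _ h2
  rwa [inv_smul_smul] at this

theorem Inv.smul_iff {K : Subgroup G} {S : Set W} (h : Inv K S) {k : G} (hk : k ∈ K) {w : W} :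
    k • w ∈ S ↔ w ∈ S := by
  refine ⟨fun h2 => ?_, h k hk w⟩
  have := h k⁻¹ (K.inv_mem hk) _ h2
  rwa [inv_smul_smul] at this

theorem orb_eq_of_mem {K : Subgroup G} {b c : W} (h : c ∈ orb K b) : orb K c = orb K b := by
  refine Set.Subset.antisymm ((inv_orb K b).orb_sub h) ?_
  obtain ⟨k, hk, rfl⟩ := h
  refine (inv_orb K _).orb_sub ⟨k⁻¹, K.inv_mem hk, inv_smul_smul _ _⟩

theorem exists_smul_of_mem {K : Subgroup G} {b c d : W} (hc : c ∈ orb K b) (hd : d ∈ orb K b) :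
    ∃ k ∈ K, k • c = d := by
  rw [← orb_eq_of_mem hc] at hd
  exact hd

theorem orb_disj {K : Subgroup G} {b c : W} (h : c ∉ orb K b) : orb K c ⊆ (orb K b)ᶜ := by
  intro w hw hw2
  apply h
  rw [← orb_eq_of_mem hw2, orb_eq_of_mem hw]
  exact mem_orb_self K c

theorem inv_single {K : Subgroup G} {a : W} (h : ∀ k ∈ K, k • a = a) : Inv K {a} := by
  intro k hk w hw
  rw [Set.mem_singleton_iff] at hw ⊢
  rw [hw, h k hk]

theorem mem_st_smul {K : Subgroup G} {k : G} (hk : k ∈ K) {b : W} {g : G} :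
    g ∈ st K (k • b) ↔ k⁻¹ * g * k ∈ st K b := by
  rw [mem_st, mem_st, mul_smul, mul_smul, inv_smul_eq_iff]
  refine and_congr_left fun _ => ⟨fun h => K.mul_mem (K.mul_mem (K.inv_mem hk) h) hk, fun h => ?_⟩
  have := K.mul_mem (K.mul_mem hk h) (K.inv_mem hk)
  simpa [mul_assoc] using this

theorem st_smul {K : Subgroup G} {k : G} (hk : k ∈ K) (b : W) :
    st K (k • b) = MulAut.conj k • st K b := by
  ext g
  rw [mem_st_smul hk, H8.mem_conj_smul]

theorem conj_self {K : Subgroup G} {k : G} (hk : k ∈ K) : MulAut.conj k • K = K :=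
  H8.mem_normalizer_iff_conj_smul_eq.1 (le_normalizer hk)

theorem covBy_conj {H K : Subgroup G} (h : H ⋖ K) {k : G} (hk : k ∈ K) :
    MulAut.conj k • H ⋖ K := by
  have key : ∀ g : G, StrictMono (fun L : Subgroup G => MulAut.conj g • L) := by
    intro g A B hAB
    refine lt_of_le_of_ne (pointwise_smul_le_pointwise_smul_iff.2 hAB.le) fun h2 => hAB.ne ?_
    have := congrArg (fun L : Subgroup G => MulAut.conj g⁻¹ • L) h2
    simpa only [H8.conj_inv_smul_conj_smul] using this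
  refine ⟨?_, fun C h1 h2 => ?_⟩
  · have := key k h.1
    simpa only [conj_self hk] using this
  · have h3 := key k⁻¹ h1
    have h4 := key k⁻¹ h2
    simp only [H8.conj_inv_smul_conj_smul, conj_self (K.inv_mem hk)] at h3 h4
    exact h.2 h3 h4

theorem covBy_of_mem {K : Subgroup G} {b c : W} (h : st K b ⋖ K) (hc : c ∈ orb K b) :
    st K c ⋖ K := by
  obtain ⟨k, hk, rfl⟩ := hc
  rw [st_smul hk]
  exact covBy_conj h hk

theorem st_ne_of_mem {K : Subgroup G} {b c : W} (h : st K b ≠ K) (hc : c ∈ orb K b) :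
    st K c ≠ K := by
  obtain ⟨k, hk, rfl⟩ := hc
  intro h2
  apply h
  refine le_antisymm (st_le _ _) fun g hg => ?_
  have : k * g * k⁻¹ ∈ st K (k • b) := by
    rw [h2]; exact K.mul_mem (K.mul_mem hk hg) (K.inv_mem hk)
  rw [mem_st_smul hk] at this
  simpa [mul_assoc] using this

theorem exists_covBy {H K : Subgroup G} (hle : H ≤ K) (hne : H ≠ K) :
    ∃ M : Subgroup G, H ≤ M ∧ M ⋖ K :=
  exists_le_covBy_of_lt (lt_of_le_of_ne hle hne)

theorem st_quot {K M : Subgroup G} (h : M ≤ K) : st K ((1 : G) : G ⧸ M) = M := by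
  ext g
  rw [mem_st, MulAction.Quotient.smul_mk, QuotientGroup.eq]
  simp only [smul_eq_mul, mul_one, inv_mem_iff]
  exact ⟨fun h2 => h2.2, fun h2 => ⟨h h2, h2⟩⟩

end defs

section count
variable {W : Type*} [MulAction G W] [Finite W]

theorem fiber (K : Subgroup G) (b : W) (T : Set W) (hT : T ⊆ orb K b) :
    {k : G | k ∈ K ∧ k • b ∈ T}.ncard = T.ncard * Nat.card (st K b) := by
  classical
  have hc : ∀ t : T, ∃ k, k ∈ K ∧ k • b = t := fun t => hT t.2
  choose c hc1 hc2 using hc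
  rw [← Nat.card_coe_set_eq, ← Nat.card_coe_set_eq, ← Nat.card_prod]
  symm
  refine Nat.card_congr (Equiv.ofBijective
    (fun q : T × st K b => (⟨c q.1 * q.2, K.mul_mem (hc1 _) (mem_st.1 q.2.2).1, by
      rw [mul_smul, (mem_st.1 q.2.2).2, hc2]; exact q.1.2⟩ : {k : G | k ∈ K ∧ k • b ∈ T})) ⟨?_, ?_⟩)
  · rintro ⟨t, s⟩ ⟨t', s'⟩ h
    have h1 : c t * s = c t' * s' := congrArg Subtype.val h
    have h2 : t = t' := by
      apply Subtype.ext
      have := congrArg (· • b) h1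
      simp only [mul_smul, (mem_st.1 s.2).2, (mem_st.1 s'.2).2, hc2] at this
      exact this
    subst h2
    rw [mul_left_cancel_iff] at h1
    rw [Subtype.ext h1]
  · rintro ⟨k, hk, hkT⟩
    refine ⟨(⟨k • b, hkT⟩, ⟨(c ⟨k • b, hkT⟩)⁻¹ * k, mem_st.2 ⟨K.mul_mem (K.inv_mem (hc1 _)) hk, ?_⟩⟩), ?_⟩
    · rw [mul_smul, inv_smul_eq_iff, hc2]
    · apply Subtype.ext
      simp

theorem card_orb (K : Subgroup G) (b : W) :
    (orb K b).ncard * Nat.card (st K b) = Nat.card K := by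
  rw [← fiber K b _ subset_rfl, ← Nat.card_coe_set_eq]
  refine Nat.card_congr (Equiv.subtypeEquivRight fun k => ?_)
  exact ⟨fun h => h.1, fun h => ⟨h, smul_mem_orb h b⟩⟩

theorem orb_pos (K : Subgroup G) (b : W) : 0 < (orb K b).ncard :=
  (Set.ncard_pos (Set.toFinite _)).2 ⟨b, mem_orb_self K b⟩

theorem card_orb_fix (K : Subgroup G) (b : W) (Y : Set G) :
    (orb K b ∩ Fx Y W).ncard * Nat.card (st K b) = {k : G | k ∈ K ∧ k • b ∈ Fx Y W}.ncard := by
  rw [← fiber K b _ Set.inter_subset_left]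
  congr 1
  ext k
  exact ⟨fun h => ⟨h.1, h.2.2⟩, fun h => ⟨h.1, smul_mem_orb h.1 b, h.2⟩⟩

variable {W' : Type*} [MulAction G W'] [Finite W']

theorem fix_of_le {K : Subgroup G} {b : W} {w : W'} (h : st K b ≤ st K w) {y k : G} (hy : y ∈ K)
    (hk : k ∈ K) (h1 : y • k • b = k • b) : y • k • w = k • w := by
  have : y ∈ st K (k • b) := mem_st.2 ⟨hy, h1⟩
  rw [mem_st_smul hk] at this
  exact (mem_st.1 ((mem_st_smul hk).2 (h this))).2

theorem fib0 {K : Subgroup G} {b : W} {w : W'} (h : st K b ≤ st K w) (Y : Set G) (hY : Y ⊆ K) :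
    ∃ β : ℕ, 1 ≤ β ∧ (orb K b).ncard = β * (orb K w).ncard ∧
      (orb K b ∩ Fx Y W).ncard ≤ β * (orb K w ∩ Fx Y W').ncard ∧ (β = 1 → st K b = st K w) ∧
      ((orb K b ∩ Fx Y W).ncard = β * (orb K w ∩ Fx Y W').ncard →
        ∀ k ∈ K, k • w ∈ Fx Y W' → k • b ∈ Fx Y W) := by
  obtain ⟨β, hβ⟩ := card_dvd_of_le h
  have p1 : 0 < Nat.card (st K b) := Nat.card_pos
  have p2 : 0 < Nat.card (st K w) := Nat.card_pos
  have e1 := card_orb K b
  have e2 := card_orb K w
  have e3 := card_orb_fix K b Y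
  have e4 := card_orb_fix K w Y
  have hsub : {k : G | k ∈ K ∧ k • b ∈ Fx Y W} ⊆ {k : G | k ∈ K ∧ k • w ∈ Fx Y W'} :=
    fun k hk => ⟨hk.1, fun y hy => fix_of_le h (hY hy) hk.1 (hk.2 y hy)⟩
  have hle := Set.ncard_le_ncard hsub (Set.toFinite _)
  refine ⟨β, ?_, ?_, ?_, ?_, ?_⟩
  · rcases Nat.eq_zero_or_pos β with h0 | h0
    · rw [h0] at hβ; omega
    · exact h0
  · apply Nat.eq_of_mul_eq_mul_right p1
    rw [e1, ← e2, hβ]; ring
  · apply Nat.le_of_mul_le_mul_right _ p1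
    rw [e3]
    refine hle.trans (le_of_eq ?_)
    rw [← e4, hβ]; ring
  · intro h1
    exact eq_of_le_of_card_ge h (by rw [hβ, h1, mul_one])
  · intro h1 k hk hw
    have : {k : G | k ∈ K ∧ k • b ∈ Fx Y W} = {k : G | k ∈ K ∧ k • w ∈ Fx Y W'} := by
      refine Set.eq_of_subset_of_ncard_le hsub (le_of_eq ?_) (Set.toFinite _)
      rw [← e4, ← e3, h1, hβ]; ring
    have h2 : k ∈ {k : G | k ∈ K ∧ k • w ∈ Fx Y W'} := ⟨hk, hw⟩
    rw [← this] at h2
    exact h2.2

theorem same_counts {K : Subgroup G} {b : W} {w : W'} (h : st K b = st K w) (Y : Set G)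
    (hY : Y ⊆ K) : (orb K b).ncard = (orb K w).ncard ∧
      (orb K b ∩ Fx Y W).ncard = (orb K w ∩ Fx Y W').ncard := by
  have p1 : 0 < Nat.card (st K b) := Nat.card_pos
  have e1 := card_orb K b
  have e2 := card_orb K w
  have e3 := card_orb_fix K b Y
  have e4 := card_orb_fix K w Y
  have hs : {k : G | k ∈ K ∧ k • b ∈ Fx Y W} = {k : G | k ∈ K ∧ k • w ∈ Fx Y W'} := by
    ext k
    exact ⟨fun hk => ⟨hk.1, fun y hy => fix_of_le h.le (hY hy) hk.1 (hk.2 y hy)⟩,
      fun hk => ⟨hk.1, fun y hy => fix_of_le h.ge (hY hy) hk.1 (hk.2 y hy)⟩⟩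
  rw [← h] at e2 e4
  constructor
  · apply Nat.eq_of_mul_eq_mul_right p1
    rw [e1, e2]
  · apply Nat.eq_of_mul_eq_mul_right p1
    rw [e3, e4, hs]

/-- congruence for the number of fixed points of a `p`-subgroup on an invariant set -/
theorem cong {p : ℕ} [Fact p.Prime] {P : Subgroup G} (hP : IsPGroup p P) {S : Set W}
    (hS : Inv P S) : S.ncard ≡ (S ∩ Fx (P : Set G) W).ncard [MOD p] := by
  let T : SubMulAction P W := ⟨S, fun k w hw => hS k k.2 w hw⟩
  have h := hP.card_modEq_card_fixedPoints T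
  have e1 : Nat.card T = S.ncard := Nat.card_coe_set_eq S
  have e2 : Nat.card (MulAction.fixedPoints P T) = (S ∩ Fx (P : Set G) W).ncard := by
    rw [← Nat.card_coe_set_eq]
    refine Nat.card_congr ⟨fun a => ⟨a.1.1, a.1.2, fun y hy => congrArg Subtype.val (a.2 ⟨y, hy⟩)⟩,
      fun a => ⟨⟨a.1, a.2.1⟩, fun y => Subtype.ext (a.2.2 y y.2)⟩, fun _ => rfl, fun _ => rfl⟩
  rwa [e1, e2] at h

/-- the linear functional `α |S| - β |S ∩ F|` -/
noncomputable def Phi (α β : ℤ) (F S : Set W) : ℤ := α * S.ncard - β * (S ∩ F).ncard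

theorem Phi_split (α β : ℤ) (F : Set W) {S T : Set W} (h : S ⊆ T) :
    Phi α β F T = Phi α β F S + Phi α β F (T \ S) := by
  have e1 := Set.ncard_diff_add_ncard_of_subset h (Set.toFinite _)
  have e2 := Set.ncard_diff_add_ncard_of_subset (Set.inter_subset_inter_left F h) (Set.toFinite _)
  have e3 : (T ∩ F) \ (S ∩ F) = (T \ S) ∩ F := by
    ext w; simp only [Set.mem_diff, Set.mem_inter_iff]; tauto
  rw [e3] at e2
  unfold Phi
  rw [← e1, ← e2]
  push_cast
  ring

theorem Phi_empty (α β : ℤ) (F : Set W) : Phi α β F ∅ = 0 := by simp [Phi]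

theorem Phi_nonneg (α β : ℤ) (F : Set W) (K : Subgroup G) (n : ℕ) :
    ∀ S : Set W, S.ncard = n → Inv K S → (∀ b ∈ S, 0 ≤ Phi α β F (orb K b)) → 0 ≤ Phi α β F S := by
  induction n using Nat.strong_induction_on with
  | _ n ih =>
  intro S hn hS h
  rcases S.eq_empty_or_nonempty with rfl | ⟨b, hb⟩
  · rw [Phi_empty]
  have hsub := hS.orb_sub hb
  rw [Phi_split α β F hsub]
  have e1 := Set.ncard_diff_add_ncard_of_subset hsub (Set.toFinite _)
  have := orb_pos K b
  exact add_nonneg (h b hb) (ih _ (by omega) _ rfl (hS.diff (inv_orb K b)) fun c hc => h c hc.1)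

theorem Phi_le (α β : ℤ) (F : Set W) {K : Subgroup G} {S T : Set W} (hS : Inv K S) (hT : Inv K T)
    (hTS : T ⊆ S) (h : ∀ b ∈ S, 0 ≤ Phi α β F (orb K b)) : Phi α β F T ≤ Phi α β F S := by
  rw [Phi_split α β F hTS]
  have := Phi_nonneg α β F K _ _ rfl (hS.diff hT) fun c hc => h c hc.1
  omega

end count

end Cfsg.Agent.H51.FP
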