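import Mathlib
import Cfsg.Agent.H51.FP1

/-! Subgroups generated by `p`-elements; a Sylow subgroup fixes less than half of the points. -/

set_option autoImplicit false
set_option linter.unusedSectionVars false

namespace Cfsg.Agent.H51.FP

open Subgroup
open Cfsg.Agent.H8 (IsSylowIn)
open scoped Pointwise

universe u

variable {G : Type u} [Group G] [Finite G]

/-- the subgroup generated by the `p`-elements of `H` -/
def PE (p : ℕ) (H : Subgroup G) : Subgroup G := closure {g | g ∈ H ∧ ∃ k : ℕ, g ^ p ^ k = 1}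

variable {p : ℕ} [hp : Fact p.Prime]

theorem PE_le (H : Subgroup G) : PE p H ≤ H := (closure_le _).2 fun _ h => h.1

theorem mem_PE {H : Subgroup G} {g : G} (hg : g ∈ H) {k : ℕ} (hk : g ^ p ^ k = 1) : g ∈ PE p H :=
  subset_closure ⟨hg, k, hk⟩

theorem mem_PE1 {H : Subgroup G} {g : G} (hg : g ∈ H) (hk : g ^ p = 1) : g ∈ PE p H :=
  mem_PE hg (k := 1) (by simpa using hk)

theorem PE_le_of {H L : Subgroup G} (h : ∀ g ∈ H, ∀ k : ℕ, g ^ p ^ k = 1 → g ∈ L) : PE p H ≤ L :=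
  (closure_le _).2 fun g hg => by obtain ⟨h1, k, h2⟩ := hg; exact h g h1 k h2

theorem PE_mono {H L : Subgroup G} (h : H ≤ L) : PE p H ≤ PE p L :=
  PE_le_of fun _ hg _ hk => mem_PE (h hg) hk

theorem PE_PE (H : Subgroup G) : PE p (PE p H) = PE p H :=
  le_antisymm (PE_le _) (PE_le_of fun _ hg _ hk => mem_PE (mem_PE hg hk) hk)

theorem le_PE {H P : Subgroup G} (hP : IsPGroup p P) (h : P ≤ H) : P ≤ PE p H := by
  intro g hg
  obtain ⟨k, hk⟩ := hP ⟨g, hg⟩
  exact mem_PE (h hg) (k := k) (congrArg Subtype.val hk)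

theorem PE_conj_le (H : Subgroup G) (c : G) : PE p (MulAut.conj c • H) ≤ MulAut.conj c • PE p H := by
  refine PE_le_of fun g hg k hk => ?_
  rw [H8.mem_conj_smul] at hg ⊢
  refine mem_PE hg (k := k) ?_
  have : c⁻¹ * g * c = c⁻¹ * g * c⁻¹⁻¹ := by simp
  rw [this, conj_pow, hk]; simp

theorem PE_conj (H : Subgroup G) (c : G) : PE p (MulAut.conj c • H) = MulAut.conj c • PE p H := by
  refine le_antisymm (PE_conj_le H c) ?_
  have := PE_conj_le (p := p) (MulAut.conj c • H) c⁻¹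
  rw [H8.conj_inv_smul_conj_smul] at this
  have h2 := (pointwise_smul_le_pointwise_smul_iff (a := MulAut.conj c)).2 this
  rwa [H8.conj_smul_conj_inv_smul] at h2

theorem PE_normal {H : Subgroup G} {g k : G} (hk : k ∈ H) (hg : g ∈ PE p H) :
    k * g * k⁻¹ ∈ PE p H := by
  have := PE_conj (p := p) H k
  rw [conj_self hk] at this
  rw [this]
  exact H8.conj_mem_conj_smul.2 hg

theorem isPGroup_zpowers {g : G} {k : ℕ} (hk : g ^ p ^ k = 1) : IsPGroup p (zpowers g) := by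
  obtain ⟨j, -, hj⟩ := (Nat.dvd_prime_pow hp.out).1 (orderOf_dvd_of_pow_eq_one hk)
  exact IsPGroup.of_card (n := j) (by rw [Nat.card_zpowers, hj])

theorem conjP {P K : Subgroup G} (hP : IsSylowIn p P ⊤) (hPK : P ≤ K) {g : G} (hg : g ∈ K) {k : ℕ}
    (hk : g ^ p ^ k = 1) : ∃ c ∈ K, c * g * c⁻¹ ∈ P := by
  obtain ⟨c, hc, h⟩ := (hP.mono hPK le_top).exists_conj_le (isPGroup_zpowers hk) (zpowers_le.2 hg)
  exact ⟨c, hc, h (H8.conj_mem_conj_smul.2 (mem_zpowers g))⟩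

theorem witt {P H : Subgroup G} (hP : IsSylowIn p P ⊤) (hPH : P ≤ H) {k : G}
    (hk : MulAut.conj k • P ≤ H) : ∃ h ∈ H, h * k ∈ normalizer (P : Set G) := by
  obtain ⟨h, hh, h2⟩ := (hP.mono hPH le_top).exists_conj_le (H8.isPGroup_conj_smul hP.isPGroup k) hk
  rw [H8.conj_smul_conj_smul] at h2
  exact ⟨h, hh, H8.mem_normalizer_of_conj_smul_le h2⟩

variable {W : Type*} [MulAction G W] [Finite W]

theorem le_st_of_fix {P K : Subgroup G} (hPK : P ≤ K) {a : W} (ha : a ∈ Fx (P : Set G) W) :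
    P ≤ st K a := fun g hg => mem_st.2 ⟨hPK hg, ha g hg⟩

theorem witt1 {P K : Subgroup G} (hP : IsSylowIn p P ⊤) (hPK : P ≤ K) {a a' : W}
    (ha : a ∈ Fx (P : Set G) W) (ha' : a' ∈ Fx (P : Set G) W) (h : a' ∈ orb K a) :
    ∃ g ∈ K, g ∈ normalizer (P : Set G) ∧ g • a = a' := by
  obtain ⟨k, hk, rfl⟩ := h
  obtain ⟨h, hh, h2⟩ := witt hP (le_st_of_fix hPK ha') (k := k) (by
    rw [st_smul hk]
    exact pointwise_smul_le_pointwise_smul_iff.2 (le_st_of_fix hPK ha))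
  exact ⟨h * k, K.mul_mem (mem_st.1 hh).1 hk, h2, by rw [mul_smul, (mem_st.1 hh).2]⟩

theorem not_dvd_orb {P K : Subgroup G} (hP : IsSylowIn p P ⊤) (hPK : P ≤ K) {a b : W}
    (ha : a ∈ orb K b) (hF : a ∈ Fx (P : Set G) W) : ¬ p ∣ (orb K b).ncard := by
  rw [← orb_eq_of_mem ha]
  have h1 := le_st_of_fix hPK hF
  have e1 := card_orb K a
  have e2 := H8.card_eq_card_mul_relIndex h1
  have e3 := H8.card_eq_card_mul_relIndex hPK
  have e4 : P.relIndex K = (orb K a).ncard * P.relIndex (st K a) := by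
    apply Nat.eq_of_mul_eq_mul_left (Nat.card_pos (α := P))
    rw [← e3, ← e1, e2]; ring
  intro h
  exact (hP.mono hPK le_top).not_dvd (e4 ▸ h.mul_right _)

theorem exists_moved {P K : Subgroup G} (hP : IsSylowIn p P ⊤) (hPK : P ≤ K) (hK : PE p K = K)
    {b : W} (hb : st K b ≠ K) : ∃ w ∈ orb K b, w ∉ Fx (P : Set G) W := by
  by_contra h
  push Not at h
  apply hb
  refine le_antisymm (st_le _ _) (hK.ge.trans (PE_le_of fun g hg k hk => ?_))
  obtain ⟨c, hc, h2⟩ := conjP hP hPK hg hk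
  have := h _ (smul_mem_orb hc b) _ h2
  rw [← mul_smul, inv_mul_cancel_right, mul_smul, smul_left_cancel_iff] at this
  exact mem_st.2 ⟨hg, this⟩

theorem nofix {P K : Subgroup G} (hP : IsSylowIn p P ⊤) (hPK : P ≤ K) (hK : PE p K = K)
    {a : W} (ha : st K a ⋖ K) (hF : a ∈ Fx (P : Set G) W) {b : W} (hb : b ∈ orb K a) (hba : b ≠ a) :
    st (PE p (st K a)) b ≠ PE p (st K a) := by
  intro h
  obtain ⟨k, hk, rfl⟩ := hb
  set K' := PE p (st K a) with hK'
  have hK'K : K' ≤ K := (PE_le _).trans (st_le _ _)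
  have h1 : K' ≤ st K (k • a) := fun g hg => by
    rw [← h] at hg
    exact mem_st.2 ⟨hK'K (mem_st.1 hg).1, (mem_st.1 hg).2⟩
  have h2 : K' ≤ MulAut.conj k • K' := by
    have := PE_mono (p := p) h1
    rwa [PE_PE, st_smul hk, PE_conj] at this
  have h3 : k ∈ normalizer (K' : Set G) :=
    H8.mem_normalizer_iff_conj_smul_eq.2
      (eq_of_le_of_card_ge h2 (H8.card_conj_smul K' k).le).symm
  have h4 : st K a ≤ K ⊓ normalizer (K' : Set G) := fun g hg => by
    refine ⟨(mem_st.1 hg).1, H8.mem_normalizer_iff_conj_smul_eq.2 ?_⟩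
    rw [hK', ← PE_conj, conj_self hg]
  have h5 : K ⊓ normalizer (K' : Set G) = K := by
    rcases ha.eq_or_eq h4 inf_le_left with h6 | h6
    · exfalso
      have : k ∈ st K a := h6 ▸ ⟨hk, h3⟩
      exact hba (mem_st.1 this).2
    · exact h6
  have hPK' : P ≤ K' := le_PE hP.isPGroup (le_st_of_fix hPK hF)
  have h6 : K ≤ K' := hK.ge.trans (PE_le_of fun g hg j hj => by
    obtain ⟨c, hc, h7⟩ := conjP hP hPK hg hj
    have hc' : c ∈ normalizer (K' : Set G) := (h5.ge hc).2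
    exact (mem_normalizer_iff.1 hc' g).2 (hPK' h7))
  exact ha.1.not_ge (h6.trans (PE_le _))

theorem inv_punct {K : Subgroup G} (a : W) : Inv (PE p (st K a)) (orb K a \ {a}) :=
  ((inv_orb K a).mono ((PE_le _).trans (st_le _ _))).diff
    (inv_single fun _ hk => (mem_st.1 (PE_le _ hk)).2)

theorem ncard_punct (K : Subgroup G) (a : W) : (orb K a \ {a}).ncard + 1 = (orb K a).ncard :=
  Set.ncard_diff_singleton_add_one (mem_orb_self K a) (Set.toFinite _)

theorem ncard_punct_fix (K : Subgroup G) (a : W) {F : Set W} (ha : a ∈ F) :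
    ((orb K a \ {a}) ∩ F).ncard + 1 = (orb K a ∩ F).ncard := by
  have : (orb K a \ {a}) ∩ F = (orb K a ∩ F) \ {a} := by
    ext w; simp only [Set.mem_diff, Set.mem_inter_iff]; tauto
  rw [this]
  exact Set.ncard_diff_singleton_add_one ⟨mem_orb_self K a, ha⟩ (Set.toFinite _)

theorem hp_aux {P : Subgroup G} (hP : IsSylowIn p P ⊤) (n : ℕ) :
    ∀ (V : Type u) [MulAction G V] [Finite V] (K : Subgroup G) (b : V), P ≤ K → PE p K = K →
      st K b ≠ K → (orb K b).ncard = n →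
      2 * (orb K b ∩ Fx (P : Set G) V).ncard < (orb K b).ncard := by
  induction n using Nat.strong_induction_on with
  | _ n ih =>
  intro V _ _ K b hPK hK hb hn
  obtain ⟨M, hM1, hM2⟩ := exists_covBy (st_le K b) hb
  have hq := st_quot hM2.le
  obtain ⟨β, hβ1, hβ2, hβ3, hβ4, -⟩ :=
    fib0 (K := K) (b := b) (w := ((1 : G) : G ⧸ M)) (hq.symm ▸ hM1) (P : Set G) hPK
  rcases hβ1.lt_or_eq with h1 | h1
  · have hpos := orb_pos K ((1 : G) : G ⧸ M)
    have := ih (orb K ((1 : G) : G ⧸ M)).ncard (by rw [← hn, hβ2]; nlinarith) (G ⧸ M) K _ hPK hK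
      (hq.symm ▸ hM2.ne) rfl
    rw [hβ2]; nlinarith
  have hcov : st K b ⋖ K := by rw [hβ4 h1.symm, hq]; exact hM2
  rcases (orb K b ∩ Fx (P : Set G) V).eq_empty_or_nonempty with h0 | ⟨a, ha1, ha2⟩
  · rw [h0, Set.ncard_empty]; exact orb_pos K b
  have hnd := not_dvd_orb hP hPK ha1 ha2
  have hcg := cong hP.isPGroup ((inv_orb K b).mono hPK)
  have hca := covBy_of_mem hcov ha1
  rw [← orb_eq_of_mem ha1] at hn hnd hcg ⊢
  have hinv := inv_punct (p := p) (K := K) a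
  have e1 := ncard_punct K a
  have e2 := ncard_punct_fix K a ha2
  have hPK' : P ≤ PE p (st K a) := le_PE hP.isPGroup (le_st_of_fix hPK ha2)
  have key : ∀ c ∈ orb K a \ {a}, 1 ≤ Phi 1 2 (Fx (P : Set G) V) (orb (PE p (st K a)) c) := by
    intro c hc
    have hle := Set.ncard_le_ncard (hinv.orb_sub hc) (Set.toFinite _)
    have := ih _ (by omega) V _ c hPK' (PE_PE _) (nofix hP hPK hK hca ha2 hc.1 hc.2) rfl
    unfold Phi
    omega
  obtain ⟨c, hc1, hc2⟩ := exists_moved hP hPK hK hca.ne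
  have hc : c ∈ orb K a \ {a} := ⟨hc1, fun h => hc2 (h ▸ ha2)⟩
  have h2 := Phi_le 1 2 (Fx (P : Set G) V) hinv (inv_orb _ c) (hinv.orb_sub hc)
    fun d hd => by have := key d hd; omega
  have h3 := key c hc
  unfold Phi at h2 h3
  have h4 : 2 * (orb K a ∩ Fx (P : Set G) V).ncard ≤ (orb K a).ncard := by omega
  refine lt_of_le_of_ne h4 fun h5 => hnd ?_
  have h6 : p ∣ (orb K a ∩ Fx (P : Set G) V).ncard := by
    have := (Nat.modEq_iff_dvd' (by omega)).1 hcg.symm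
    rwa [show (orb K a).ncard - (orb K a ∩ Fx (P : Set G) V).ncard =
      (orb K a ∩ Fx (P : Set G) V).ncard by omega] at this
  rw [← h5]
  exact h6.mul_left 2

theorem hp_orb {P K : Subgroup G} (hP : IsSylowIn p P ⊤) (hPK : P ≤ K) (hK : PE p K = K) {b : W}
    (hb : st K b ≠ K) : 2 * (orb K b ∩ Fx (P : Set G) W).ncard < (orb K b).ncard := by
  have hq := st_quot (st_le K b)
  obtain ⟨e1, e2⟩ := same_counts (K := K) (b := b) (w := ((1 : G) : G ⧸ st K b)) hq.symm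
    (P : Set G) hPK
  rw [e1, e2]
  exact hp_aux hP _ _ K _ hPK hK (hq.symm ▸ hb) rfl

theorem st_PE_top_ne {P : Subgroup G} (hP : IsSylowIn p P ⊤) (htr : ∀ a b : W, ∃ g : G, g • a = b)
    {w : W} (hw : w ∉ Fx (P : Set G) W) (b : W) : st (PE p ⊤) b ≠ PE p (⊤ : Subgroup G) := by
  intro h
  apply hw
  intro y hy
  obtain ⟨g, rfl⟩ := htr b w
  have h1 : g⁻¹ * y * g⁻¹⁻¹ ∈ PE p (⊤ : Subgroup G) :=
    PE_normal (mem_top _) (le_PE hP.isPGroup le_top hy)
  rw [← h] at h1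
  have := (mem_st.1 h1).2
  rwa [inv_inv, mul_smul, mul_smul, inv_smul_eq_iff] at this

theorem hp_top {P : Subgroup G} (hP : IsSylowIn p P ⊤) (htr : ∀ a b : W, ∃ g : G, g • a = b)
    {w : W} (hw : w ∉ Fx (P : Set G) W) : 2 * (Fx (P : Set G) W).ncard ≤ Nat.card W := by
  have := Phi_nonneg 1 2 (Fx (P : Set G) W) (PE p ⊤) _ Set.univ rfl (fun _ _ _ _ => trivial)
    fun b _ => by
      have := hp_orb hP (le_PE hP.isPGroup le_top) (PE_PE _) (st_PE_top_ne hP htr hw b)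
      unfold Phi; omega
  unfold Phi at this
  rw [Set.univ_inter, Set.ncard_univ] at this
  omega

end Cfsg.Agent.H51.FP
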