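import Mathlib
import Cfsg.Agent.H51.FP2
import Cfsg.Agent.H1.FixCount

/-! Elements of order `p` when `p²` does not divide the group order; the coprime case. -/

set_option autoImplicit false
set_option linter.unusedSectionVars false

namespace Cfsg.Agent.H51.FP

open Subgroup
open Cfsg.Agent.H8 (IsSylowIn)
open scoped Pointwise commutatorElement

universe u

variable {G : Type u} [Group G] [Finite G] {p : ℕ} [hp : Fact p.Prime]
variable {W : Type*} [MulAction G W] [Finite W]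

theorem zpow_fix {x : G} {w : W} (h : x • w = w) (i : ℤ) : x ^ i • w = w :=
  MulAction.mem_stabilizer_iff.1 (zpow_mem (MulAction.mem_stabilizer_iff.2 h) i)

theorem pow_fix {x : G} {w : W} (h : x • w = w) (i : ℕ) : x ^ i • w = w :=
  MulAction.mem_stabilizer_iff.1 (pow_mem (MulAction.mem_stabilizer_iff.2 h) i)

theorem fix_of_coprime {x : G} {w : W} {a b : ℕ} (h1 : x ^ a • w = w) (h2 : x ^ b • w = w)
    (hc : a.Coprime b) : x • w = w := by
  have h3 : x ^ (Nat.gcd a b : ℤ) ∈ MulAction.stabilizer G w := by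
    rw [Nat.gcd_eq_gcd_ab, zpow_add, zpow_mul, zpow_mul, zpow_natCast, zpow_natCast]
    exact mul_mem (zpow_mem (MulAction.mem_stabilizer_iff.2 h1) _)
      (zpow_mem (MulAction.mem_stabilizer_iff.2 h2) _)
  rw [hc] at h3
  simpa using h3

theorem Fx_zp (x : G) : Fx (zpowers x : Set G) W = Fx {x} W := by
  ext w
  rw [mem_Fx1]
  refine ⟨fun h => h x (mem_zpowers x), ?_⟩
  rintro h _ ⟨i, rfl⟩
  exact zpow_fix h i

theorem xp {x : G} (hx : orderOf x = p) : x ^ p = 1 := hx ▸ pow_orderOf_eq_one x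

theorem isP {x : G} (hx : x ^ p = 1) : IsPGroup p (zpowers x) :=
  isPGroup_zpowers (k := 1) (by simpa using hx)

theorem syl (hG : ¬ p ^ 2 ∣ Nat.card G) {x : G} (hx : orderOf x = p) :
    IsSylowIn p (zpowers x) ⊤ := by
  refine ⟨le_top, isP (xp hx), fun h => hG ?_⟩
  rw [relIndex_top_right] at h
  rw [← card_mul_index (zpowers x), Nat.card_zpowers, hx, pow_two]
  exact Nat.mul_dvd_mul_left p h

theorem pow_p (hG : ¬ p ^ 2 ∣ Nat.card G) {g : G} {k : ℕ} (hk : g ^ p ^ k = 1) : g ^ p = 1 := by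
  obtain ⟨j, -, hj⟩ := (Nat.dvd_prime_pow hp.out).1 (orderOf_dvd_of_pow_eq_one hk)
  have h2 : j ≤ 1 := by
    by_contra h
    exact hG ((pow_dvd_pow p (by omega)).trans (hj ▸ orderOf_dvd_natCard g))
  apply orderOf_dvd_iff_pow_eq_one.1
  rw [hj]
  simpa using pow_dvd_pow p h2

theorem PE_le1 (hG : ¬ p ^ 2 ∣ Nat.card G) {H L : Subgroup G} (h : ∀ g ∈ H, g ^ p = 1 → g ∈ L) :
    PE p H ≤ L := PE_le_of fun g hg _ hk => h g hg (pow_p hG hk)

theorem ord_of {y : G} (hy : y ^ p = 1) (h1 : y ≠ 1) : orderOf y = p := orderOf_eq_prime hy h1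

theorem ord_conj (c y : G) : orderOf (c * y * c⁻¹) = orderOf y :=
  (MulAut.conj c).orderOf_eq y

theorem conjx (hG : ¬ p ^ 2 ∣ Nat.card G) {x : G} (hx : orderOf x = p) {K : Subgroup G}
    (hxK : x ∈ K) {y : G} (hyK : y ∈ K) (hy : orderOf y = p) :
    ∃ c ∈ K, zpowers (c * y * c⁻¹) = zpowers x := by
  obtain ⟨c, hc, h⟩ := conjP (syl hG hx) (zpowers_le.2 hxK) hyK (k := 1) (by simpa using xp hy)
  refine ⟨c, hc, eq_of_le_of_card_ge (zpowers_le.2 h) ?_⟩
  rw [Nat.card_zpowers, Nat.card_zpowers, ord_conj, hx, hy]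

theorem fix_iff {x y c : G} (h : zpowers (c * y * c⁻¹) = zpowers x) (w : W) :
    y • w = w ↔ x • c • w = c • w := by
  rw [← mem_Fx1 (x := x), ← Fx_zp, ← h, Fx_zp, mem_Fx1, ← mul_smul, inv_mul_cancel_right, mul_smul,
    smul_left_cancel_iff]

theorem nf_conj (hG : ¬ p ^ 2 ∣ Nat.card G) {x : G} (hx : orderOf x = p) {K : Subgroup G}
    (hxK : x ∈ K) {y : G} (hyK : y ∈ K) (hy : orderOf y = p) {S : Set W} (hS : Inv K S) :
    (S ∩ Fx {y} W).ncard = (S ∩ Fx {x} W).ncard := by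
  obtain ⟨c, hc, h⟩ := conjx hG hx hxK hyK hy
  refine Set.ncard_congr (fun w _ => c • w) ?_ ?_ ?_
  · intro w hw
    exact ⟨hS c hc w hw.1, mem_Fx1.2 ((fix_iff h w).1 (mem_Fx1.1 hw.2))⟩
  · intro a b _ _ hab
    exact smul_left_cancel c hab
  · intro w hw
    refine ⟨c⁻¹ • w, ⟨hS _ (K.inv_mem hc) w hw.1, mem_Fx1.2 ((fix_iff h _).2 ?_)⟩, smul_inv_smul _ _⟩
    rw [smul_inv_smul]; exact mem_Fx1.1 hw.2

theorem cong1 {x : G} (hx : x ^ p = 1) {K : Subgroup G} (hxK : x ∈ K) {S : Set W} (hS : Inv K S) :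
    ∃ t, S.ncard = (S ∩ Fx {x} W).ncard + p * t := by
  have h := cong (isP hx) (hS.mono (zpowers_le.2 hxK))
  rw [Fx_zp] at h
  have hle := Set.ncard_le_ncard (Set.inter_subset_left (s := S) (t := Fx {x} W)) (Set.toFinite _)
  obtain ⟨t, ht⟩ := (Nat.modEq_iff_dvd' hle).1 h.symm
  exact ⟨t, by omega⟩

theorem fib1 {W' : Type*} [MulAction G W'] [Finite W'] {K : Subgroup G} {b : W} {w : W'}
    (h : st K b ≤ st K w) {y : G} (hy : y ^ p = 1) (hyK : y ∈ K) :
    ∃ β g : ℕ, 1 ≤ β ∧ (orb K b).ncard = β * (orb K w).ncard ∧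
      (orb K b ∩ Fx {y} W).ncard + p * g = β * (orb K w ∩ Fx {y} W').ncard ∧
      (β = 1 → st K b = st K w) ∧ (g = 0 → y • w = w → y • b = b) := by
  obtain ⟨β, h1, h2, h3, h4, h5⟩ := fib0 h {y} (Set.singleton_subset_iff.2 hyK)
  obtain ⟨t1, e1⟩ := cong1 hy hyK (inv_orb K b)
  obtain ⟨t2, e2⟩ := cong1 hy hyK (inv_orb K w)
  have h6 : p * (β * t2) ≤ p * t1 := by rw [e2] at h2; nlinarith
  have h7 := Nat.le_of_mul_le_mul_left h6 hp.out.pos
  obtain ⟨g, hg⟩ := Nat.exists_eq_add_of_le h7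
  have h8 : (orb K b ∩ Fx {y} W).ncard + p * g = β * (orb K w ∩ Fx {y} W').ncard := by
    rw [e2] at h2; rw [hg] at e1; nlinarith
  refine ⟨β, g, h1, h2, h8, h4, fun h0 hw => ?_⟩
  have := h5 (by rw [← h8, h0]; simp) 1 K.one_mem (by rw [one_smul]; exact mem_Fx1.2 hw)
  rw [one_smul] at this
  exact mem_Fx1.1 this

/-- the kernel of `K` on `S` -/
def kr (K : Subgroup G) (S : Set W) : Subgroup G := K ⊓ fixingSubgroup G S

theorem mem_kr {K : Subgroup G} {S : Set W} {g : G} : g ∈ kr K S ↔ g ∈ K ∧ ∀ w ∈ S, g • w = w := by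
  rw [kr, mem_inf, mem_fixingSubgroup_iff]

theorem kr_le (K : Subgroup G) (S : Set W) : kr K S ≤ K := inf_le_left

theorem kr_norm {K : Subgroup G} {S : Set W} (hS : Inv K S) :
    ∀ k ∈ K, ∀ o ∈ kr K S, k * o * k⁻¹ ∈ kr K S := by
  intro k hk o ho
  rw [mem_kr] at ho ⊢
  refine ⟨K.mul_mem (K.mul_mem hk ho.1) (K.inv_mem hk), fun w hw => ?_⟩
  rw [mul_smul, mul_smul, ho.2 _ (hS _ (K.inv_mem hk) w hw), smul_inv_smul]

theorem kr_cop (hG : ¬ p ^ 2 ∣ Nat.card G) {x : G} (hx : orderOf x = p) {K : Subgroup G}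
    (hxK : x ∈ K) {S : Set W} (hS : Inv K S) {w : W} (hw : w ∈ S) (hxw : x • w ≠ w) :
    (Nat.card (kr K S)).Coprime p := by
  rw [Nat.coprime_comm, hp.out.coprime_iff_not_dvd]
  intro h
  obtain ⟨y, hy⟩ := exists_prime_orderOf_dvd_card' p h
  obtain ⟨c, hc, h2⟩ := conjx hG hx hxK (kr_le _ _ y.2) (by simpa using hy)
  apply hxw
  have := (fix_iff h2 (c⁻¹ • w)).1 ((mem_kr.1 y.2).2 _ (hS _ (K.inv_mem hc) w hw))
  rwa [smul_inv_smul] at this

theorem le_norm {K O : Subgroup G} (hn : ∀ k ∈ K, ∀ o ∈ O, k * o * k⁻¹ ∈ O) :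
    K ≤ normalizer (O : Set G) := fun k hk => H8.mem_normalizer_of_conj_smul_le (by
  rintro _ ⟨o, ho, rfl⟩
  exact hn k hk o ho)

theorem KT {K O : Subgroup G} {v : W} (hv : st K v ⋖ K) (hO : O ≤ K)
    (hn : ∀ k ∈ K, ∀ o ∈ O, k * o * k⁻¹ ∈ O) : O ≤ kr K (orb K v) ∨ orb O v = orb K v := by
  by_cases h : O ≤ st K v
  · left
    intro o ho
    refine mem_kr.2 ⟨hO ho, ?_⟩
    rintro _ ⟨k, hk, rfl⟩
    have := hn _ (K.inv_mem hk) o ho
    rw [inv_inv] at this
    exact (mem_st.1 ((mem_st_smul hk).2 (h this))).2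
  · right
    have h1 : O ⊔ st K v = K := by
      rcases hv.eq_or_eq (le_sup_right : st K v ≤ O ⊔ st K v) (sup_le hO (st_le _ _)) with h2 | h2
      · exact absurd (le_sup_left.trans h2.le) h
      · exact h2
    refine Set.Subset.antisymm (((inv_orb K v).mono hO).orb_sub (mem_orb_self K v)) ?_
    rintro _ ⟨k, hk, rfl⟩
    have h2 : k ∈ ((O ⊔ st K v : Subgroup G) : Set G) := by rw [h1]; exact hk
    rw [coe_mul_of_right_le_normalizer_left _ _ ((st_le _ _).trans (le_norm hn))] at h2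
    obtain ⟨o, ho, m, hm, rfl⟩ := h2
    exact ⟨o, ho, by rw [mul_smul, (mem_st.1 hm).2]⟩

theorem card_relIndex (C U : Subgroup G) :
    Nat.card U = Nat.card (U ⊓ C : Subgroup G) * C.relIndex U := by
  rw [← inf_relIndex_left U C]
  exact H8.card_eq_card_mul_relIndex inf_le_left

theorem relIndex_sylow {r : ℕ} [Fact r.Prime] {U : Subgroup G} (Q : Sylow r U) {y : G}
    (hy : y ^ p = 1) (hU : y ∈ normalizer (U : Set G))
    (hQ : y ∈ normalizer (((Q : Subgroup U).map U.subtype : Subgroup G) : Set G))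
    (hcop : (Nat.card U).Coprime p) :
    (centralizer {y}).relIndex ((Q : Subgroup U).map U.subtype) =
      r ^ ((centralizer {y}).relIndex U).factorization r := by
  have h1 := H1.FixCount.sylow_centralizer Q (isP hy) hU hQ hcop
  have hS := H8.isSylowIn_map_subtype Q
  obtain ⟨R, hR⟩ := H8.exists_isSylowIn r (U ⊓ centralizer {y})
  have h2 := hR.card_le (hS.isPGroup.to_le
    (inf_le_left : (Q : Subgroup U).map U.subtype ⊓ centralizer {y} ≤ _))
    (inf_le_inf_right _ hS.le)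
  rw [hR.card_eq] at h2
  have h3 := le_antisymm h2 h1
  have e1 := card_relIndex (centralizer {y}) ((Q : Subgroup U).map U.subtype)
  have e2 := card_relIndex (centralizer {y}) U
  have z1 : Nat.card (U ⊓ centralizer {y} : Subgroup G) ≠ 0 := Nat.card_pos.ne'
  have z2 : (centralizer {y}).relIndex U ≠ 0 := by
    intro h0; rw [h0, mul_zero] at e2; exact Nat.card_pos.ne' e2
  rw [hS.card_eq, h3] at e1
  conv_lhs at e1 => rw [e2, Nat.factorization_mul z1 z2, Finsupp.add_apply, pow_add]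
  exact (Nat.eq_of_mul_eq_mul_left (pow_pos (Fact.out : r.Prime).pos _) e1).symm

theorem relIndex_dvd {H N : Subgroup G} {y : G} (hy : y ^ p = 1) (hHN : H ≤ N)
    (hN : y ∈ normalizer (N : Set G)) (hH : y ∈ normalizer (H : Set G))
    (hcop : (Nat.card N).Coprime p) :
    (centralizer {y}).relIndex H ∣ (centralizer {y}).relIndex N := by
  have z : ∀ U : Subgroup G, (centralizer {y}).relIndex U ≠ 0 := fun U h0 => by
    have e2 := card_relIndex (centralizer {y}) U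
    rw [h0, mul_zero] at e2; exact Nat.card_pos.ne' e2
  rw [← Nat.factorization_prime_le_iff_dvd (z _) (z _)]
  intro r hr
  haveI := Fact.mk hr
  have hcH : (Nat.card H).Coprime p := hcop.coprime_dvd_left (card_dvd_of_le hHN)
  have hs := H4.isSolvable_of_isPGroup (isP hy)
  obtain ⟨S, hS⟩ := H4.exists_invariant_sylow (zpowers_le.2 hH)
    (H4.coprime_card_of_isPGroup hcH (isP hy)).symm (Or.inl hs) r
  have hS' := H8.isSylowIn_map_subtype S
  obtain ⟨R, hR1, hR2⟩ := H4.exists_invariant_sylow_ge (zpowers_le.2 hN)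
    (H4.coprime_card_of_isPGroup hcop (isP hy)).symm (Or.inl hs) (hS'.le.trans hHN) hS'.isPGroup hS
  have e1 := relIndex_sylow S hy hH (hS (mem_zpowers y)) hcH
  have e2 := relIndex_sylow R hy hN (hR2 (mem_zpowers y)) hcop
  have h3 := relIndex_le_of_le_right (H := centralizer {y}) hR1 (z _)
  rw [e1, e2] at h3
  exact (Nat.pow_le_pow_iff_right hr.one_lt).1 h3

theorem norm_st {N : Subgroup G} {y : G} (hN : y ∈ normalizer (N : Set G)) {a : W}
    (ha : y • a = a) : y ∈ normalizer ((st N a : Subgroup G) : Set G) :=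
  H8.mem_normalizer_of_conj_smul_le (by
    rintro _ ⟨o, ho, rfl⟩
    refine mem_st.2 ⟨(mem_normalizer_iff.1 hN o).1 (mem_st.1 ho).1, ?_⟩
    change (y * o * y⁻¹) • a = a
    rw [mul_smul, mul_smul, inv_smul_eq_iff.2 ha.symm, (mem_st.1 ho).2, ha])

/-- the coprime case -/
theorem PN {N : Subgroup G} {y : G} (hy : y ^ p = 1) (hN : y ∈ normalizer (N : Set G))
    (hcop : (Nat.card N).Coprime p) (b : W) (hinv : ∀ w ∈ orb N b, y • w ∈ orb N b)
    {w : W} (hw : w ∈ orb N b) (hyw : y • w ≠ w) :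
    1 ≤ (orb N b ∩ Fx {y} W).ncard ∧ (p + 1) * (orb N b ∩ Fx {y} W).ncard ≤ (orb N b).ncard := by
  have hinv' : Inv (zpowers y) (orb N b) := by
    intro k hk v hv
    obtain ⟨i, rfl⟩ := (mem_powers_iff_mem_zpowers.2 hk : k ∈ Submonoid.powers y)
    change y ^ i • v ∈ _
    induction i with
    | zero => simpa using hv
    | succ i ih => rw [pow_succ', mul_smul]; exact hinv _ (ih (pow_mem (mem_zpowers y) i))
  obtain ⟨t, ht⟩ := cong1 hy (mem_zpowers y) hinv'
  have hn : (orb N b).ncard.Coprime p := hcop.coprime_dvd_left (Dvd.intro _ (card_orb N b))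
  have hf : (orb N b ∩ Fx {y} W).ncard.Coprime p := by
    rwa [ht, Nat.coprime_add_mul_left_left] at hn
  have hf1 : 1 ≤ (orb N b ∩ Fx {y} W).ncard := by
    by_contra h0
    have : (orb N b ∩ Fx {y} W).ncard = 0 := by omega
    rw [this, Nat.coprime_zero_left] at hf
    exact hp.out.one_lt.ne' hf
  refine ⟨hf1, ?_⟩
  obtain ⟨a, ha1, ha2⟩ := (Set.ncard_pos (Set.toFinite _)).1 hf1
  have ha := mem_Fx1.1 ha2
  have hs := H4.isSolvable_of_isPGroup (isP hy)
  have hCY : centralizer (zpowers y : Set G) = centralizer {y} := by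
    rw [zpowers_eq_closure, centralizer_closure]
  have hF : orb N b ∩ Fx {y} W = orb (N ⊓ centralizer {y}) a := by
    refine Set.Subset.antisymm (fun c hc => ?_) ?_
    · obtain ⟨n, hn1, rfl⟩ := exists_smul_of_mem ha1 hc.1
      have hc2 := mem_Fx1.1 hc.2
      obtain ⟨h, hh, h2⟩ := H4.exists_centralizer_of_fixed_mod (A := zpowers y) (N := st N (n • a))
        (zpowers_le.2 (norm_st hN hc2))
        (H4.coprime_card_of_isPGroup (hcop.coprime_dvd_left (card_dvd_of_le (st_le _ _)))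
          (isP hy)).symm (Or.inl hs) (k := n) (by
          rintro _ ⟨i, rfl⟩
          refine mem_st.2 ⟨?_, ?_⟩
          · rw [commutatorElement_def]
            exact N.mul_mem ((mem_normalizer_iff.1 (zpow_mem hN i) n).1 hn1) (N.inv_mem hn1)
          · change ⁅y ^ i, n⁆ • n • a = n • a
            rw [commutatorElement_def, mul_smul, mul_smul, mul_smul, inv_smul_smul, ← zpow_neg,
              zpow_fix ha, zpow_fix hc2])
      exact ⟨h * n, ⟨N.mul_mem (mem_st.1 hh).1 hn1, hCY ▸ h2⟩, by rw [mul_smul, (mem_st.1 hh).2]⟩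
    · rintro _ ⟨c, hc, rfl⟩
      refine ⟨inv_orb N b c hc.1 a ha1, mem_Fx1.2 ?_⟩
      rw [← mul_smul, (mem_centralizer_iff.1 hc.2 y rfl), mul_smul, ha]
  obtain ⟨m, hm⟩ := relIndex_dvd hy (st_le N a) hN (norm_st hN ha) hcop
  have e1 := card_orb N a
  have e2 := card_orb (N ⊓ centralizer {y}) a
  have e3 := card_relIndex (centralizer {y}) N
  have e4 := card_relIndex (centralizer {y}) (st N a)
  have e5 : st (N ⊓ centralizer {y}) a = st N a ⊓ centralizer {y} := by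
    unfold st; rw [inf_right_comm]
  rw [orb_eq_of_mem ha1] at e1
  rw [← hF, e5] at e2
  have z : 0 < Nat.card (st N a) := Nat.card_pos
  have e6 : (orb N b).ncard = (orb N b ∩ Fx {y} W).ncard * m := by
    apply Nat.eq_of_mul_eq_mul_right z
    rw [e1, e3, ← e2, hm, e4]; ring
  have ht0 : t ≠ 0 := by
    rintro rfl
    have := Set.eq_of_subset_of_ncard_le (Set.inter_subset_left (s := orb N b) (t := Fx {y} W))
      (by omega) (Set.toFinite _)
    rw [← this] at hw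
    exact hyw (mem_Fx1.1 hw.2)
  have hd : (orb N b ∩ Fx {y} W).ncard ∣ p * t := by
    have : (orb N b ∩ Fx {y} W).ncard ∣ (orb N b ∩ Fx {y} W).ncard + p * t := ht ▸ Dvd.intro _ e6.symm
    exact (Nat.dvd_add_right dvd_rfl).1 this
  have := Nat.le_of_dvd (Nat.pos_of_ne_zero ht0) (hf.dvd_of_dvd_mul_left hd)
  rw [ht]; nlinarith

theorem card_orb_zp {x : G} (hx : x ^ p = 1) {w : W} (hw : x • w ≠ w) :
    (orb (zpowers x) w).ncard = p := by
  have e := card_orb (zpowers x) w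
  have h1 : x ≠ 1 := by rintro rfl; exact hw (one_smul _ _)
  rw [Nat.card_zpowers, ord_of hx h1] at e
  rcases (Nat.dvd_prime hp.out).1 (Dvd.intro _ e) with h | h
  · exfalso
    obtain ⟨a, ha⟩ := Set.ncard_eq_one.1 h
    have h2 := mem_orb_self (zpowers x) w
    have h3 := smul_mem_orb (mem_zpowers x) w
    rw [ha] at h2 h3
    exact hw (h3.trans h2.symm)
  · exact h

theorem moved_smul {k x : G} (hc : Commute k x) {w : W} (hw : x • w ≠ w) : x • k • w ≠ k • w := by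
  rw [← mul_smul, ← hc.eq, mul_smul]
  exact fun h => hw (smul_left_cancel k h)

theorem orb_zp_moved {x : G} {w v : W} (hw : x • w ≠ w) (hv : v ∈ orb (zpowers x) w) :
    x • v ≠ v := by
  obtain ⟨_, ⟨i, rfl⟩, rfl⟩ := hv
  exact moved_smul ((Commute.refl x).zpow_left i) hw

theorem pow_p_fix {k x : G} (hx : x ^ p = 1) (hc : Commute k x) {w : W}
    (h : k • w ∈ orb (zpowers x) w) : k ^ p • w = w := by
  obtain ⟨_, ⟨i, rfl⟩, h⟩ := h
  have h1 : (k * x ^ (-i)) • w = w := by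
    rw [(hc.zpow_right (-i)).eq, mul_smul, ← h, ← mul_smul, ← zpow_add]; simp
  have h2 := pow_fix h1 p
  rw [(hc.zpow_right (-i)).mul_pow, ← zpow_natCast (x ^ (-i)), ← zpow_mul, mul_comm (-i), zpow_mul,
    zpow_natCast, hx] at h2
  simpa using h2

theorem smul_orb_zp {k x : G} (hc : Commute k x) {w v : W} (h : v ∈ orb (zpowers x) w) :
    k • v ∈ orb (zpowers x) (k • w) := by
  obtain ⟨_, ⟨i, rfl⟩, rfl⟩ := h
  exact ⟨x ^ i, ⟨i, rfl⟩, by rw [← mul_smul, ← mul_smul, (hc.zpow_right i).eq]⟩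

theorem three_le {S : Set W} {a b c : W} (ha : a ∈ S) (hb : b ∈ S) (hc : c ∈ S) (hab : a ≠ b)
    (hac : a ≠ c) (hbc : b ≠ c) : 3 ≤ S.ncard := by
  rw [← Set.ncard_eq_three.2 ⟨a, b, c, hab, hac, hbc, rfl⟩]
  refine Set.ncard_le_ncard ?_ (Set.toFinite _)
  intro v hv
  rcases hv with rfl | rfl | rfl <;> assumption

theorem K2p {k x : G} (hx : x ^ p = 1) (hc : Commute k x) {S : Set W}
    (hk : ∀ w ∈ S, k • w ∈ S) (hS : Inv (zpowers x) S) (h1 : (S ∩ Fx {x} W).ncard ≤ 2)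
    (h2 : S.ncard ≤ (S ∩ Fx {x} W).ncard + 2 * p) {w : W} (hw : w ∈ S) : k ^ (2 * p) • w = w := by
  rw [pow_mul]
  by_cases hxw : x • w = w
  · refine pow_fix ?_ p
    have hF : ∀ v ∈ S ∩ Fx {x} W, k • v ∈ S ∩ Fx {x} W := fun v hv =>
      ⟨hk v hv.1, mem_Fx1.2 (by rw [← mul_smul, ← hc.eq, mul_smul, mem_Fx1.1 hv.2])⟩
    have hw0 : w ∈ S ∩ Fx {x} W := ⟨hw, mem_Fx1.2 hxw⟩
    by_contra h3
    rw [pow_two, mul_smul] at h3
    have h4 : k • w ≠ w := fun h => h3 (by rw [h, h])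
    have := three_le hw0 (hF _ hw0) (hF _ (hF _ hw0)) h4.symm (Ne.symm h3)
      fun h => h4 (smul_left_cancel k h).symm
    omega
  refine pow_p_fix hx (hc.pow_left 2) ?_
  rw [pow_two, mul_smul]
  by_contra h3
  have h4 : k • w ∉ orb (zpowers x) w := fun h => h3 (by
    have := smul_orb_zp hc h
    rwa [orb_eq_of_mem h] at this)
  have h5 : k • k • w ∉ orb (zpowers x) (k • w) := fun h => h4 (by
    have := smul_orb_zp hc.inv_left h
    simpa using this)
  have m1 := moved_smul hc hxw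
  have m2 := moved_smul hc m1
  have s0 : ∀ v ∈ S, x • v ≠ v → orb (zpowers x) v ⊆ S \ (S ∩ Fx {x} W) := fun v hv hxv u hu =>
    ⟨hS.orb_sub hv hu, fun h => orb_zp_moved hxv hu (mem_Fx1.1 h.2)⟩
  have d1 : Disjoint (orb (zpowers x) (k • w)) (orb (zpowers x) w) :=
    Set.subset_compl_iff_disjoint_right.1 (orb_disj h4)
  have d2 : Disjoint (orb (zpowers x) (k • k • w))
      (orb (zpowers x) (k • w) ∪ orb (zpowers x) w) :=
    Set.disjoint_union_right.2 ⟨Set.subset_compl_iff_disjoint_right.1 (orb_disj h5),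
      Set.subset_compl_iff_disjoint_right.1 (orb_disj h3)⟩
  have c1 := Set.ncard_union_eq d1 (Set.toFinite _) (Set.toFinite _)
  have c2 := Set.ncard_union_eq d2 (Set.toFinite _) (Set.toFinite _)
  rw [c1, card_orb_zp hx hxw, card_orb_zp hx m1, card_orb_zp hx m2] at c2
  have c3 := Set.ncard_le_ncard (Set.union_subset (s0 _ (hk _ (hk _ hw)) m2)
    (Set.union_subset (s0 _ (hk _ hw) m1) (s0 _ hw hxw))) (Set.toFinite _)
  have c4 := Set.ncard_diff_add_ncard_of_subset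
    (Set.inter_subset_left (s := S) (t := Fx {x} W)) (Set.toFinite _)
  have := hp.out.pos
  omega

end Cfsg.Agent.H51.FP
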