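import Cfsg.Agent.H98.GbL
import Cfsg.Agent.H11.Inner

/-! Project GB: twisted power sums for a family of fixed orbits. -/

set_option autoImplicit false

namespace Cfsg.Agent.H51.GbTh2a

open Cfsg Cfsg.Agent.H98.GB

universe u

theorem th2a (hD : DECStmt.{u}) (hE : ECOPStmt.{u}) (hX : XGStmt.{u}) (h0 : TH0aStmt.{u})
    (h1 : TH1Stmt.{u}) (hL : LABStmt.{u}) : TH2aStmt.{u} := by
  intro F _ _ _ C c hc HH In hIn
  have ex : ∀ φ, ∃ Q : C.Φ → ℕ → ∀ j, (HH j).A, In φ → C.TwS c HH (fun φ' => φ' = φ) Q := fun φ => by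
    by_cases h : In φ
    · exact (h1 F C c hc HH φ (hIn φ h)).imp fun _ hQ _ => hQ
    · exact ⟨0, fun h' => absurd h' h⟩
  choose Q hQ using ex
  have pos := (hL F C).dg_pos
  refine ⟨fun φ => Q φ φ, fun φ k h => (hQ φ h).rf φ k rfl, fun φ k j h => (hQ φ h).pr φ k j rfl,
    fun j n φ k φ' k' h h' k0 k0' l l' => ?_, fun φ k j h => (hQ φ h).del φ k j rfl,
    fun φ k h => (hQ φ h).zero φ k rfl, fun φ k j h => (hQ φ h).eE φ k j rfl⟩
  by_cases e : φ = φ'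
  · subst e
    exact (hQ φ h).gram j n φ k φ k' rfl rfl k0 k0' l l'
  rw [if_neg fun x => e x.1]
  have p' : ∀ i, 0 < i → i ≤ k' → (HH j).Pr (C.dg φ' * i) (Q φ' φ' i j) := fun i i0 _ =>
    (hQ φ' h').pr φ' i j rfl i0
  refine (hX F _ (HH j) (C.dg φ) k (fun i => Q φ φ i j) (pos φ) fun i i0 _ =>
    (hQ φ h).pr φ i j rfl i0).2 (C.dg φ') k' (fun i => Q φ' φ' i j) (pos φ') p'
    (fun i i' i0 _ _ li => ?_) k k' k0 le_rfl k0' le_rfl
  by_cases d : C.dg φ * i = C.dg φ' * i'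
  · have g : ∀ n, n = C.dg φ' * i' → InE {χ | χ.1 = C.H.ev (ee (C.pp φ') i') n}
        ((HH j).ev (ee (fun i => Q φ' φ' i j) i') n) := by
      rintro _ rfl
      exact (hQ φ' h').eE φ' i' j rfl
    refine (hD _).2.1 _ _ _ _ ((hQ φ h).eE φ i j rfl) (g _ d) (Set.disjoint_left.2 fun χ a b => ?_)
    have z : classInner (C.eC φ i) (C.H.ev (ee (C.pp φ') i') (C.dg φ * i)) = 0 :=
      (h0 F C φ i).2.2.2.2 φ' i' e i0
    rw [← show χ.1 = _ from a, ← show χ.1 = _ from b, H11.classInner_irr_self χ.2] at z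
    exact one_ne_zero z
  · rw [Hall.ip, (hE F _ (HH j) _ k' _ (pos φ') p' i' li).1 _ d, H11.classInner_zero_right]

end Cfsg.Agent.H51.GbTh2a
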