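import Cfsg.Agent.H50.L81Defs

/-! Project L81: the piece `FixneStmt`. -/

set_option autoImplicit false
set_option linter.unusedVariables false

namespace Cfsg.Agent.H51.L81Fixne

open Cfsg.Agent.H50.L81 Finset

theorem SE_congr {m m' : ℕ → ℕ} (h : ∀ r < 81, Even r → m r = m' r) (n e : ℕ) : SE m n e = SE m' n e :=
  Finset.sum_congr rfl fun a ha => by
    rw [h (2 * a) (by have := Finset.mem_range.1 ha; omega) (even_two_mul a)]

theorem fixne (hSer : SerStmt) (hMult : MultStmt) (hBfix : BfixStmt) (hZz : ZzStmt) (hPrs : PrsStmt)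
    (hG2 : G2Stmt) : FixneStmt := by
  intro p W _ _ _ ρ h1 B fr hB hfr i i3 i7 hc h0
  obtain ⟨L0, hL0⟩ := (hSer p W ρ h1).2.2 ⊥ [] ⊤ Ser.nil le_top fun _ _ _ => trivial
  have c0 := hc _ hL0
  have hb : Fx ρ _ = ⊥ := hBfix p W ρ h1 h0 fun L hL h80 => by
    have e := hc L hL 80 (by norm_num) (by decide)
    have e2 : mm i 80 = 0 := by interval_cases i <;> rfl
    rw [e2] at e
    exact absurd (List.count_pos_iff.2 h80) (by omega)
  have hm : Mult ρ p ⊤ (mm i) := by
    obtain ⟨m1, m2⟩ := hMult p W ρ h1 _ _ hL0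
    exact ⟨fun e he => (m1 e he).trans (SE_congr c0 _ _), fun e he => (m2 e he).trans (SE_congr c0 _ _)⟩
  have hz := hZz p W ρ h1 hb _ _ hL0
  simp only [pw] at hz
  rw [c0 0 (by norm_num) (by decide), c0 4 (by norm_num) (by decide), c0 12 (by norm_num) (by decide),
    c0 36 (by norm_num) (by decide), c0 28 (by norm_num) (by decide)] at hz
  interval_cases i
  · exact absurd hz (by decide)
  · obtain ⟨M, M', L, L', -, s', hs, z0, z4, z12, z36, z28, -⟩ :=
      hPrs p W ρ h1 B fr hB hfr hb _ hm (by decide) (by decide)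
    have hz' := hZz p W ρ h1 hb _ _ s'
    simp only [pw] at hz'
    have a0 : 4 = L.count 0 + L'.count 0 := hs 0 (by norm_num) (by decide)
    have a4 : 1 = L.count 4 + L'.count 4 := hs 4 (by norm_num) (by decide)
    have a12 : 1 = L.count 12 + L'.count 12 := hs 12 (by norm_num) (by decide)
    have a36 : 1 = L.count 36 + L'.count 36 := hs 36 (by norm_num) (by decide)
    have a28 : 1 = L.count 28 + L'.count 28 := hs 28 (by norm_num) (by decide)
    omega
  · exact absurd hz (by decide)
  · obtain ⟨M, M', L, L', hP⟩ := hPrs p W ρ h1 B fr hB hfr hb _ hm (by decide) (by decide)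
    exact hG2 p W ρ h1 hb M M' L L' hP

end Cfsg.Agent.H51.L81Fixne
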