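import Mathlib

/-!
Limits of subgroups of a ring along a polynomial family, a socle flag for a `p`-group acting on a
finite ring by conjugation, and a subnormal-chain lemma (used for 2-subnormal offenders).
-/

set_option autoImplicit false

namespace Cfsg.Agent.H51.Ly

open Polynomial

section Lim

variable {R : Type*} [Ring R]

/-- leading coefficients of the `τ`-images of polynomials with coefficients in `U` -/
def lim (τ : R[X] →+ R[X]) (hτ : ∀ P, τ (X * P) = X * τ P) (U : AddSubgroup R) :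
    AddSubgroup R where
  carrier := {x | ∃ (P : R[X]) (n : ℕ), (∀ k, P.coeff k ∈ U) ∧ (∀ m, n < m → (τ P).coeff m = 0) ∧
    (τ P).coeff n = x}
  zero_mem' := ⟨0, 0, fun k => by simp, fun m _ => by simp, by simp⟩
  neg_mem' := by
    rintro x ⟨P, n, h1, h2, h3⟩
    refine ⟨-P, n, fun k => by simpa using U.neg_mem (h1 k), fun m hm => by simp [h2 m hm], ?_⟩
    simp [h3]
  add_mem' := by
    have hpow : ∀ (k : ℕ) (P : R[X]), τ (X ^ k * P) = X ^ k * τ P := by
      intro k
      induction k with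
      | zero => simp
      | succ k ih => intro P; rw [pow_succ', mul_assoc, hτ, ih, mul_assoc]
    rintro x y ⟨P, n, h1, h2, h3⟩ ⟨Q, n', k1, k2, k3⟩
    refine ⟨X ^ n' * P + X ^ n * Q, n + n', fun k => ?_, fun m hm => ?_, ?_⟩
    · rw [coeff_add, coeff_X_pow_mul', coeff_X_pow_mul']
      refine U.add_mem ?_ ?_
      · split_ifs
        · exact h1 _
        · exact U.zero_mem
      · split_ifs
        · exact k1 _
        · exact U.zero_mem
    · rw [map_add, hpow, hpow, coeff_add, coeff_X_pow_mul', coeff_X_pow_mul',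
        if_pos (by omega), if_pos (by omega), h2 _ (by omega), k2 _ (by omega), add_zero]
    · rw [map_add, hpow, hpow, coeff_add, coeff_X_pow_mul', coeff_X_pow_mul',
        if_pos (by omega), if_pos (by omega), show n + n' - n' = n by omega,
        show n + n' - n = n' by omega, h3, k3]

theorem mem_lim {τ : R[X] →+ R[X]} {hτ : ∀ P, τ (X * P) = X * τ P} {U : AddSubgroup R} {x : R} :
    x ∈ lim τ hτ U ↔ ∃ (P : R[X]) (n : ℕ), (∀ k, P.coeff k ∈ U) ∧
      (∀ m, n < m → (τ P).coeff m = 0) ∧ (τ P).coeff n = x := Iff.rfl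

theorem lim_mono {τ : R[X] →+ R[X]} {hτ : ∀ P, τ (X * P) = X * τ P} {U W : AddSubgroup R}
    (h : U ≤ W) : lim τ hτ U ≤ lim τ hτ W := by
  rintro x ⟨P, n, h1, h2, h3⟩
  exact ⟨P, n, fun k => h (h1 k), h2, h3⟩

theorem le_of_pow_le {u l : ℕ} (hl : 0 < l) (h : ∀ N, u ^ N ≤ l ^ (N + 2)) : u ≤ l := by
  by_contra hc
  have h1 : l + 1 ≤ u := by omega
  have h2 : ∀ N, l ^ (N + 1) + (N + 1) * l ^ N ≤ (l + 1) ^ (N + 1) := by
    intro N
    induction N with
    | zero => simp
    | succ N ih =>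
      calc l ^ (N + 1 + 1) + (N + 1 + 1) * l ^ (N + 1)
          ≤ (l + 1) * (l ^ (N + 1) + (N + 1) * l ^ N) := by
            have : (l + 1) * (l ^ (N + 1) + (N + 1) * l ^ N) =
              l ^ (N + 1 + 1) + (N + 1 + 1) * l ^ (N + 1) + (N + 1) * l ^ N := by ring
            omega
        _ ≤ (l + 1) * (l + 1) ^ (N + 1) := Nat.mul_le_mul_left _ ih
        _ = (l + 1) ^ (N + 1 + 1) := by ring
  have h3 := h2 (l ^ 3)
  have h4 := h (l ^ 3 + 1)
  have h5 : (l + 1) ^ (l ^ 3 + 1) ≤ u ^ (l ^ 3 + 1) := Nat.pow_le_pow_left h1 _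
  have h6 : l ^ (l ^ 3 + 1 + 2) = l ^ 3 * l ^ (l ^ 3) := by ring
  have h7 : 0 < l ^ (l ^ 3) := by positivity
  have h8 : (l ^ 3 + 1) * l ^ (l ^ 3) = l ^ 3 * l ^ (l ^ 3) + l ^ (l ^ 3) := by ring
  omega

theorem card_le_lim [Finite R] {τ : R[X] →+ R[X]} (hτ : ∀ P, τ (X * P) = X * τ P)
    (hinj : Function.Injective τ)
    (hdeg : ∀ (P : R[X]) (n : ℕ), (∀ m, n ≤ m → P.coeff m = 0) →
      ∀ m, n + 2 ≤ m → (τ P).coeff m = 0) (U : AddSubgroup R) :
    Nat.card U ≤ Nat.card (lim τ hτ U) := by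
  classical
  let S : ℕ → AddSubgroup R[X] := fun k =>
    { carrier := {P | (∀ i, P.coeff i ∈ U) ∧ ∀ m, k ≤ m → (τ P).coeff m = 0}
      zero_mem' := ⟨fun i => by simp, fun m _ => by simp⟩
      neg_mem' := by
        rintro P ⟨h1, h2⟩
        exact ⟨fun i => by simpa using U.neg_mem (h1 i), fun m hm => by simp [h2 m hm]⟩
      add_mem' := by
        rintro P Q ⟨h1, h2⟩ ⟨k1, k2⟩
        exact ⟨fun i => by simpa using U.add_mem (h1 i) (k1 i),
          fun m hm => by simp [h2 m hm, k2 m hm]⟩ }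
  have hfin : ∀ k, Finite (S k) := by
    intro k
    refine Finite.of_injective (fun P : S k => fun i : Fin k => (τ P.1).coeff i) ?_
    intro P Q hPQ
    apply Subtype.ext
    apply hinj
    ext m
    by_cases hm : m < k
    · exact congrFun hPQ ⟨m, hm⟩
    · rw [P.2.2 m (by omega), Q.2.2 m (by omega)]
  have hS : ∀ k, Nat.card (S k) ≤ Nat.card (lim τ hτ U) ^ k := by
    intro k
    induction k with
    | zero =>
      have : S 0 = ⊥ := by
        rw [eq_bot_iff]
        rintro P ⟨-, h2⟩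
        rw [AddSubgroup.mem_bot]
        apply hinj
        ext m
        rw [h2 m (Nat.zero_le _), map_zero, coeff_zero]
      rw [this]; simp
    | succ k ih =>
      haveI := hfin (k + 1)
      haveI := hfin k
      let f : S (k + 1) →+ lim τ hτ U :=
        { toFun := fun P => ⟨(τ P.1).coeff k, P.1, k, P.2.1, fun m hm => P.2.2 m hm, rfl⟩
          map_zero' := Subtype.ext (by simp)
          map_add' := fun P Q => Subtype.ext (by simp) }
      have h1 : Nat.card (S (k + 1)) = Nat.card f.range * Nat.card f.ker := by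
        rw [AddSubgroup.card_eq_card_quotient_mul_card_addSubgroup f.ker,
          Nat.card_congr (QuotientAddGroup.quotientKerEquivRange f).toEquiv]
      have h2 : Nat.card f.range ≤ Nat.card (lim τ hτ U) := AddSubgroup.card_le_card_addGroup _
      have h3 : Nat.card f.ker ≤ Nat.card (S k) := by
        refine Nat.card_le_card_of_injective
          (fun P : f.ker => (⟨P.1.1, P.1.2.1, fun m hm => ?_⟩ : S k)) ?_
        · rcases hm.eq_or_lt with h | h
          · subst h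
            exact congrArg Subtype.val P.2
          · exact P.1.2.2 m h
        · intro P Q hPQ
          have := congrArg (fun Z : S k => Z.1) hPQ
          exact Subtype.ext (Subtype.ext this)
      calc Nat.card (S (k + 1)) = Nat.card f.range * Nat.card f.ker := h1
        _ ≤ Nat.card (lim τ hτ U) * Nat.card (lim τ hτ U) ^ k :=
          Nat.mul_le_mul h2 (h3.trans ih)
        _ = _ := by ring
  refine le_of_pow_le Nat.card_pos fun N => ?_
  refine le_trans ?_ (hS (N + 2))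
  haveI := hfin (N + 2)
  have hc : ∀ (g : Fin N → U) (j : ℕ), (∑ i : Fin N, monomial (i : ℕ) (g i : R)).coeff j =
      if h : j < N then (g ⟨j, h⟩ : R) else 0 := by
    intro g j
    rw [finset_sum_coeff]
    simp only [coeff_monomial]
    split_ifs with h
    · rw [Finset.sum_eq_single ⟨j, h⟩]
      · simp
      · intro b _ hb
        rw [if_neg]
        intro hbj
        exact hb (Fin.ext hbj)
      · simp
    · refine Finset.sum_eq_zero fun i _ => if_neg ?_
      have := i.2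
      omega
  have := Nat.card_le_card_of_injective
    (fun g : Fin N → U => (⟨∑ i : Fin N, monomial (i : ℕ) (g i : R), fun j => by
      rw [hc]; split_ifs
      · exact (g _).2
      · exact U.zero_mem, hdeg _ N fun m hm => by rw [hc, dif_neg (by omega)]⟩ : S (N + 2))) (by
      intro g g' hg
      funext i
      have := congrArg (fun P : S (N + 2) => P.1.coeff i) hg
      simp only [hc, dif_pos i.2] at this
      exact Subtype.ext this)
  rwa [Nat.card_fun, Nat.card_eq_fintype_card (α := Fin N), Fintype.card_fin] at this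

theorem coeff_mul_top {P Q : R[X]} {n n' : ℕ} (hP : ∀ m, n < m → P.coeff m = 0)
    (hQ : ∀ m, n' < m → Q.coeff m = 0) : (P * Q).coeff (n + n') = P.coeff n * Q.coeff n' :=
  coeff_mul_add_eq_of_natDegree_le (natDegree_le_iff_coeff_eq_zero.2 hP)
    (natDegree_le_iff_coeff_eq_zero.2 hQ)

theorem lim_mul_lim {τ σ : R[X] →+ R[X]} {hτ : ∀ P, τ (X * P) = X * τ P}
    {hσ : ∀ P, σ (X * P) = X * σ P} {U W : AddSubgroup R}
    (h : ∀ P Q : R[X], P * Q = 0 → τ P * σ Q = 0) (hUW : ∀ x ∈ U, ∀ y ∈ W, x * y = 0) :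
    ∀ x ∈ lim τ hτ U, ∀ y ∈ lim σ hσ W, x * y = 0 := by
  rintro x ⟨P, n, h1, h2, rfl⟩ y ⟨Q, n', k1, k2, rfl⟩
  rw [← coeff_mul_top h2 k2, h P Q, coeff_zero]
  ext m
  rw [coeff_mul, coeff_zero]
  exact Finset.sum_eq_zero fun c _ => hUW _ (h1 _) _ (k1 _)

end Lim

section Flag

variable {G : Type*} [Group G] {R : Type*} [Ring R]

/-- conjugation by the image of a group element -/
def cjR (ρ : G →* R) (g : G) : R →+ R where
  toFun x := ρ g⁻¹ * x * ρ g
  map_zero' := by simp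
  map_add' x y := by simp [mul_add, add_mul]

theorem cjR_apply (ρ : G →* R) (g : G) (x : R) : cjR ρ g x = ρ g⁻¹ * x * ρ g := rfl

theorem cjR_cjR (ρ : G →* R) (g h : G) (x : R) : cjR ρ h (cjR ρ g x) = cjR ρ (g * h) x := by
  simp only [cjR_apply, mul_inv_rev, map_mul, mul_assoc]

theorem cjR_one (ρ : G →* R) (x : R) : cjR ρ 1 x = x := by simp [cjR_apply]

theorem cjR_mul (ρ : G →* R) (g : G) (x y : R) : cjR ρ g (x * y) = cjR ρ g x * cjR ρ g y := by
  have : ρ g * ρ g⁻¹ = 1 := by rw [← map_mul]; simp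
  simp only [cjR_apply]
  calc ρ g⁻¹ * (x * y) * ρ g = ρ g⁻¹ * x * (ρ g * ρ g⁻¹) * y * ρ g := by
        rw [this]; simp [mul_assoc]
    _ = _ := by simp [mul_assoc]

theorem cjR_rho (ρ : G →* R) (g a : G) : cjR ρ g (ρ a - 1) = ρ (g⁻¹ * a * g) - 1 := by
  have : ρ g⁻¹ * ρ g = 1 := by rw [← map_mul]; simp
  rw [cjR_apply, mul_sub, sub_mul, mul_one, this, map_mul, map_mul]

/-- the socle flag -/
def flag (ρ : G →* R) : ℕ → AddSubgroup R
  | 0 => ⊥
  | i + 1 => ⨅ g : G, (flag ρ i).comap (cjR ρ g - AddMonoidHom.id R)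

theorem mem_flag_succ {ρ : G →* R} {i : ℕ} {x : R} :
    x ∈ flag ρ (i + 1) ↔ ∀ g, cjR ρ g x - x ∈ flag ρ i := by
  simp [flag, AddSubgroup.mem_iInf]

theorem flag_cj (ρ : G →* R) (i : ℕ) : ∀ (g : G) (x : R), x ∈ flag ρ i → cjR ρ g x ∈ flag ρ i := by
  induction i with
  | zero => intro g x hx; rw [flag, AddSubgroup.mem_bot] at hx ⊢; rw [hx, map_zero]
  | succ i ih =>
    intro g x hx
    rw [mem_flag_succ] at hx ⊢
    intro h
    have : cjR ρ h (cjR ρ g x) - cjR ρ g x = cjR ρ g (cjR ρ (g * h * g⁻¹) x - x) := by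
      rw [map_sub, cjR_cjR, cjR_cjR]; simp
    rw [this]
    exact ih _ _ (hx _)

theorem flag_le_succ (ρ : G →* R) (i : ℕ) : flag ρ i ≤ flag ρ (i + 1) := fun x hx =>
  mem_flag_succ.2 fun g => sub_mem (flag_cj ρ i g x hx) hx

theorem exists_fixed_mod [Finite R] [Finite G] {p : ℕ} [hp : Fact p.Prime] (hG : IsPGroup p G)
    (hR : ∀ x : R, p • x = 0) (ρ : G →* R) (N : AddSubgroup R)
    (hN : ∀ (g : G) (x : R), x ∈ N → cjR ρ g x ∈ N) (hne : N ≠ ⊤) :
    ∃ x, x ∉ N ∧ ∀ g, cjR ρ g x - x ∈ N := by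
  letI : MulAction G (R ⧸ N) :=
    { smul := fun g q => QuotientAddGroup.map N N (cjR ρ g⁻¹) (fun x hx => hN _ x hx) q
      one_smul := by
        intro q
        induction q using QuotientAddGroup.induction_on with
        | H x =>
          show ((cjR ρ 1⁻¹ x : R) : R ⧸ N) = x
          rw [inv_one, cjR_one]
      mul_smul := by
        intro g h q
        induction q using QuotientAddGroup.induction_on with
        | H x =>
          show ((cjR ρ (g * h)⁻¹ x : R) : R ⧸ N) = ((cjR ρ g⁻¹ (cjR ρ h⁻¹ x) : R) : R ⧸ N)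
          rw [cjR_cjR, mul_inv_rev] }
  have hsm : ∀ (g : G) (x : R), g • (x : R ⧸ N) = ((cjR ρ g⁻¹ x : R) : R ⧸ N) := fun g x => rfl
  have hdvd : p ∣ Nat.card (R ⧸ N) := by
    obtain ⟨x, hx⟩ : ∃ x, x ∉ N := by
      by_contra hc
      push Not at hc
      exact hne (eq_top_iff.2 fun x _ => hc x)
    have h1 : addOrderOf (x : R ⧸ N) = p := by
      refine addOrderOf_eq_prime ?_ ?_
      · rw [← QuotientAddGroup.mk_nsmul, hR, QuotientAddGroup.mk_zero]
      · rwa [Ne, QuotientAddGroup.eq_zero_iff]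
    rw [← h1]
    exact addOrderOf_dvd_natCard _
  have h0 : (0 : R ⧸ N) ∈ MulAction.fixedPoints G (R ⧸ N) := by
    intro g
    have := hsm g 0
    rw [map_zero, QuotientAddGroup.mk_zero] at this
    exact this
  obtain ⟨b, hb, hb0⟩ := hG.exists_fixed_point_of_prime_dvd_card_of_fixed_point (R ⧸ N) hdvd h0
  induction b using QuotientAddGroup.induction_on with
  | H x =>
    refine ⟨x, fun hx => hb0 ((QuotientAddGroup.eq_zero_iff x).2 hx).symm, fun g => ?_⟩
    have := hb g⁻¹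
    rw [hsm, inv_inv, QuotientAddGroup.eq_iff_sub_mem] at this
    exact this

theorem card_lt_of_lt' [Finite R] {U W : AddSubgroup R} (h : U < W) : Nat.card U < Nat.card W := by
  have h1 : (U : Set R) ⊂ (W : Set R) := SetLike.coe_ssubset_coe.2 h
  have := Set.ncard_lt_ncard h1 (Set.toFinite _)
  rwa [← Nat.card_coe_set_eq, ← Nat.card_coe_set_eq] at this

theorem exists_flag_top [Finite R] [Finite G] {p : ℕ} [hp : Fact p.Prime] (hG : IsPGroup p G)
    (hR : ∀ x : R, p • x = 0) (ρ : G →* R) : ∃ M, flag ρ M = ⊤ := by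
  by_contra hc
  push Not at hc
  have : ∀ i, i ≤ Nat.card (flag ρ i) := by
    intro i
    induction i with
    | zero => exact Nat.zero_le _
    | succ i ih =>
      obtain ⟨x, hx, hx2⟩ := exists_fixed_mod hG hR ρ _ (flag_cj ρ i) (hc i)
      have hlt : flag ρ i < flag ρ (i + 1) :=
        lt_of_le_of_ne (flag_le_succ ρ i) fun h => hx (h ▸ mem_flag_succ.2 hx2)
      have := card_lt_of_lt' hlt
      omega
  have h1 := this (Nat.card R + 1)
  have h2 : Nat.card (flag ρ (Nat.card R + 1)) ≤ Nat.card R := AddSubgroup.card_le_card_addGroup _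
  omega

end Flag

section Chain

variable {G : Type*} [Group G]

/-- the normal closure of `A` under `K` -/
def ncl (K A : Subgroup G) : Subgroup G :=
  Subgroup.closure {x | ∃ h ∈ K, ∃ a ∈ A, x = h * a * h⁻¹}

theorem ncl_conj {K A : Subgroup G} {k x : G} (hk : k ∈ K) (hx : x ∈ ncl K A) :
    k * x * k⁻¹ ∈ ncl K A := by
  induction hx using Subgroup.closure_induction with
  | mem y hy =>
    obtain ⟨h, hh, a, ha, rfl⟩ := hy
    exact Subgroup.subset_closure ⟨k * h, K.mul_mem hk hh, a, ha, by group⟩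
  | one => simp
  | mul y z _ _ hy hz =>
    have := (ncl K A).mul_mem hy hz
    convert this using 1; group
  | inv y _ hy =>
    have := (ncl K A).inv_mem hy
    convert this using 1; group

theorem le_ncl (K A : Subgroup G) : A ≤ ncl K A := fun a ha =>
  Subgroup.subset_closure ⟨1, K.one_mem, a, ha, by group⟩

theorem ncl_le {K A : Subgroup G} (h : A ≤ K) : ncl K A ≤ K := by
  rw [ncl, Subgroup.closure_le]
  rintro _ ⟨k, hk, a, ha, rfl⟩
  exact K.mul_mem (K.mul_mem hk (h ha)) (K.inv_mem hk)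

theorem ncl_lt [Finite G] {p : ℕ} [Fact p.Prime] (hG : IsPGroup p G) {K A : Subgroup G}
    (h : A ≤ K) (hne : A ≠ K) : ncl K A < K := by
  have hK : IsPGroup p K := hG.to_subgroup K
  haveI := hK.isNilpotent
  have hne' : A.subgroupOf K ≠ ⊤ := by
    rw [Ne, Subgroup.subgroupOf_eq_top]
    exact fun h' => hne (le_antisymm h h')
  obtain ⟨M, hM, hAM⟩ := (eq_top_or_exists_le_coatom (A.subgroupOf K)).resolve_left hne'
  have hn : M.Normal := Subgroup.NormalizerCondition.normal_of_coatom M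
    normalizerCondition_of_isNilpotent hM
  refine lt_of_le_of_ne (ncl_le h) fun heq => hM.1 ?_
  have : ncl K A ≤ M.map K.subtype := by
    rw [ncl, Subgroup.closure_le]
    rintro _ ⟨k, hk, a, ha, rfl⟩
    exact ⟨⟨k, hk⟩ * ⟨a, h ha⟩ * ⟨k, hk⟩⁻¹, hn.conj_mem _ (hAM ha) _, rfl⟩
  rw [eq_top_iff]
  intro x _
  obtain ⟨y, hy, hyx⟩ := this (heq.ge x.2)
  rwa [show y = x from Subtype.ext hyx] at hy

theorem chain [Finite G] {p : ℕ} [Fact p.Prime] (hG : IsPGroup p G) {A : Subgroup G}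
    (hA : ¬ ∀ g ∈ ncl ⊤ A, ∀ a ∈ A, g * a * g⁻¹ ∈ A) :
    ∃ h b : G, h⁻¹ * b * h ∈ A ∧ (¬ ∀ a ∈ A, b⁻¹ * a * b ∈ A) ∧
      ∀ c ∈ Subgroup.zpowers b, ∀ a' ∈ A, ∀ a ∈ A,
        (c⁻¹ * a' * c)⁻¹ * a * (c⁻¹ * a' * c) ∈ A := by
  obtain ⟨K, ⟨hAK, hK⟩, hmin⟩ := (wellFounded_lt (α := Subgroup G)).has_min
    {K | A ≤ K ∧ ¬ ∀ g ∈ ncl K A, ∀ a ∈ A, g * a * g⁻¹ ∈ A} ⟨⊤, le_top, hA⟩
  have hne : A ≠ K := by
    rintro rfl
    exact hK fun g hg a ha =>
      A.mul_mem (A.mul_mem (ncl_le le_rfl hg) ha) (A.inv_mem (ncl_le le_rfl hg))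
  have hlt := ncl_lt hG hAK hne
  have h2 : ∀ g ∈ ncl (ncl K A) A, ∀ a ∈ A, g * a * g⁻¹ ∈ A := by
    by_contra hc
    exact hmin _ ⟨le_ncl K A, hc⟩ hlt
  obtain ⟨b, ⟨h, hh, a₁, ha₁, hb⟩, hbn⟩ : ∃ b ∈ {x | ∃ h ∈ K, ∃ a ∈ A, x = h * a * h⁻¹},
      ¬ ∀ a ∈ A, b⁻¹ * a * b ∈ A := by
    by_contra hc
    push Not at hc
    apply hK
    intro g hg
    have : g ∈ Subgroup.normalizer (A : Set G) := by
      refine (Subgroup.closure_le _).2 ?_ hg
      rintro y ⟨h, hh, a₁, ha₁, rfl⟩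
      show _ ∈ Subgroup.normalizer (A : Set G)
      rw [Subgroup.mem_normalizer_iff]
      intro a
      constructor
      · intro ha
        have := hc _ ⟨h, hh, a₁⁻¹, A.inv_mem ha₁, rfl⟩ a ha
        convert this using 1; group
      · intro ha
        have := hc _ ⟨h, hh, a₁, ha₁, rfl⟩ _ ha
        convert this using 1; group
    intro a ha
    exact (Subgroup.mem_normalizer_iff.1 this a).1 ha
  refine ⟨h, b, by rw [hb]; simpa [mul_assoc] using ha₁, hbn, fun c hc a' ha' a ha => ?_⟩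
  have hbK : b ∈ ncl K A := Subgroup.subset_closure ⟨h, hh, a₁, ha₁, hb⟩
  have hcK : c ∈ ncl K A := (Subgroup.zpowers_le.2 hbK) hc
  have : (c⁻¹ * a' * c)⁻¹ ∈ ncl (ncl K A) A :=
    Subgroup.inv_mem _ (Subgroup.subset_closure ⟨c⁻¹, Subgroup.inv_mem _ hcK, a', ha', by group⟩)
  simpa using h2 _ this a ha

end Chain

end Cfsg.Agent.H51.Ly
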