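import Mathlib
import Cfsg.Agent.H51.LyA

/-!
The replacement of a square-zero subgroup by its limit under `1 + tβ`, and the existence of a
2-subnormal one.
-/

set_option autoImplicit false

namespace Cfsg.Agent.H51.Ly

open Polynomial

section Tau

variable {R : Type*} [Ring R]

/-- conjugation by `1 + tβ` -/
noncomputable def tau (β : R) : R[X] →+ R[X] where
  toFun P := (1 - X * C β) * P * (1 + X * C β)
  map_zero' := by simp
  map_add' x y := by rw [mul_add (1 - X * C β), add_mul]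

/-- left multiplication by `1 - tβ` -/
noncomputable def sig (β : R) : R[X] →+ R[X] where
  toFun P := (1 - X * C β) * P
  map_zero' := by simp
  map_add' x y := by simp [mul_add]

theorem tau_apply (β : R) (P : R[X]) : tau β P = (1 - X * C β) * P * (1 + X * C β) := rfl

theorem sig_apply (β : R) (P : R[X]) : sig β P = (1 - X * C β) * P := rfl

theorem tau_X (β : R) (P : R[X]) : tau β (X * P) = X * tau β P := by
  rw [tau_apply, tau_apply, ← mul_assoc, ← X_mul]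
  simp only [mul_assoc]

theorem sig_X (β : R) (P : R[X]) : sig β (X * P) = X * sig β P := by
  rw [sig_apply, sig_apply, ← mul_assoc, ← X_mul]
  simp only [mul_assoc]

theorem uu {β : R} (h : β * β = 0) : (1 + X * C β) * (1 - X * C β) = (1 : R[X]) := by
  have : (X * C β) * (X * C β) = (0 : R[X]) := by
    rw [mul_assoc, ← mul_assoc (C β), ← X_mul, mul_assoc, ← C_mul, h]; simp
  rw [add_mul, one_mul, mul_sub, mul_one, this]; abel

theorem uu' {β : R} (h : β * β = 0) : (1 - X * C β) * (1 + X * C β) = (1 : R[X]) := by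
  have := uu (β := -β) (by simpa using h)
  simpa [sub_eq_add_neg] using this

theorem tau_tau {β : R} (h : β * β = 0) (P : R[X]) : tau β (tau (-β) P) = P := by
  rw [tau_apply, tau_apply]
  have e1 : (1 - X * C (-β) : R[X]) = 1 + X * C β := by simp
  have e2 : (1 + X * C (-β) : R[X]) = 1 - X * C β := by simp [sub_eq_add_neg]
  rw [e1, e2]
  calc (1 - X * C β) * ((1 + X * C β) * P * (1 - X * C β)) * (1 + X * C β)
      = ((1 - X * C β) * (1 + X * C β)) * P * ((1 - X * C β) * (1 + X * C β)) := by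
        simp only [mul_assoc]
    _ = P := by rw [uu' h]; simp

theorem tau_inj {β : R} (h : β * β = 0) : Function.Injective (tau β) := by
  intro P Q hPQ
  have := congrArg (tau (-β)) hPQ
  have k := fun P => tau_tau (β := -β) (by simpa using h) P
  simp only [neg_neg] at k
  rwa [k, k] at this

theorem sig_inj {β : R} (h : β * β = 0) : Function.Injective (sig β) := by
  intro P Q hPQ
  have := congrArg (fun Z => (1 + X * C β) * Z) hPQ
  simp only [sig_apply, ← mul_assoc, uu h, one_mul] at this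
  exact this

theorem tau_mul_tau {β : R} (h : β * β = 0) (P Q : R[X]) (hPQ : P * Q = 0) :
    tau β P * tau β Q = 0 := by
  calc tau β P * tau β Q = (1 - X * C β) * (P * ((1 + X * C β) * (1 - X * C β)) * Q) *
        (1 + X * C β) := by simp only [tau_apply, mul_assoc]
    _ = 0 := by rw [uu h, mul_one, hPQ]; simp

theorem tau_mul_sig {β : R} (h : β * β = 0) (P Q : R[X]) (hPQ : P * Q = 0) :
    tau β P * sig β Q = 0 := by
  calc tau β P * sig β Q = (1 - X * C β) * (P * ((1 + X * C β) * (1 - X * C β)) * Q) := by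
        simp only [tau_apply, sig_apply, mul_assoc]
    _ = 0 := by rw [uu h, mul_one, hPQ]; simp

theorem tau_eq (β : R) (P : R[X]) :
    tau β P = P + X ^ 1 * (P * C β - C β * P) - X ^ 2 * (C β * P * C β) := by
  have h1 : P * (X * C β) = X * (P * C β) := by rw [← mul_assoc, ← X_mul, mul_assoc]
  have h2 : X * C β * P * (X * C β) = X ^ 2 * (C β * P * C β) := by
    rw [mul_assoc (X * C β), h1, mul_assoc X, ← mul_assoc (C β), ← X_mul, pow_two]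
    simp only [mul_assoc]
  rw [tau_apply, sub_mul, one_mul, mul_add, mul_one, sub_mul, h1, h2, pow_one, mul_sub,
    mul_assoc X]
  abel

theorem coeff_tau (β : R) (P : R[X]) (n : ℕ) : (tau β P).coeff n = P.coeff n +
    (if 1 ≤ n then P.coeff (n - 1) * β - β * P.coeff (n - 1) else 0) -
    (if 2 ≤ n then β * P.coeff (n - 2) * β else 0) := by
  rw [tau_eq, coeff_sub, coeff_add, coeff_X_pow_mul', coeff_X_pow_mul']
  simp

theorem tau_deg (β : R) (P : R[X]) (n : ℕ) (h : ∀ m, n ≤ m → P.coeff m = 0) (m : ℕ)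
    (hm : n + 2 ≤ m) : (tau β P).coeff m = 0 := by
  rw [coeff_tau, h m (by omega), h (m - 1) (by omega), h (m - 2) (by omega)]
  simp

theorem sig_deg (β : R) (P : R[X]) (n : ℕ) (h : ∀ m, n ≤ m → P.coeff m = 0) (m : ℕ)
    (hm : n + 2 ≤ m) : (sig β P).coeff m = 0 := by
  have : sig β P = P - X ^ 1 * (C β * P) := by
    rw [sig_apply, sub_mul, one_mul, pow_one, mul_assoc]
  rw [this, coeff_sub, coeff_X_pow_mul', h m (by omega), if_pos (by omega), coeff_C_mul,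
    h (m - 1) (by omega)]
  simp

theorem coeff_tau_mem {β : R} {U W : AddSubgroup R}
    (h : ∀ x ∈ U, x ∈ W ∧ x * β - β * x ∈ W ∧ β * x * β ∈ W) {P : R[X]}
    (hP : ∀ k, P.coeff k ∈ U) (n : ℕ) : (tau β P).coeff n ∈ W := by
  rw [coeff_tau]
  refine W.sub_mem (W.add_mem (h _ (hP _)).1 ?_) ?_
  · split_ifs
    · exact (h _ (hP _)).2.1
    · exact W.zero_mem
  · split_ifs
    · exact (h _ (hP _)).2.2
    · exact W.zero_mem

theorem lim_tau_le {β : R} {U W : AddSubgroup R}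
    (h : ∀ x ∈ U, x ∈ W ∧ x * β - β * x ∈ W ∧ β * x * β ∈ W) : lim (tau β) (tau_X β) U ≤ W := by
  rintro x ⟨P, n, h1, -, rfl⟩
  exact coeff_tau_mem h h1 n

theorem coeff_C_mem {U : AddSubgroup R} {x : R} (hx : x ∈ U) (k : ℕ) : (C x).coeff k ∈ U := by
  rw [coeff_C]
  split_ifs
  · exact hx
  · exact U.zero_mem

theorem coeff_tau_neg_C_mem {β : R} {U : AddSubgroup R}
    (h : ∀ x ∈ U, x * β - β * x ∈ U ∧ β * x * β ∈ U) {x : R} (hx : x ∈ U) (k : ℕ) :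
    (tau (-β) (C x)).coeff k ∈ U := by
  refine coeff_tau_mem (U := U) (fun y hy => ⟨hy, ?_, ?_⟩) (coeff_C_mem hx) k
  · have := U.neg_mem (h y hy).1
    convert this using 1
    noncomm_ring
  · simpa using (h y hy).2

theorem le_lim_tau {β : R} (hβ : β * β = 0) {U : AddSubgroup R}
    (h : ∀ x ∈ U, x * β - β * x ∈ U ∧ β * x * β ∈ U) : U ≤ lim (tau β) (tau_X β) U := by
  intro x hx
  refine ⟨tau (-β) (C x), 0, coeff_tau_neg_C_mem h hx, fun m hm => ?_, ?_⟩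
  · rw [tau_tau hβ, coeff_C, if_neg (by omega)]
  · rw [tau_tau hβ, coeff_C_zero]

theorem d2_mem_lim {β : R} {U : AddSubgroup R} {x : R} (hx : x ∈ U) :
    β * x * β ∈ lim (tau β) (tau_X β) U := by
  rw [← AddSubgroup.neg_mem_iff]
  refine ⟨C x, 2, coeff_C_mem hx, fun m hm => tau_deg β _ 1 (fun m hm => ?_) m hm, ?_⟩
  · rw [coeff_C, if_neg (by omega)]
  · simp [coeff_tau, coeff_C]

theorem d1_mem_lim {β : R} (hβ : β * β = 0) {U W : AddSubgroup R} (hWU : W ≤ U)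
    (h : ∀ x ∈ W, x * β - β * x ∈ W ∧ β * x * β ∈ W) {x : R} (hx : x ∈ U)
    (h2 : β * x * β ∈ W) : x * β - β * x ∈ lim (tau β) (tau_X β) U := by
  have e : tau β (C x + X * (X * tau (-β) (C (β * x * β)))) =
      C x + X ^ 1 * C (x * β - β * x) := by
    rw [map_add, tau_X, tau_X, tau_tau hβ, tau_eq, ← C_mul, ← C_mul, ← C_mul, ← C_sub,
      ← mul_assoc X X, ← pow_two]
    abel
  refine ⟨C x + X * (X * tau (-β) (C (β * x * β))), 1, fun k => ?_, fun m hm => ?_, ?_⟩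
  · rw [coeff_add, ← mul_assoc, ← pow_two, coeff_X_pow_mul']
    refine U.add_mem (coeff_C_mem hx k) ?_
    split_ifs
    · exact hWU (coeff_tau_neg_C_mem h h2 _)
    · exact U.zero_mem
  · rw [e, coeff_add, coeff_X_pow_mul', if_pos (by omega), coeff_C, coeff_C, if_neg (by omega),
      if_neg (by omega), add_zero]
  · rw [e, coeff_add, coeff_X_pow_mul']
    simp [coeff_C]

/-- `𝔟` normalizes `𝔞` -/
def Nm (𝔞 𝔟 : AddSubgroup R) : Prop := ∀ x ∈ 𝔞, ∀ y ∈ 𝔟, (1 - y) * x * (1 + y) ∈ 𝔞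

/-- square zero -/
def Sq (𝔞 : AddSubgroup R) : Prop := ∀ x ∈ 𝔞, ∀ y ∈ 𝔞, x * y = 0

theorem half_mem {k : ℕ} (hk : ∀ x : R, k • (x + x) = x) {U : AddSubgroup R} {x : R}
    (h : x + x ∈ U) : x ∈ U := by
  rw [← hk x]; exact U.nsmul_mem h k

theorem Nm.comm_mem {k : ℕ} (hk : ∀ x : R, k • (x + x) = x) {𝔞 𝔟 : AddSubgroup R} (h : Nm 𝔞 𝔟)
    {x y : R} (hx : x ∈ 𝔞) (hy : y ∈ 𝔟) : x * y - y * x ∈ 𝔞 := by
  apply half_mem hk
  have := 𝔞.sub_mem (h x hx y hy) (h x hx (-y) (𝔟.neg_mem hy))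
  convert this using 1
  noncomm_ring

theorem Nm.sandwich {k : ℕ} (hk : ∀ x : R, k • (x + x) = x) {𝔞 𝔟 : AddSubgroup R} (h : Nm 𝔞 𝔟)
    (hs : Sq 𝔞) {x y z : R} (hx : x ∈ 𝔞) (hy : y ∈ 𝔟) (hz : z ∈ 𝔞) : x * (y * z) = 0 := by
  have h1 := hs _ (h.comm_mem hk hx hy) z hz
  rwa [sub_mul, mul_assoc y, hs x hx z hz, mul_zero, sub_zero, mul_assoc] at h1

theorem three {k : ℕ} (hk : ∀ x : R, k • (x + x) = x) {a b c : AddSubgroup R}
    (sa : Sq a) (sb : Sq b) (sc : Sq c) (ab : Nm a b) (ba : Nm b a) (ac : Nm a c) (ca : Nm c a)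
    (bc : Nm b c) (cb : Nm c b) {x y z : R} (hx : x ∈ a) (hy : y ∈ b) (hz : z ∈ c)
    (h0 : (x + y + z) * (x + y + z) = 0) :
    ∃ e ∈ a, ∃ f ∈ a, ∃ g ∈ b,
      (1 + x) * (1 + y) * (1 + z) * ((1 + e) * (1 + f) * (1 + g)) = 1 + (x + y + z) := by
  set e := k • (x * y - y * x) with he
  set f := k • (x * z - z * x) with hf
  set g := k • (y * z - z * y) with hg
  have ea : e ∈ a := a.nsmul_mem (ab.comm_mem hk hx hy) k
  have eb : e ∈ b := b.nsmul_mem (by simpa using b.neg_mem (ba.comm_mem hk hy hx)) k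
  have fa : f ∈ a := a.nsmul_mem (ac.comm_mem hk hx hz) k
  have fc : f ∈ c := c.nsmul_mem (by simpa using c.neg_mem (ca.comm_mem hk hz hx)) k
  have gb : g ∈ b := b.nsmul_mem (bc.comm_mem hk hy hz) k
  have gc : g ∈ c := c.nsmul_mem (by simpa using c.neg_mem (cb.comm_mem hk hz hy)) k
  have xx := sa x hx x hx
  have yy := sb y hy y hy
  have zz := sc z hz z hz
  have h1 : x * y + x * z + y * z + (y * x + z * x + z * y) = 0 := by
    rw [← h0]
    simp only [mul_add, add_mul, xx, yy, zz]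
    abel
  have hs : e + f + g = x * y + x * z + y * z := by
    rw [he, hf, hg, ← smul_add, ← smul_add, ← hk (x * y + x * z + y * z)]
    congr 1
    rw [← sub_eq_zero, ← neg_eq_zero, ← h1]
    abel
  have xyx := ab.sandwich hk sa hx hy hx
  have xzx := ac.sandwich hk sa hx hz hx
  have yxy := ba.sandwich hk sb hy hx hy
  have yzy := bc.sandwich hk sb hy hz hy
  have zxz := ca.sandwich hk sc hz hx hz
  have zyz := cb.sandwich hk sc hz hy hz
  have xx' : ∀ w, x * (x * w) = 0 := fun w => by rw [← mul_assoc, xx, zero_mul]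
  have yy' : ∀ w, y * (y * w) = 0 := fun w => by rw [← mul_assoc, yy, zero_mul]
  have w1 : x * (y * z) + x * (z * y) = 0 := by
    have := congrArg (fun t => x * t) h1
    simpa only [mul_add, xx', xyx, xzx, zero_add, add_zero, mul_zero] using this
  have w2 : x * (z * y) + z * (x * y) = 0 := by
    have := congrArg (fun t => t * y) h1
    simpa only [add_mul, mul_assoc, yy, yxy, yzy, zero_add, add_zero, mul_zero, zero_mul] using this
  have w3 : x * (y * z) + y * (x * z) = 0 := by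
    have := congrArg (fun t => t * z) h1
    simpa only [add_mul, mul_assoc, zz, zxz, zyz, zero_add, add_zero, mul_zero, zero_mul] using this
  have hxs : (x + y + z) * (e + f + g) = x * (y * z) := by
    rw [hs]
    simp only [mul_add, add_mul, xx', yy', yxy, zxz, zyz, zero_add, add_zero]
    have : z * (x * y) + y * (x * z) = 0 := by
      rw [← sub_eq_zero, ← sub_eq_zero.2 (show (0 : R) = 0 - 0 + 0 by simp)]
      have : z * (x * y) + y * (x * z) = (x * (z * y) + z * (x * y)) -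
        (x * (y * z) + x * (z * y)) + (x * (y * z) + y * (x * z)) := by abel
      rw [this, w1, w2, w3]; simp
    rw [this, zero_add]
  have hss : (e + f + g) * (e + f + g) = 0 := by
    simp only [mul_add, add_mul, sa e ea e ea, sa e ea f fa, sa f fa e ea, sa f fa f fa,
      sb e eb g gb, sb g gb e eb, sb g gb g gb, sc f fc g gc, sc g gc f fc, add_zero]
  have hws : x * (y * z) * (e + f + g) = 0 := by
    simp only [mul_add, mul_assoc, sc z hz f fc, sc z hz g gc, bc.sandwich hk sb hy hz eb,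
      mul_zero, add_zero]
  refine ⟨-e, a.neg_mem ea, -f, a.neg_mem fa, -g, b.neg_mem gb, ?_⟩
  have p1 : (1 + -e) * (1 + -f) * (1 + -g) = 1 - (e + f + g) := by
    simp only [mul_add, add_mul, mul_neg, neg_mul, neg_neg, mul_one, one_mul, sa e ea f fa,
      sb e eb g gb, sc f fc g gc, zero_mul, neg_zero]
    abel
  have p2 : (1 + x) * (1 + y) * (1 + z) = 1 + (x + y + z) + (e + f + g) + x * (y * z) := by
    rw [hs]; noncomm_ring
  rw [p1, p2, mul_sub, mul_one, add_mul, add_mul, add_mul, hxs, hss, hws, one_mul]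
  abel

/-- the right annihilator -/
def ann (𝔞 : AddSubgroup R) : AddSubgroup R where
  carrier := {y | ∀ x ∈ 𝔞, x * y = 0}
  zero_mem' := fun x _ => mul_zero x
  add_mem' := fun {y z} hy hz x hx => by rw [mul_add, hy x hx, hz x hx, add_zero]
  neg_mem' := fun {y} hy x hx => by rw [mul_neg, hy x hx, neg_zero]

end Tau

section Step

variable {G : Type*} [Group G] {R : Type*} [Ring R]

theorem rho_inv (ρ : G →* R) {d : G} (h : (ρ d - 1) * (ρ d - 1) = 0) :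
    ρ d⁻¹ = 1 - (ρ d - 1) := by
  have h1 : ρ d⁻¹ * ρ d = 1 := by rw [← map_mul]; simp
  have h2 : ρ d * (1 - (ρ d - 1)) = 1 := by
    rw [← sub_eq_zero, ← neg_eq_zero, ← h]; noncomm_ring
  calc ρ d⁻¹ = ρ d⁻¹ * (ρ d * (1 - (ρ d - 1))) := by rw [h2, mul_one]
    _ = _ := by rw [← mul_assoc, h1, one_mul]

/-- the subgroup `1 + 𝔞` -/
def expS (ρ : G →* R) (𝔞 : AddSubgroup R) (h : Sq 𝔞) : Subgroup G where
  carrier := {g | ρ g - 1 ∈ 𝔞}
  one_mem' := by simp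
  mul_mem' := fun {g g'} hg hg' => by
    have h1 := h _ hg _ hg'
    have : ρ (g * g') - 1 = (ρ g - 1) + (ρ g' - 1) + (ρ g - 1) * (ρ g' - 1) := by
      rw [map_mul]; noncomm_ring
    show _ ∈ 𝔞
    rw [this, h1, add_zero]
    exact 𝔞.add_mem hg hg'
  inv_mem' := fun {g} hg => by
    show _ ∈ 𝔞
    rw [rho_inv ρ (h _ hg _ hg)]
    simpa using 𝔞.neg_mem hg

theorem mem_expS {ρ : G →* R} {𝔞 : AddSubgroup R} {h : Sq 𝔞} {g : G} :
    g ∈ expS ρ 𝔞 h ↔ ρ g - 1 ∈ 𝔞 := Iff.rfl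

/-- `1 + 𝔞` lies in the image -/
def InG (ρ : G →* R) (𝔞 : AddSubgroup R) : Prop := ∀ x ∈ 𝔞, ∃ g, ρ g = 1 + x

theorem Sq.map {𝔞 : AddSubgroup R} (h : Sq 𝔞) (ρ : G →* R) (g : G) : Sq (𝔞.map (cjR ρ g)) := by
  rintro _ ⟨x, hx, rfl⟩ _ ⟨y, hy, rfl⟩
  rw [← cjR_mul, h x hx y hy, map_zero]

theorem InG.map {ρ : G →* R} {𝔞 : AddSubgroup R} (h : InG ρ 𝔞) (g : G) :
    InG ρ (𝔞.map (cjR ρ g)) := by
  rintro _ ⟨x, hx, rfl⟩
  obtain ⟨a, ha⟩ := h x hx
  refine ⟨g⁻¹ * a * g, ?_⟩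
  have : x = ρ a - 1 := by rw [ha]; abel
  rw [this, cjR_rho]; abel

theorem nm_map {ρ : G →* R} {𝔞 : AddSubgroup R} (hs : Sq 𝔞) (hg : InG ρ 𝔞) {g g' : G}
    (h : ∀ a' ∈ expS ρ 𝔞 hs, ∀ a ∈ expS ρ 𝔞 hs,
      ((g' * g⁻¹)⁻¹ * a' * (g' * g⁻¹))⁻¹ * a * ((g' * g⁻¹)⁻¹ * a' * (g' * g⁻¹)) ∈ expS ρ 𝔞 hs) :
    Nm (𝔞.map (cjR ρ g)) (𝔞.map (cjR ρ g')) := by
  rintro _ ⟨x, hx, rfl⟩ _ ⟨y, hy, rfl⟩
  obtain ⟨a, ha⟩ := hg x hx
  obtain ⟨a', ha'⟩ := hg y hy
  have ex : x = ρ a - 1 := by rw [ha]; abel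
  have ey : y = ρ a' - 1 := by rw [ha']; abel
  have h1 := h a' (by rw [mem_expS, ← ey]; exact hy) a (by rw [mem_expS, ← ex]; exact hx)
  rw [mem_expS, ← cjR_rho, ← ex] at h1
  refine ⟨_, h1, ?_⟩
  have e2 : cjR ρ g' y = ρ (g'⁻¹ * a' * g') - 1 := by rw [ey, cjR_rho]
  have e3 : cjR ρ g' y * cjR ρ g' y = 0 := by rw [← cjR_mul, hs y hy y hy, map_zero]
  rw [e2] at e3
  rw [e2, ← rho_inv ρ e3, add_sub_cancel, ← cjR_apply, cjR_cjR, cjR_cjR]
  congr 1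
  group

theorem step [Finite R] {k : ℕ} (hk : ∀ x : R, k • (x + x) = x) (ρ : G →* R) {M : ℕ}
    (hM : flag ρ M = ⊤) {𝔞 : AddSubgroup R} (hs : Sq 𝔞) (hg : InG ρ 𝔞) {b : G}
    (hb : (ρ b - 1) * (ρ b - 1) = 0) (hn : ¬ ∀ a ∈ expS ρ 𝔞 hs, b⁻¹ * a * b ∈ expS ρ 𝔞 hs)
    (hc : ∀ c ∈ Subgroup.zpowers b, ∀ a' ∈ expS ρ 𝔞 hs, ∀ a ∈ expS ρ 𝔞 hs,
        (c⁻¹ * a' * c)⁻¹ * a * (c⁻¹ * a' * c) ∈ expS ρ 𝔞 hs) :
    ∃ 𝔟 : AddSubgroup R, Sq 𝔟 ∧ InG ρ 𝔟 ∧ Nat.card 𝔞 ≤ Nat.card 𝔟 ∧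
      Nat.card (ann 𝔞) ≤ Nat.card (ann 𝔟) ∧
      ∑ i ∈ Finset.range M, Nat.card ↥(𝔞 ⊓ flag ρ i) <
        ∑ i ∈ Finset.range M, Nat.card ↥(𝔟 ⊓ flag ρ i) := by
  set β := ρ b - 1 with hβ
  have hb1 : ρ b = 1 + β := by rw [hβ]; abel
  have hb2 : ρ b⁻¹ = 1 - β := rho_inv ρ hb
  have c1 : ∀ x, cjR ρ b x = x + (x * β - β * x) - β * x * β := fun x => by
    rw [cjR_apply, hb2, hb1]; noncomm_ring
  have c2 : ∀ x, cjR ρ b⁻¹ x = x - (x * β - β * x) - β * x * β := fun x => by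
    rw [cjR_apply, inv_inv, hb2, hb1]; noncomm_ring
  have dW : ∀ (W : AddSubgroup R) (x : R), cjR ρ b x - x ∈ W → cjR ρ b⁻¹ x - x ∈ W →
      x * β - β * x ∈ W ∧ β * x * β ∈ W := by
    intro W x h1 h2
    refine ⟨half_mem hk ?_, half_mem hk ?_⟩
    · convert W.sub_mem h1 h2 using 1
      rw [c1, c2]; abel
    · convert W.neg_mem (W.add_mem h1 h2) using 1
      rw [c1, c2]; abel
  have dF : ∀ i, ∀ x ∈ flag ρ (i + 1), x * β - β * x ∈ flag ρ i ∧ β * x * β ∈ flag ρ i :=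
    fun i x hx => dW _ x (mem_flag_succ.1 hx _) (mem_flag_succ.1 hx _)
  have dF' : ∀ i, ∀ x ∈ flag ρ i, x * β - β * x ∈ flag ρ i ∧ β * x * β ∈ flag ρ i :=
    fun i x hx => dF i x (flag_le_succ ρ i hx)
  have hsq : Sq (lim (tau β) (tau_X β) 𝔞) := lim_mul_lim (tau_mul_tau hb) hs
  have hle : ∀ i, lim (tau β) (tau_X β) (𝔞 ⊓ flag ρ i) ≤ lim (tau β) (tau_X β) 𝔞 ⊓ flag ρ i :=
    fun i => le_inf (lim_mono inf_le_left) (lim_tau_le fun x hx => ⟨hx.2, dF' i x hx.2⟩)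
  have hcard : ∀ U : AddSubgroup R, Nat.card U ≤ Nat.card (lim (tau β) (tau_X β) U) :=
    card_le_lim _ (tau_inj hb) (tau_deg β)
  refine ⟨lim (tau β) (tau_X β) 𝔞, hsq, ?_, hcard _, ?_, ?_⟩
  · intro x hx
    have hx2 : x ∈ 𝔞.map (cjR ρ 1) ⊔ 𝔞.map (cjR ρ b) ⊔ 𝔞.map (cjR ρ b⁻¹) := by
      refine lim_tau_le (fun y hy => ?_) hx
      have y0 : y ∈ 𝔞.map (cjR ρ 1) ⊔ 𝔞.map (cjR ρ b) ⊔ 𝔞.map (cjR ρ b⁻¹) :=
        AddSubgroup.mem_sup_left (AddSubgroup.mem_sup_left ⟨y, hy, cjR_one ρ y⟩)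
      refine ⟨y0, dW _ y (AddSubgroup.sub_mem _ ?_ y0) (AddSubgroup.sub_mem _ ?_ y0)⟩
      · exact AddSubgroup.mem_sup_left (AddSubgroup.mem_sup_right ⟨y, hy, rfl⟩)
      · exact AddSubgroup.mem_sup_right ⟨y, hy, rfl⟩
    obtain ⟨u, hu, z, hz, rfl⟩ := AddSubgroup.mem_sup.1 hx2
    obtain ⟨x, hx', y, hy, rfl⟩ := AddSubgroup.mem_sup.1 hu
    have m1 : (1 : G) ∈ Subgroup.zpowers b := Subgroup.one_mem _
    have mb : b ∈ Subgroup.zpowers b := Subgroup.mem_zpowers b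
    have mi : b⁻¹ ∈ Subgroup.zpowers b := Subgroup.inv_mem _ mb
    have nm : ∀ g ∈ Subgroup.zpowers b, ∀ g' ∈ Subgroup.zpowers b,
        Nm (𝔞.map (cjR ρ g)) (𝔞.map (cjR ρ g')) := fun g h1 g' h2 =>
      nm_map hs hg (hc _ (Subgroup.mul_mem _ h2 (Subgroup.inv_mem _ h1)))
    obtain ⟨e, he, f, hf, g, hg', hp⟩ := three hk (hs.map ρ 1) (hs.map ρ b) (hs.map ρ b⁻¹)
      (nm _ m1 _ mb) (nm _ mb _ m1) (nm _ m1 _ mi) (nm _ mi _ m1) (nm _ mb _ mi) (nm _ mi _ mb)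
      hx' hy hz (hsq _ hx _ hx)
    obtain ⟨g1, h1⟩ := hg.map 1 x hx'
    obtain ⟨g2, h2⟩ := hg.map b y hy
    obtain ⟨g3, h3⟩ := hg.map b⁻¹ z hz
    obtain ⟨g4, h4⟩ := hg.map 1 e he
    obtain ⟨g5, h5⟩ := hg.map 1 f hf
    obtain ⟨g6, h6⟩ := hg.map b g hg'
    exact ⟨g1 * g2 * g3 * (g4 * g5 * g6), by
      simp only [map_mul, h1, h2, h3, h4, h5, h6]; exact hp⟩
  · refine (card_le_lim (sig_X β) (sig_inj hb) (sig_deg β) (ann 𝔞)).trans
      (AddSubgroup.card_le_of_le ?_)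
    intro y hy x hx
    exact lim_mul_lim (W := ann 𝔞) (tau_mul_sig hb) (fun x hx y hy => hy x hx) x hx y hy
  · have hinv : ∃ i, i < M ∧ (∀ x ∈ 𝔞 ⊓ flag ρ i, x * β - β * x ∈ 𝔞 ∧ β * x * β ∈ 𝔞) ∧
        ¬ ∀ x ∈ 𝔞 ⊓ flag ρ (i + 1), x * β - β * x ∈ 𝔞 ∧ β * x * β ∈ 𝔞 := by
      by_contra hcon
      push Not at hcon
      have : ∀ i, i ≤ M → ∀ x ∈ 𝔞 ⊓ flag ρ i, x * β - β * x ∈ 𝔞 ∧ β * x * β ∈ 𝔞 := by
        intro i
        induction i with
        | zero =>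
          intro _ x hx
          have : x = 0 := hx.2
          simp [this]
        | succ i ih => exact fun hi => hcon i (by omega) (ih (by omega))
      apply hn
      intro a ha
      have h1 := this M le_rfl _ ⟨ha, by rw [hM]; trivial⟩
      rw [mem_expS, ← cjR_rho, c1]
      exact 𝔞.sub_mem (𝔞.add_mem ha h1.1) h1.2
    obtain ⟨i, hi, h1, h2⟩ := hinv
    refine Finset.sum_lt_sum (fun j _ => (hcard _).trans (AddSubgroup.card_le_of_le (hle j)))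
      ⟨i, Finset.mem_range.2 hi, card_lt_of_lt' ?_⟩
    have hU : ∀ x ∈ 𝔞 ⊓ flag ρ i, x * β - β * x ∈ 𝔞 ⊓ flag ρ i ∧ β * x * β ∈ 𝔞 ⊓ flag ρ i :=
      fun x hx => ⟨⟨(h1 x hx).1, (dF' i x hx.2).1⟩, ⟨(h1 x hx).2, (dF' i x hx.2).2⟩⟩
    refine lt_of_le_of_ne ((le_lim_tau hb hU).trans (hle i)) fun heq => h2 fun x hx => ?_
    have k2 : β * x * β ∈ 𝔞 ⊓ flag ρ i := heq.ge ⟨d2_mem_lim hx.1, (dF i x hx.2).2⟩
    exact ⟨(heq.ge ⟨d1_mem_lim hb inf_le_left hU hx.1 k2, (dF i x hx.2).1⟩).1, k2.1⟩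

theorem ring_main [Finite R] [Finite G] {p : ℕ} [hp : Fact p.Prime] (hp2 : p ≠ 2)
    (hG : IsPGroup p G) (hR : ∀ x : R, p • x = 0) (ρ : G →* R) {𝔞 : AddSubgroup R} (hs : Sq 𝔞)
    (hg : InG ρ 𝔞) : ∃ (𝔟 : AddSubgroup R) (hb : Sq 𝔟), InG ρ 𝔟 ∧ Nat.card 𝔞 ≤ Nat.card 𝔟 ∧
      Nat.card (ann 𝔞) ≤ Nat.card (ann 𝔟) ∧
      ∀ g ∈ ncl ⊤ (expS ρ 𝔟 hb), ∀ a ∈ expS ρ 𝔟 hb, g * a * g⁻¹ ∈ expS ρ 𝔟 hb := by
  obtain ⟨M, hM⟩ := exists_flag_top hG hR ρ
  obtain ⟨k, hk'⟩ := hp.out.odd_of_ne_two hp2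
  have hk : ∀ x : R, (k + 1) • (x + x) = x := fun x => by
    have := hR x
    rw [← two_smul ℕ x, ← mul_smul, show (k + 1) * 2 = p + 1 by omega, add_smul, this, one_smul,
      zero_add]
  obtain ⟨𝔟, ⟨h1, h2, h3, h4⟩, hmax⟩ := Set.exists_max_image
    {𝔟 : AddSubgroup R | Sq 𝔟 ∧ InG ρ 𝔟 ∧ Nat.card 𝔞 ≤ Nat.card 𝔟 ∧
      Nat.card (ann 𝔞) ≤ Nat.card (ann 𝔟)}
    (fun 𝔟 => ∑ i ∈ Finset.range M, Nat.card ↥(𝔟 ⊓ flag ρ i)) (Set.toFinite _)
    ⟨𝔞, hs, hg, le_rfl, le_rfl⟩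
  refine ⟨𝔟, h1, h2, h3, h4, ?_⟩
  by_contra hc
  obtain ⟨h, b, hb, hn, hc⟩ := chain hG hc
  have hbb : (ρ b - 1) * (ρ b - 1) = 0 := by
    have e : ρ b - 1 = cjR ρ h⁻¹ (ρ (h⁻¹ * b * h) - 1) := by
      rw [cjR_rho]; congr 2; group
    rw [e, ← cjR_mul, h1 _ hb _ hb, map_zero]
  obtain ⟨𝔠, k1, k2, k3, k4, k5⟩ := step hk ρ hM h1 h2 hbb hn hc
  exact absurd (hmax 𝔠 ⟨k1, k2, h3.trans k3, h4.trans k4⟩) (not_le.2 k5)

end Step

section Mod

variable {G : Type*} [Group G] {p : ℕ} [hp : Fact p.Prime] {W : Type*} [AddCommGroup W]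
  [Module (ZMod p) W]

/-- the common kernel -/
def kerS (𝔞 : AddSubgroup (Module.End (ZMod p) W)) : Submodule (ZMod p) W where
  carrier := {w | ∀ x ∈ 𝔞, x w = 0}
  zero_mem' := fun x _ => map_zero x
  add_mem' := fun {y z} hy hz x hx => by rw [map_add, hy x hx, hz x hx, add_zero]
  smul_mem' := fun c y hy x hx => by rw [map_smul, hy x hx, smul_zero]

theorem card_ann [Finite W] (𝔞 : AddSubgroup (Module.End (ZMod p) W)) :
    Nat.card (ann 𝔞) = Nat.card (kerS 𝔞) ^ Module.finrank (ZMod p) W := by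
  haveI : Module.Finite (ZMod p) W := Module.Finite.of_finite
  let e : ann 𝔞 ≃ (W →ₗ[ZMod p] kerS 𝔞) :=
    { toFun := fun y => LinearMap.codRestrict (kerS 𝔞) y.1 fun w x hx =>
        LinearMap.congr_fun (y.2 x hx) w
      invFun := fun f => ⟨(kerS 𝔞).subtype ∘ₗ f, fun x hx => LinearMap.ext fun w => (f w).2 x hx⟩
      left_inv := fun y => rfl
      right_inv := fun f => rfl }
  rw [Nat.card_congr e, Module.natCard_eq_pow_finrank (K := ZMod p),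
    Module.natCard_eq_pow_finrank (K := ZMod p) (V := kerS 𝔞), Module.finrank_linearMap,
    ← pow_mul, mul_comm]

theorem mod_main [Finite W] [Finite G] (hp2 : p ≠ 2) (hG : IsPGroup p G)
    (ρ : G →* Module.End (ZMod p) W) (hρ : Function.Injective ρ) {A : Subgroup G}
    (hA : ∀ a ∈ A, ∀ a' ∈ A, (ρ a - 1) * (ρ a' - 1) = 0) :
    ∃ B : Subgroup G, (∀ a ∈ B, ∀ a' ∈ B, (ρ a - 1) * (ρ a' - 1) = 0) ∧ Nat.card A ≤ Nat.card B ∧
      Nat.card {w : W // ∀ a ∈ A, ρ a w = w} ≤ Nat.card {w : W // ∀ a ∈ B, ρ a w = w} ∧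
      ∀ g ∈ ncl ⊤ B, ∀ a ∈ B, g * a * g⁻¹ ∈ B := by
  haveI : Finite (Module.End (ZMod p) W) :=
    Finite.of_injective (fun f : Module.End (ZMod p) W => (f : W → W)) DFunLike.coe_injective
  let 𝔞 : AddSubgroup (Module.End (ZMod p) W) :=
    { carrier := {x | ∃ a ∈ A, x = ρ a - 1}
      zero_mem' := ⟨1, A.one_mem, by simp⟩
      add_mem' := by
        rintro _ _ ⟨a, ha, rfl⟩ ⟨a', ha', rfl⟩
        refine ⟨a * a', A.mul_mem ha ha', ?_⟩
        rw [map_mul, ← add_zero (ρ a - 1 + (ρ a' - 1)), ← hA a ha a' ha']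
        noncomm_ring
      neg_mem' := by
        rintro _ ⟨a, ha, rfl⟩
        refine ⟨a⁻¹, A.inv_mem ha, ?_⟩
        rw [rho_inv ρ (hA a ha a ha)]
        abel }
  have hs : Sq 𝔞 := by
    rintro _ ⟨a, ha, rfl⟩ _ ⟨a', ha', rfl⟩
    exact hA a ha a' ha'
  have hg : InG ρ 𝔞 := by
    rintro _ ⟨a, -, rfl⟩
    exact ⟨a, by abel⟩
  have hR : ∀ x : Module.End (ZMod p) W, p • x = 0 := fun x => by
    rw [← Nat.cast_smul_eq_nsmul (ZMod p), ZMod.natCast_self, zero_smul]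
  obtain ⟨𝔟, hb, h1, h2, h3, h4⟩ := ring_main hp2 hG hR ρ hs hg
  refine ⟨expS ρ 𝔟 hb, fun a ha a' ha' => hb _ ha _ ha', ?_, ?_, h4⟩
  · have k1 : Nat.card A ≤ Nat.card 𝔞 :=
      Nat.card_le_card_of_injective (fun a : A => (⟨ρ a - 1, a, a.2, rfl⟩ : 𝔞)) fun a a' h =>
        Subtype.ext (hρ (sub_left_injective (congrArg Subtype.val h)))
    have k2 : Nat.card 𝔟 ≤ Nat.card (expS ρ 𝔟 hb) := by
      refine Nat.card_le_card_of_surjective
        (fun a : expS ρ 𝔟 hb => (⟨ρ a - 1, a.2⟩ : 𝔟)) fun x => ?_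
      obtain ⟨g, hg⟩ := h1 x x.2
      have : ρ g - 1 = x := by rw [hg]; abel
      exact ⟨⟨g, by rw [mem_expS, this]; exact x.2⟩, Subtype.ext this⟩
    omega
  · have e1 : Nat.card {w : W // ∀ a ∈ A, ρ a w = w} = Nat.card (kerS 𝔞) := by
      refine Nat.card_congr (Equiv.subtypeEquivRight fun w => ⟨?_, fun h a ha => ?_⟩)
      · rintro h _ ⟨a, ha, rfl⟩
        rw [LinearMap.sub_apply, h a ha, Module.End.one_apply, sub_self]
      · have := h _ ⟨a, ha, rfl⟩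
        rwa [LinearMap.sub_apply, Module.End.one_apply, sub_eq_zero] at this
    have e2 : Nat.card {w : W // ∀ a ∈ expS ρ 𝔟 hb, ρ a w = w} = Nat.card (kerS 𝔟) := by
      refine Nat.card_congr (Equiv.subtypeEquivRight fun w => ⟨fun h x hx => ?_, fun h a ha => ?_⟩)
      · obtain ⟨g, hg⟩ := h1 x hx
        have e : ρ g - 1 = x := by rw [hg]; abel
        rw [← e, LinearMap.sub_apply, h g (by rw [mem_expS, e]; exact hx), Module.End.one_apply,
          sub_self]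
      · have := h _ ha
        rwa [LinearMap.sub_apply, Module.End.one_apply, sub_eq_zero] at this
    rw [e1, e2]
    rw [card_ann, card_ann] at h3
    rcases Nat.eq_zero_or_pos (Module.finrank (ZMod p) W) with h0 | h0
    · haveI : Module.Finite (ZMod p) W := Module.Finite.of_finite
      haveI : Subsingleton W := Module.finrank_zero_iff.1 h0
      exact (Nat.card_unique (α := kerS 𝔞)).trans_le Nat.card_pos
    · exact (Nat.pow_le_pow_iff_left h0.ne').1 h3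

end Mod

end Cfsg.Agent.H51.Ly
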