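import Mathlib
import Cfsg.Agent.H51.N8a
import Cfsg.Agent.H4.CoprimeAction
import Cfsg.Agent.H15.Quat
import Cfsg.Agent.S1904

/-! Odd order groups acting on `2`-groups without noncyclic abelian subgroups of order eight. -/

set_option autoImplicit false

namespace Cfsg.Agent.H51.Eight

open Subgroup
open scoped commutatorElement

variable {G : Type*} [Group G]

/-- `D` is a four-group or quaternion of order eight -/
def Sm (D : Subgroup G) : Prop :=
  Nonempty (D ≃* DihedralGroup 2) ∨ Nonempty (D ≃* QuaternionGroup 2)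

theorem Sm.not_n8 {K P : Subgroup G} (h : Sm K) (hKP : K ≤ P) (hP : IsPGroup 2 P)
    (hn : P ≤ normalizer (K : Set G)) (hC : P ⊓ centralizer (K : Set G) ≤ K) : ¬ N8 P := by
  rcases h with ⟨⟨e⟩⟩ | ⟨⟨e⟩⟩
  exacts [small_V4.not_n8 e hKP hP hn hC, small_Q8.not_n8 e hKP hP hn hC]

theorem Sm.cyclic {D U : Subgroup G} (h : Sm D) (hU : U ≤ D) (hne : U ≠ D) : IsCyclic U := by
  have key : ∀ {Q : Type} [Group Q], Small Q → (D ≃* Q) → IsCyclic U := by
    intro Q _ hQ e
    have h1 : (U.subgroupOf D).map e.toMonoidHom ≠ ⊤ := by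
      intro h2
      apply hne
      refine le_antisymm hU fun d hd => ?_
      obtain ⟨u, hu, hu'⟩ : e ⟨d, hd⟩ ∈ (U.subgroupOf D).map e.toMonoidHom := h2 ▸ mem_top _
      have : u = ⟨d, hd⟩ := e.injective hu'
      subst this
      exact hu
    have := hQ.f5 _ h1
    exact (MulEquiv.isCyclic ((subgroupOfEquivOfLe hU).symm.trans
      (e.subgroupMap (U.subgroupOf D)))).2 this
  rcases h with ⟨⟨e⟩⟩ | ⟨⟨e⟩⟩
  exacts [key small_V4 e, key small_Q8 e]

theorem cent_of_cyclic [Finite G] {U H : Subgroup G} (hc : IsCyclic U) (hU : IsPGroup 2 U)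
    (hH : (Nat.card H).Coprime 2) (hn : H ≤ normalizer (U : Set G)) :
    U ≤ centralizer (H : Set G) :=
  le_centralizer_iff.1 fun _ hg => H15.mem_centralizer_of_cyclic_two hU (hn hg)
    (Nat.Coprime.coprime_dvd_left (orderOf_dvd_natCard _ hg) hH)

theorem two_map {D : Subgroup G} {x y : D} (h : Two x y) : Two (x : G) y :=
  ⟨congrArg Subtype.val h.xx, congrArg Subtype.val h.yy, fun e => h.x1 (Subtype.ext e),
    fun e => h.y1 (Subtype.ext e), fun e => h.ne (Subtype.ext e), congrArg Subtype.val h.cm⟩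

theorem n8_of_top {D : Subgroup G} (h : N8 (⊤ : Subgroup D)) : N8 D := by
  obtain ⟨x, -, y, -, w, -, h, h1, h2, h3⟩ := h
  refine ⟨x, x.2, y, y.2, w, w.2, two_map h, congrArg Subtype.val h1, congrArg Subtype.val h2, ?_⟩
  rintro (e | e | e | e)
  exacts [h3 (Or.inl (Subtype.ext e)), h3 (Or.inr (Or.inl (Subtype.ext e))),
    h3 (Or.inr (Or.inr (Or.inl (Subtype.ext e)))), h3 (Or.inr (Or.inr (Or.inr (Subtype.ext e))))]

theorem sq_of_order {x : G} (h : orderOf x = 2) : x * x = 1 ∧ x ≠ 1 :=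
  ⟨by rw [← sq, ← h, pow_orderOf_eq_one], fun e => by simp [e] at h⟩

theorem sm_of [Finite G] {D H : Subgroup G} (hD : IsPGroup 2 D) (hH : (Nat.card H).Coprime 2)
    (hn : H ≤ normalizer (D : Set G)) (hDH : ⁅D, H⁆ = D) (hne : D ≠ ⊥) (h8 : ¬ N8 D) : Sm D := by
  by_cases hc : IsMulCommutative D
  · have hcy : ¬ IsCyclic D := fun h => hne (by
      rw [← hDH, commutator_eq_bot_iff_le_centralizer]
      exact cent_of_cyclic h hD hH hn)
    obtain ⟨x, hx, y, hy, h⟩ := exists_two hc hD hcy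
    have h4 : Nat.card D ≤ 4 := by
      by_contra h4
      exact h8 (n8_of_card le_rfl h hx hy (fun w hw =>
        ⟨congrArg Subtype.val (hc.is_comm.comm (⟨x, hx⟩ : D) ⟨w, hw⟩),
          congrArg Subtype.val (hc.is_comm.comm (⟨y, hy⟩ : D) ⟨w, hw⟩)⟩) (by omega))
    have hV : h.V = D := eq_of_le_of_card_ge (h.V_le hx hy) (by rw [h.card_V]; exact h4)
    haveI : IsKleinFour D := ⟨by rw [← hV, h.card_V], by
      haveI : Nontrivial D := (nontrivial_iff_ne_bot D).2 hne
      rw [Monoid.exponent_eq_prime_iff Nat.prime_two]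
      intro g hg
      refine orderOf_eq_prime (Subtype.ext ?_) hg
      rw [coe_pow, sq]
      exact h.sq (show (g : G) ∈ h.V from hV ▸ g.2)⟩
    exact Or.inl IsKleinFour.nonempty_mulEquiv
  let ψ : H →* MulAut D := D.normalizerMonoidHom.comp (inclusion hn)
  have hA : Odd (Nat.card ψ.range) :=
    Odd.of_dvd_nat (Nat.coprime_two_right.1 hH) (card_range_dvd ψ)
  rcases S1904.result hD hc (by
      rintro ⟨A, -, -, E, -, hE, hE8⟩
      refine h8 (n8_of_top ((n8_of_exists hE.1 (fun hcy => ?_) hE8).mono le_top))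
      obtain ⟨g, hg⟩ := IsCyclic.exists_ofOrder_eq_natCard (α := E)
      have : orderOf g ∣ 2 := orderOf_dvd_of_pow_eq_one (Subtype.ext (hE.2 _ g.2))
      rw [hg, hE8] at this
      exact absurd this (by decide)) ψ.range hA (by
      apply map_injective D.subtype_injective
      rw [← MonoidHom.range_eq_map, range_subtype]
      refine le_antisymm (map_subtype_le _) ?_
      conv_lhs => rw [← hDH]
      rw [commutator_le]
      intro d hd h hh
      refine ⟨(⟨d, hd⟩⁻¹ : D)⁻¹ * ψ ⟨h, hh⟩ (⟨d, hd⟩⁻¹),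
        subset_closure ⟨_, ⟨⟨h, hh⟩, rfl⟩, _, rfl⟩, ?_⟩
      change d⁻¹⁻¹ * (h * d⁻¹ * h⁻¹) = _
      rw [commutatorElement_def]; group) with h | ⟨-, h64, h3, hz⟩ | ⟨hes, h32, h11⟩
  · exact Or.inr h
  · exfalso
    haveI : Nontrivial {x : D // orderOf x = 2} := Finite.one_lt_card_iff_nontrivial.1 (by omega)
    obtain ⟨⟨x, hx⟩, ⟨y, hy⟩, hxy⟩ := exists_pair_ne {x : D // orderOf x = 2}
    refine h8 (n8_of_top (n8_of_card (Z := ⊤) le_rfl ⟨(sq_of_order hx).1, (sq_of_order hy).1,
      (sq_of_order hx).2, (sq_of_order hy).2, fun e => hxy (Subtype.ext e),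
      (mem_center_iff.1 (hz y hy) x)⟩ (mem_top _) (mem_top _) (fun w _ =>
        ⟨(mem_center_iff.1 (hz x hx) w).symm, (mem_center_iff.1 (hz y hy) w).symm⟩) ?_))
    rw [card_top]; omega
  · exfalso
    haveI : Fact (Nat.Prime 2) := ⟨Nat.prime_two⟩
    obtain ⟨⟨z, hzc⟩, hz⟩ := exists_prime_orderOf_dvd_card' (G := center D) 2 (by rw [hes.2])
    have hz' : orderOf z = 2 := by rw [← hz]; exact (orderOf_coe (⟨z, hzc⟩ : center D))
    obtain ⟨⟨t, ht⟩, htz⟩ : ∃ t : {x : D // orderOf x = 2}, t ≠ ⟨z, hz'⟩ := by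
      haveI : Nontrivial {x : D // orderOf x = 2} := Finite.one_lt_card_iff_nontrivial.1 (by omega)
      exact exists_ne _
    have hcm : ∀ g : D, ⁅g, t⁆ ∈ center D := fun g => by
      rw [← hes.1.2.2]; exact commutator_mem_commutator (mem_top _) (mem_top _)
    let f : D →* center D :=
      { toFun := fun g => ⟨⁅g, t⁆, hcm g⟩
        map_one' := Subtype.ext (by simp)
        map_mul' := fun g g' => Subtype.ext (by
          have := mem_center_iff.1 (hcm g') g
          change ⁅g * g', t⁆ = ⁅g, t⁆ * ⁅g', t⁆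
          rw [mem_center_iff.1 (hcm g') ⁅g, t⁆]
          calc ⁅g * g', t⁆ = (g * ⁅g', t⁆) * g⁻¹ * ⁅g, t⁆ := by
                simp only [commutatorElement_def]; group
            _ = _ := by rw [this]; group) }
    have h1 : f.ker.index ≤ 2 := by
      rw [index_ker, ← hes.2]
      exact Nat.le_of_dvd Nat.card_pos (card_subgroup_dvd_card _)
    have h2 := f.ker.card_mul_index
    refine h8 (n8_of_top (n8_of_card (Z := f.ker) le_top ⟨(sq_of_order hz').1, (sq_of_order ht).1,
      (sq_of_order hz').2, (sq_of_order ht).2, fun e => htz (Subtype.ext e.symm),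
      (mem_center_iff.1 hzc t).symm⟩ (mem_top _) (mem_top _) (fun w hw =>
        ⟨(mem_center_iff.1 hzc w).symm, ?_⟩) ?_))
    · exact (commutatorElement_eq_one_iff_commute.1 (congrArg Subtype.val hw)).symm
    · rw [h32] at h2
      nlinarith

theorem n8_sup {D : Subgroup G} (h : Sm D) {c : G} (hc : c ∈ centralizer (D : Set G)) (h1 : c ∉ D)
    (h2 : c * c ∈ D) : N8 (D ⊔ zpowers c) := by
  have hcD : c ∈ D ⊔ zpowers c := mem_sup_right (mem_zpowers c)
  have cm : ∀ d : D, Commute (d : G) c := fun d => hc d d.2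
  have inj : ∀ {Q : Type} [Group Q] (e : D ≃* Q) (a b : Q), ((e.symm a : D) : G) = e.symm b → a = b :=
    fun e a b h => e.symm.injective (Subtype.ext h)
  rcases h with ⟨⟨e⟩⟩ | ⟨⟨e⟩⟩
  · have ht : Two (e.symm (DihedralGroup.r 1)) (e.symm (DihedralGroup.sr 0)) := by
      refine ⟨?_, ?_, ?_, ?_, ?_, ?_⟩
      · rw [← map_mul, ← map_one e.symm]; rfl
      · rw [← map_mul, ← map_one e.symm]; rfl
      · rw [Ne, map_eq_one_iff _ e.symm.injective]; decide
      · rw [Ne, map_eq_one_iff _ e.symm.injective]; decide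
      · rw [Ne, e.symm.injective.eq_iff]; decide
      · exact Commute.map (by unfold Commute SemiconjBy; decide) e.symm
    exact ⟨_, mem_sup_left (e.symm _).2, _, mem_sup_left (e.symm _).2, c, hcD, two_map ht, cm _,
      cm _, fun h => h1 ((two_map ht).V_le (e.symm _).2 (e.symm _).2 h)⟩
  · set z : G := ((e.symm (QuaternionGroup.a 2) : D) : G) with hz
    set i : G := ((e.symm (QuaternionGroup.a 1) : D) : G) with hi
    have hzD : z ∈ D := (e.symm _).2
    have hiD : i ∈ D := (e.symm _).2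
    have hii : i * i = z := by rw [hi, hz, ← coe_mul, ← map_mul]; rfl
    have hzz : z * z = 1 := by
      rw [hz, ← coe_mul, ← map_mul, ← coe_one (H := D), ← map_one e.symm]; rfl
    have hz1 : z ≠ 1 := fun h => by
      rw [← coe_one (H := D), ← map_one e.symm] at h
      exact absurd (inj e _ _ h) (by decide)
    have hi1 : i ≠ 1 := fun h => hz1 (by rw [← hii, h, one_mul])
    have hiz : i ≠ z := fun h => hz1 (by rw [← hii, h, hzz])
    have hzi : Commute z i := by rw [← hii]; exact (Commute.refl i).mul_left (Commute.refl i)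
    have hcc : c * c = 1 ∨ c * c = z := by
      have : ∀ q : QuaternionGroup 2, (∀ w, w * q = q * w) → q = 1 ∨ q = QuaternionGroup.a 2 := by
        decide
      rcases this (e ⟨c * c, h2⟩) (fun w => by
        apply e.symm.injective
        rw [map_mul, map_mul, e.symm_apply_apply]
        exact Subtype.ext ((cm _).mul_right (cm _)).eq) with h | h
      · left
        rw [map_eq_one_iff _ e.injective] at h
        exact congrArg Subtype.val h
      · right
        rw [hz, ← h, e.symm_apply_apply]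
    have key : ∀ y : G, y ∈ D ⊔ zpowers c → y ∉ D → y * y = 1 → Commute z y → Commute y i →
        N8 (D ⊔ zpowers c) := by
      intro y hy hyD hyy c1 c2
      refine ⟨z, mem_sup_left hzD, y, hy, i, mem_sup_left hiD, ⟨hzz, hyy, hz1,
        fun h => hyD (h ▸ one_mem D), fun h => hyD (h ▸ hzD), c1⟩, hzi, c2, ?_⟩
      rintro (h | h | h | h)
      · exact hi1 h
      · exact hiz h
      · exact hyD (h ▸ hiD)
      · apply hyD
        have := mul_mem (inv_mem hzD) hiD
        rwa [h, inv_mul_cancel_left] at this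
    have ci : Commute i c := cm ⟨i, hiD⟩
    rcases hcc with h | h
    · exact key c hcD h1 h (cm ⟨z, hzD⟩) ci.symm
    · refine key (c * i) (mul_mem hcD (mem_sup_left hiD)) (fun h' => h1 ?_) ?_
        ((cm ⟨z, hzD⟩).mul_right hzi) (ci.symm.mul_left (Commute.refl i))
      · simpa using mul_mem h' (inv_mem hiD)
      · rw [ci.mul_mul_mul_comm, h, hii, hzz]

theorem split [Finite G] {Y H : Subgroup G} (hY : IsPGroup 2 Y) (hH : (Nat.card H).Coprime 2)
    (hn : H ≤ normalizer (Y : Set G)) (hne : ⁅Y, H⁆ ≠ ⊥) (h8 : ¬ N8 ⁅Y, H⁆) :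
    Sm ⁅Y, H⁆ ∧ (Y = ⁅Y, H⁆ ∨ ∃ c ∈ Y, c ∈ centralizer (H : Set G) ∧
      c ∈ centralizer ((⁅Y, H⁆ : Subgroup G) : Set G) ∧ c ∉ ⁅Y, H⁆ ∧ c * c ∈ ⁅Y, H⁆ ∧
      N8 (⁅Y, H⁆ ⊔ zpowers c)) := by
  haveI : Fact (Nat.Prime 2) := ⟨Nat.prime_two⟩
  have hcop := H4.coprime_card_of_isPGroup hH hY
  have hsolv : Group.IsSolvable H ∨ Group.IsSolvable Y := Or.inr (H4.isSolvable_of_isPGroup hY)
  have hDY : ⁅Y, H⁆ ≤ Y := H4.commutator_le_left_of_le_normalizer hn
  have hDH := H4.commutator_commutator_eq hn hcop hsolv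
  have hsup := H4.commutator_sup_centralizer hn hcop hsolv
  set D := ⁅Y, H⁆ with hD
  have hDp : IsPGroup 2 D := hY.to_le hDY
  have hHD : H ≤ normalizer (D : Set G) := H4.le_normalizer_commutator hn le_normalizer
  have hsm : Sm D := sm_of hDp hH hHD hDH hne h8
  refine ⟨hsm, ?_⟩
  set C := Y ⊓ centralizer (H : Set G) with hC
  have hCD : C ≤ normalizer (D : Set G) := H4.le_normalizer_commutator
    (inf_le_left.trans le_normalizer) (inf_le_right.trans (centralizer_le_normalizer _))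
  have hcent : D ≤ centralizer (C : Set G) := by
    by_contra hcon
    have h1 : D ⊓ centralizer (C : Set G) ≠ D := fun h => hcon (h.ge.trans inf_le_right)
    have h2 : H ≤ normalizer ((D ⊓ centralizer (C : Set G) : Subgroup G) : Set G) :=
      H4.le_normalizer_inf hHD ((le_centralizer_iff.1 inf_le_right).trans le_normalizer)
    have h3 := H4.thompson_p_times_q (hY.to_le inf_le_left) hH hDp inf_le_right hCD hHD
      (cent_of_cyclic (hsm.cyclic inf_le_left h1) (hDp.to_le inf_le_left) hH h2)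
    exact hne (hDH ▸ commutator_eq_bot_iff_le_centralizer.2 h3)
  by_cases hle : C ≤ D
  · exact Or.inl (by rw [← hsup, sup_eq_left.2 hle])
  · obtain ⟨w, hw, hw'⟩ := SetLike.not_le_iff_exists.1 hle
    obtain ⟨k, hk⟩ := hY ⟨w, hw.1⟩
    obtain ⟨j, h1, h2⟩ := exists_sq_mem (congrArg Subtype.val hk) hw'
    have h3 : w ^ j ∈ centralizer (D : Set G) := le_centralizer_iff.1 hcent (pow_mem hw j)
    exact Or.inr ⟨w ^ j, pow_mem hw.1 j, pow_mem hw.2 j, h3, h1, h2, n8_sup hsm h3 h1 h2⟩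

theorem sm_of_not_n8 [Finite G] {Y H : Subgroup G} (hY : IsPGroup 2 Y)
    (hH : (Nat.card H).Coprime 2) (hn : H ≤ normalizer (Y : Set G)) (hne : ⁅Y, H⁆ ≠ ⊥)
    (h8 : ¬ N8 Y) : Sm Y := by
  have hDY : ⁅Y, H⁆ ≤ Y := H4.commutator_le_left_of_le_normalizer hn
  obtain ⟨h1, h2 | ⟨c, hc, -, -, -, -, h2⟩⟩ := split hY hH hn hne fun h => h8 (h.mono hDY)
  · rwa [← h2] at h1
  · exact absurd (h2.mono (sup_le hDY (zpowers_le_of_mem hc))) h8

end Cfsg.Agent.H51.Eight
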