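import Cfsg.Agent.H42.PcDefs

/-! Project PC: the piece `AStmt`. -/

set_option autoImplicit false
set_option linter.unusedVariables false

namespace Cfsg.Agent.H51.PcA

open Subgroup Cfsg.Agent.H42.Pc

universe u

theorem sq_normal {G : Type u} [Group G] (T : Subgroup G) [hT : T.Normal] : (Sq T).Normal := by
  refine ⟨fun n hn g => ?_⟩
  induction hn using closure_induction with
  | mem x hx =>
    obtain ⟨w, hw, rfl⟩ := hx
    exact subset_closure ⟨g * w * g⁻¹, hT.conj_mem w hw g, by group⟩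
  | one => simp
  | mul x y _ _ hx hy =>
    rw [show g * (x * y) * g⁻¹ = g * x * g⁻¹ * (g * y * g⁻¹) by group]
    exact mul_mem hx hy
  | inv x _ hx =>
    rw [show g * x⁻¹ * g⁻¹ = (g * x * g⁻¹)⁻¹ by group]
    exact inv_mem hx

theorem ext_eq {G : Type u} [Group G] (T : Subgroup G) (y : G) {w : G} (hw : w ∈ T) :
    Ext T (y * w) = Ext T y := by
  refine le_antisymm (sup_le le_sup_left (zpowers_le.2 ?_)) (sup_le le_sup_left (zpowers_le.2 ?_))
  · exact mul_mem (mem_sup_right (mem_zpowers y)) (mem_sup_left hw)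
  · have : y * w * w⁻¹ ∈ Ext T (y * w) :=
      mul_mem (mem_sup_right (mem_zpowers _)) (mem_sup_left (inv_mem hw))
    rwa [mul_inv_cancel_right] at this

theorem a (a0 : A0Stmt.{u}) : AStmt.{u} := by
  intro G _ _ T cf y hy
  haveI := cf.nT
  have hN := sq_normal T
  by_cases yT : y ∈ T
  · exact subset_closure ⟨y, yT, rfl⟩
  have sq : ∀ x : G, x * x ∈ T → ∀ w ∈ T, x * w * (x * w) ∈ T := fun x hx w hw => by
    rw [show x * w * (x * w) = x * x * (x⁻¹ * w * x⁻¹⁻¹) * w by group]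
    exact mul_mem (mul_mem hx (cf.nT.conj_mem w hw _)) hw
  obtain ⟨w0, hw0, h0⟩ := cf.tr y yT hy
  have y0T : y * w0 ∉ T := fun h => yT ((mul_mem_cancel_right hw0).1 h)
  have s0 := sq y hy w0 hw0
  rw [Dr, ← ext_eq T y hw0] at h0
  generalize y * w0 = y0 at h0 y0T s0
  obtain ⟨v, hv, hq⟩ := a0 G T y0 s0 _ h0
  have hv' : y0⁻¹ * v * y0 ∈ T := by simpa using cf.nT.conj_mem v hv y0⁻¹
  have h1 : y0 * v * (y0 * v) ∈ Sq T := by
    have e : y0 * v * (y0 * v) = v⁻¹ * ((y0⁻¹ * v * y0) * ((y0 * y0)⁻¹ * (v⁻¹ * (y0⁻¹ * v * y0)))⁻¹ *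
        (y0⁻¹ * v * y0)⁻¹ * ((y0⁻¹ * v * y0) * (y0⁻¹ * v * y0))) * v⁻¹⁻¹ := by group
    rw [e]
    exact hN.conj_mem _ (mul_mem (hN.conj_mem _ (inv_mem hq) _) (subset_closure ⟨_, hv', rfl⟩)) _
  obtain ⟨g, hg⟩ := cf.cc (y0 * v) y (fun h => y0T ((mul_mem_cancel_right hv).1 h)) yT
    (sq y0 s0 v hv) hy
  obtain ⟨k, hk⟩ : y ∈ zpowers (g * (y0 * v) * g⁻¹) := hg ▸ mem_zpowers y
  have h2 := zpow_mem (hN.conj_mem _ h1 g) k
  rw [show g * (y0 * v * (y0 * v)) * g⁻¹ = g * (y0 * v) * g⁻¹ * (g * (y0 * v) * g⁻¹) by group,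
    (Commute.refl _).mul_zpow] at h2
  have hk' : (g * (y0 * v) * g⁻¹) ^ k = y := hk
  rwa [hk'] at h2

end Cfsg.Agent.H51.PcA
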