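import Cfsg.Agent.H74.RuDefs

/-! Project RU: the quotient of the torus has prime exponent. -/

set_option autoImplicit false

namespace Cfsg.Agent.H51.RuExp

open Cfsg.Agent.H74.Ru

theorem sep {T : Type} [CommGroup T] [Finite T] (D : Subgroup T) {t : T} (ht : t ∉ D) :
    ∃ θ : T →* ℂˣ, θ t ≠ 1 ∧ ∀ s ∈ D, θ s = 1 := by
  have : NeZero ((Monoid.exponent (T ⧸ D) : ℕ) : ℂ) :=
    ⟨Nat.cast_ne_zero.2 Monoid.exponent_ne_zero_of_finite⟩
  obtain ⟨φ, hφ⟩ := CommGroup.exists_apply_ne_one_of_hasEnoughRootsOfUnity (T ⧸ D) ℂ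
    (a := (t : T ⧸ D)) (by rwa [Ne, QuotientGroup.eq_one_iff])
  refine ⟨φ.comp (QuotientGroup.mk' D), hφ, fun s hs => ?_⟩
  change φ (s : T ⧸ D) = 1
  rw [(QuotientGroup.eq_one_iff s).2 hs, map_one]

theorem gen {T : Type} [CommGroup T] [Finite T] (D : Subgroup T)
    (h : ∀ θ θ' : T →* ℂˣ, θ ≠ 1 → θ' ≠ 1 → (∀ t ∈ D, θ t = 1) → (∀ t ∈ D, θ' t = 1) →
      ∀ t, ∃ t', θ' t = θ t') : ∃ r : ℕ, r.Prime ∧ ∀ t : T, t ^ r ∈ D := by
  by_cases e : ∃ θ : T →* ℂˣ, θ ≠ 1 ∧ ∀ t ∈ D, θ t = 1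
  · obtain ⟨θ, h1, hD⟩ := e
    have hf : IsOfFinOrder θ := isOfFinOrder_iff_pow_eq_one.2 ⟨Nat.card T, Nat.card_pos, by
      ext t
      rw [MonoidHom.pow_apply, ← map_pow, pow_card_eq_one', map_one, MonoidHom.one_apply]⟩
    have hn : orderOf θ ≠ 1 := fun c => h1 (orderOf_eq_one_iff.1 c)
    have hr := Nat.minFac_prime hn
    have ho := orderOf_pow_orderOf_div hf.orderOf_pos.ne' (Nat.minFac_dvd (orderOf θ))
    refine ⟨_, hr, fun t => ?_⟩
    by_contra ht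
    obtain ⟨θ', a, b⟩ := sep D ht
    obtain ⟨t', e⟩ := h (θ ^ (orderOf θ / (orderOf θ).minFac)) θ'
      (fun c => hr.one_lt.ne' (by rw [← ho, c, orderOf_one]))
      (fun c => a (by rw [c, MonoidHom.one_apply]))
      (fun s hs => by rw [MonoidHom.pow_apply, hD s hs, one_pow]) b t
    have h0 := pow_orderOf_eq_one (θ ^ (orderOf θ / (orderOf θ).minFac))
    rw [ho] at h0
    apply a
    rw [map_pow, e, ← MonoidHom.pow_apply, h0, MonoidHom.one_apply]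
  · refine ⟨2, Nat.prime_two, fun t => ?_⟩
    by_contra ht
    obtain ⟨θ', a, b⟩ := sep D ht
    exact e ⟨θ', fun c => a (by rw [c, MonoidHom.one_apply]), b⟩

theorem exp : ExpStmt := by
  intro F V _ _ _ _ _ S D h
  refine gen D fun θ θ' a b c d t => ?_
  obtain ⟨π, hπ, e⟩ := h θ θ' a b c d
  refine ⟨⟨fun i => t.1 (π i), fun i => ?_, ?_⟩, e t _ fun _ => rfl⟩
  · have := t.2.1 (π i)
    rw [← hπ i] at this
    exact this
  · rw [Equiv.prod_comp π t.1]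
    exact t.2.2

end Cfsg.Agent.H51.RuExp
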