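import Cfsg.Agent.H58.SWDefs

/-! Project SW: the pieces `NdkStmt` and `POneStmt`. -/

set_option autoImplicit false
set_option linter.unusedVariables false
open Matrix Cfsg
open scoped commutatorElement

namespace Cfsg.Agent.H51.SwNdk

open Cfsg.Agent.H58.SW

theorem inv_conj_mem {G : Type*} [Group G] [Finite G] {Q : Subgroup G} {v : G}
    (h : ∀ g ∈ Q, v * g * v⁻¹ ∈ Q) : ∀ g ∈ Q, v⁻¹ * g * v ∈ Q := by
  have k : ∀ m : ℕ, ∀ g ∈ Q, v ^ m * g * (v ^ m)⁻¹ ∈ Q := by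
    intro m
    induction m with
    | zero => intro g hg; simpa using hg
    | succ m ih =>
      intro g hg
      have := h _ (ih g hg)
      rwa [show v * (v ^ m * g * (v ^ m)⁻¹) * v⁻¹ = v ^ (m + 1) * g * (v ^ (m + 1))⁻¹ by
        rw [pow_succ']; group] at this
  intro g hg
  have hpos : 0 < orderOf v := orderOf_pos v
  have e : v ^ (orderOf v - 1) = v⁻¹ := by
    apply eq_inv_of_mul_eq_one_left
    rw [← pow_succ, Nat.sub_add_cancel hpos, pow_orderOf_eq_one]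
  have := k (orderOf v - 1) g hg
  rwa [e, inv_inv] at this

theorem mem_of_pows {G : Type*} [Group G] {A : Subgroup G} {y : G} {k r : ℕ} (hr : r.Prime)
    (hk : ¬ r ∣ k) (h1 : y ^ k ∈ A) (h2 : y ^ r ∈ A) : y ∈ A := by
  have hc : Nat.Coprime k r := ((Nat.Prime.coprime_iff_not_dvd hr).2 hk).symm
  have e : ((Nat.gcd k r : ℕ) : ℤ) = k * Nat.gcdA k r + r * Nat.gcdB k r := Nat.gcd_eq_gcd_ab k r
  rw [hc.gcd_eq_one] at e
  have : y = (y ^ k) ^ Nat.gcdA k r * (y ^ r) ^ Nat.gcdB k r := by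
    rw [← _root_.zpow_natCast, ← _root_.zpow_natCast, ← _root_.zpow_mul, ← _root_.zpow_mul,
      ← _root_.zpow_add, ← e]; simp
  rw [this]
  exact A.mul_mem (A.zpow_mem h1 _) (A.zpow_mem h2 _)

theorem ndk (hKA : KAStmt) (hKT : KTStmt) (hKV : KVStmt) (hIrr : IrrStmt) (hNorm : NormStmt)
    (hExt2 : Ext2Stmt) (hUz1 : Uz1Stmt) (hUz2 : Uz2Stmt) : NdkStmt := by
  intro F _ _ _ n c r H Q L hrp A M N x hx hxZ y hy hyZ hyr hyc hyA gxy z hz gz
  have ka := hKA F n c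
  have kt := hKT F n c
  have kv := hKV F n c
  have ki := hIrr F n c
  have hQS : Q ≤ c.St := fun g hg => (L.qh hg).1
  obtain ⟨w, hw⟩ : ∃ w : F, ∀ z, Good c r z → ∃ v, UEl c r z v ∧ (v : Mt n F).det = w := by
    by_cases h2 : r = 2
    · subst h2
      exact hUz2 F n c (Ne.symm hrp)
    · exact hUz1 F n c r L.prime hrp h2 (hExt2 F n c r A L.prime N).2.1
  obtain ⟨v1, u1, d1⟩ := hw _ gxy
  obtain ⟨v2, u2, d2⟩ := hw _ gz
  have hxy : ∀ g ∈ Q, ⁅g, x * y⁆ ∈ c.Z := fun g hg => by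
    have e : ⁅g, x * y⁆ = ⁅g, x⁆ * (x * ⁅g, y⁆ * x⁻¹) := by
      simp only [commutatorElement_def]; group
    rw [e, ← (ka.zcomm _ (hyc g hg) x).eq, mul_inv_cancel_right]
    exact c.Z.mul_mem (M.cen x hx g hg) (hyc g hg)
  have n1 : ∀ g ∈ Q, v1 * g * v1⁻¹ ∈ Q := fun g hg => by
    obtain ⟨k, m, hm, e, -⟩ := u1.2 g (hQS hg) (hxy g hg)
    rw [e]
    exact Q.mul_mem (Q.mul_mem (L.zq hm) (Q.pow_mem (Q.mul_mem (M.le hx) hy) _)) hg
  have n2 : ∀ g ∈ Q, v2 * g * v2⁻¹ ∈ Q := fun g hg => by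
    obtain ⟨k, m, hm, e, -⟩ := u2.2 g (hQS hg) (M.cen z hz g hg)
    rw [e]
    exact Q.mul_mem (Q.mul_mem (L.zq hm) (Q.pow_mem (M.le hz) _)) hg
  have n2A : ∀ g ∈ A, v2 * g * v2⁻¹ ∈ A := fun g hg => by
    obtain ⟨k, m, hm, e, -⟩ := u2.2 g (hQS (M.le hg)) (M.cen z hz g (M.le hg))
    rw [e]
    exact A.mul_mem (A.mul_mem (M.zlt.le hm) (A.pow_mem hz _)) hg
  have hvS : v1 * v2⁻¹ ∈ c.S := by
    rw [ka.mem_S]
    refine ⟨c.St.mul_mem u1.1 (c.St.inv_mem u2.1), ?_⟩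
    have e : ((v1 * v2⁻¹ : Gl n F) : Mt n F).det * (v2 : Mt n F).det = 1 * (v2 : Mt n F).det := by
      rw [← Matrix.det_mul, ← Units.val_mul, inv_mul_cancel_right, d1, d2, one_mul]
    exact mul_right_cancel₀ (ka.det_zv v2 u2.1).1 e
  have hvH : v1 * v2⁻¹ ∈ c.hat H := by
    refine hNorm F n c r H Q L Q hQS L.inv (fun h => hyZ (h hy)) ?_ _ hvS ?_
    · intro h
      obtain ⟨t, ht, t1, tu⟩ := ki.tv
      rw [sup_eq_left.2 L.zq] at h
      exact t1 (kv.nouni r H Q L hrp t (h ht) tu)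
    · intro g hg
      have := n1 _ (inv_conj_mem n2 g hg)
      rwa [show v1 * (v2⁻¹ * g * v2) * v1⁻¹ = v1 * v2⁻¹ * g * (v1 * v2⁻¹)⁻¹ by group] at this
  have n1A : ∀ g ∈ A, v1 * g * v1⁻¹ ∈ A := fun g hg => by
    have := kt.hatG H A M.inv _ hvH _ (n2A g hg)
    rwa [show v1 * v2⁻¹ * (v2 * g * v2⁻¹) * (v1 * v2⁻¹)⁻¹ = v1 * g * v1⁻¹ by group] at this
  obtain ⟨y', hy', nc⟩ := N.nd x hx hxZ
  obtain ⟨k, m, hm, e, hk⟩ := u1.2 y' (hQS (M.le hy')) (hxy y' (M.le hy'))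
  have hk' : ¬ r ∣ k := hk fun h => nc (by
    have h3 : Commute y' (x * y * y⁻¹) := h.mul_right (hyA y' hy').symm.inv_right
    rw [mul_inv_cancel_right] at h3
    exact h3.symm)
  have h4 : (x * y) ^ k ∈ A := by
    have h5 := n1A y' hy'
    rw [e] at h5
    have h6 := A.mul_mem (A.inv_mem (M.zlt.le hm)) (A.mul_mem h5 (A.inv_mem hy'))
    rwa [mul_inv_cancel_right, inv_mul_cancel_left] at h6
  have h7 : y ^ k ∈ A := by
    rw [(hyA x hx).symm.mul_pow] at h4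
    have h6 := A.mul_mem (A.inv_mem (A.pow_mem hx k)) h4
    rwa [inv_mul_cancel_left] at h6
  have h8 : y ∈ A := mem_of_pows L.prime hk' h7 (M.zlt.le hyr)
  obtain ⟨a, ha, na⟩ := N.nd y h8 hyZ
  exact na (hyA a ha)

/-- a non-trivial normal subgroup of a finite `r`-group has a central element of order `r` -/
theorem exists_central {P : Type*} [Group P] [Finite P] {r : ℕ} (hr : r.Prime) (hP : IsPGroup r P)
    (N : Subgroup P) [N.Normal] (hN : N ≠ ⊥) :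
    ∃ x ∈ N, x ≠ 1 ∧ x ^ r = 1 ∧ ∀ g, Commute g x := by
  haveI := Fact.mk hr
  have h1 : IsPGroup r (ConjAct P) := hP.of_equiv ConjAct.toConjAct
  have h2 : r ∣ Nat.card N := by
    obtain ⟨k, hk⟩ := IsPGroup.iff_card.1 (hP.to_subgroup N)
    rw [hk]
    refine dvd_pow_self r fun h0 => hN ?_
    rw [h0, pow_zero] at hk
    exact Subgroup.card_eq_one.1 hk
  have h3 : (1 : N) ∈ MulAction.fixedPoints (ConjAct P) N := fun g => smul_one g
  obtain ⟨b, hb, b1⟩ := h1.exists_fixed_point_of_prime_dvd_card_of_fixed_point N h2 h3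
  have hc : ∀ g, Commute g (b : P) := fun g => by
    have h4 := congrArg Subtype.val (hb (ConjAct.toConjAct g))
    change ConjAct.toConjAct g • (b : P) = b at h4
    rw [ConjAct.toConjAct_smul] at h4
    exact mul_inv_eq_iff_eq_mul.1 h4
  have b1' : (b : P) ≠ 1 := fun h => b1 (Subtype.ext h.symm)
  obtain ⟨k, hk⟩ := IsPGroup.iff_orderOf.1 hP (b : P)
  have k0 : k ≠ 0 := fun h => b1' (by rw [h, pow_zero] at hk; exact orderOf_eq_one_iff.1 hk)
  obtain ⟨j, rfl⟩ := Nat.exists_eq_succ_of_ne_zero k0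
  refine ⟨(b : P) ^ r ^ j, N.pow_mem b.2 _, ?_, ?_, fun g => (hc g).pow_right _⟩
  · intro h
    have := Nat.le_of_dvd (pow_pos hr.pos _) (orderOf_dvd_of_pow_eq_one h)
    rw [hk] at this
    exact absurd this (not_le.2 (Nat.pow_lt_pow_right hr.one_lt (Nat.lt_succ_self j)))
  · rw [← pow_mul, ← pow_succ, ← hk, pow_orderOf_eq_one]

theorem pone (hKA : KAStmt) (hKT : KTStmt) (hExt2 : Ext2Stmt) : POneStmt := by
  intro F _ _ _ n c r H Q L A M N hne
  have ka := hKA F n c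
  have kt := hKT F n c
  have hQS : Q ≤ c.St := fun g hg => (L.qh hg).1
  haveI hZn : c.Z.Normal := ⟨fun z hz g => by
    rw [← (ka.zcomm z hz g).eq, mul_inv_cancel_right]; exact hz⟩
  let π := QuotientGroup.mk' c.Z
  have hπ : ∀ g, π g = 1 ↔ g ∈ c.Z := fun g => QuotientGroup.eq_one_iff g
  have hcm : ∀ g h, ⁅g, h⁆ ∈ c.Z ↔ Commute (π g) (π h) := fun g h => by
    rw [← hπ, map_commutatorElement, commutatorElement_eq_one_iff_commute]
  have hpw : ∀ g, g ^ r ∈ c.Z ↔ π g ^ r = 1 := fun g => by rw [← hπ, map_pow]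
  let P : Subgroup (Gl n F) :=
    { carrier := {y | y ∈ Q ∧ y ^ r ∈ c.Z ∧ (∀ g ∈ Q, ⁅g, y⁆ ∈ c.Z) ∧ ∀ a ∈ A, Commute y a}
      one_mem' := ⟨Q.one_mem, by simp, fun g _ => by simp, fun a _ => Commute.one_left a⟩
      mul_mem' := by
        rintro a b ⟨a1, a2, a3, a4⟩ ⟨b1, b2, b3, b4⟩
        refine ⟨Q.mul_mem a1 b1, ?_, fun g hg => ?_, fun x hx => (a4 x hx).mul_left (b4 x hx)⟩
        · rw [hpw, map_mul, ((hcm _ _).1 (b3 a a1)).mul_pow, (hpw _).1 a2, (hpw _).1 b2, one_mul]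
        · rw [hcm, map_mul]
          exact ((hcm _ _).1 (a3 g hg)).mul_right ((hcm _ _).1 (b3 g hg))
      inv_mem' := by
        rintro a ⟨a1, a2, a3, a4⟩
        refine ⟨Q.inv_mem a1, ?_, fun g hg => ?_, fun x hx => (a4 x hx).inv_left⟩
        · rw [inv_pow]; exact c.Z.inv_mem a2
        · rw [hcm, map_inv]
          exact ((hcm _ _).1 (a3 g hg)).inv_right }
  refine ⟨P, ?_, ?_, fun y => Iff.rfl⟩
  · have hle : c.Z ≤ P := fun z hz =>
      ⟨L.zq hz, c.Z.pow_mem hz _, fun g _ => by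
        rw [commutatorElement_eq_one_iff_commute.2 (ka.zcomm z hz g).symm]; exact c.Z.one_mem,
        fun a _ => ka.zcomm z hz a⟩
    obtain ⟨g, hg, gA⟩ : ∃ g ∈ Q, g ∉ A := by
      by_contra h
      push Not at h
      exact hne (le_antisymm h M.le)
    obtain ⟨x, hx, hxc⟩ := (hExt2 F n c r A L.prime N).1 g (hQS hg) fun a ha => M.cen a ha g hg
    let C : Subgroup (Gl n F) := Q ⊓ Subgroup.centralizer (A : Set (Gl n F))
    have hC : ∀ y, y ∈ C ↔ y ∈ Q ∧ ∀ a ∈ A, Commute y a := fun y =>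
      and_congr Iff.rfl (forall₂_congr fun a _ => ⟨fun h => (h.symm : _), fun h => h.symm.eq⟩)
    have hCn : ∀ q ∈ Q, ∀ y ∈ C, q * y * q⁻¹ ∈ C := fun q hq y hy => by
      rw [hC] at hy ⊢
      refine ⟨Q.mul_mem (Q.mul_mem hq hy.1) (Q.inv_mem hq), fun a ha => ?_⟩
      have h1 := hy.2 _ (kt.hatG H A M.inv _ (L.qh (Q.inv_mem hq)) a ha)
      have h2 : q * y * q⁻¹ * a = q * (y * (q⁻¹ * a * q⁻¹⁻¹)) * q⁻¹ := by group
      have h3 : a * (q * y * q⁻¹) = q * ((q⁻¹ * a * q⁻¹⁻¹) * y) * q⁻¹ := by group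
      change _ * _ = _ * _
      rw [h2, h3, h1.eq]
    have hp : IsPGroup r (Q.map π) := by
      rintro ⟨_, q, hq, rfl⟩
      obtain ⟨k, hk⟩ := L.rgrp q hq
      exact ⟨k, Subtype.ext (by
        change π q ^ r ^ k = 1
        rw [← map_pow, hπ]; exact hk)⟩
    haveI : ((C.map π).subgroupOf (Q.map π)).Normal := ⟨by
      rintro ⟨_, y', hy', rfl⟩ hy ⟨_, q, hq, rfl⟩
      obtain ⟨y, hy1, hy2⟩ := Subgroup.mem_subgroupOf.1 hy
      refine Subgroup.mem_subgroupOf.2 ⟨q * y * q⁻¹, hCn q hq y hy1, ?_⟩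
      change π (q * y * q⁻¹) = π q * π y' * (π q)⁻¹
      rw [map_mul, map_mul, map_inv]
      change π y = π y' at hy2
      rw [hy2]⟩
    have hxg : x⁻¹ * g ∈ C := (hC _).2 ⟨Q.mul_mem (Q.inv_mem (M.le hx)) hg, hxc⟩
    have hnb : (C.map π).subgroupOf (Q.map π) ≠ ⊥ := fun h => by
      have h1 : (⟨π (x⁻¹ * g), Subgroup.mem_map_of_mem π hxg.1⟩ : Q.map π) ∈
          (C.map π).subgroupOf (Q.map π) := Subgroup.mem_subgroupOf.2 (Subgroup.mem_map_of_mem π hxg)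
      rw [h, Subgroup.mem_bot] at h1
      have h2 := A.mul_mem hx (M.zlt.le ((hπ _).1 (congrArg Subtype.val h1)))
      rw [mul_inv_cancel_left] at h2
      exact gA h2
    obtain ⟨b, hb, b1, br, bc⟩ := exists_central L.prime hp _ hnb
    obtain ⟨y, hy1, hy2⟩ := Subgroup.mem_subgroupOf.1 hb
    refine lt_of_le_of_ne hle fun h => b1 (Subtype.ext ?_)
    have hyP : y ∈ P := by
      refine ⟨((hC y).1 hy1).1, ?_, fun q hq => ?_, ((hC y).1 hy1).2⟩
      · rw [hpw, hy2]; exact congrArg Subtype.val br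
      · rw [hcm, hy2]
        exact congrArg Subtype.val (bc ⟨π q, Subgroup.mem_map_of_mem π hq⟩).eq
    rw [← h] at hyP
    rw [← hy2]
    exact (hπ y).2 hyP
  · rintro ψ hψ y ⟨y1, y2, y3, y4⟩
    have hz := fun x => (kt.pres ψ (L.std ψ hψ) x).2.2
    refine ⟨L.inv ψ hψ y y1, ?_, fun g hg => ?_, fun a ha => ?_⟩
    · rw [← map_pow]; exact (hz _).2 y2
    · have := (hz _).2 (y3 _ (L.inv ψ⁻¹ (H.inv_mem hψ) g hg))
      rwa [map_commutatorElement, MulAut.apply_inv_self] at this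
    · have := (y4 _ (M.inv ψ⁻¹ (H.inv_mem hψ) a ha)).map ψ
      rwa [MulAut.apply_inv_self] at this

end Cfsg.Agent.H51.SwNdk
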