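import Cfsg.Agent.H53.UwDefs

/-!
# The unipotent radical acts non-trivially on the fixed space of its centre
-/

set_option autoImplicit false
set_option linter.unusedSectionVars false

namespace Cfsg.Agent.H51.UwCase1

open Module Cfsg.Agent.H31 Cfsg.Agent.H53.Uw

universe u

theorem ex_dual {E X : Type u} [Field E] [Finite E] [AddCommGroup X] [Module E X] [Finite X]
    {ψ : AddChar E ℂ} (hψ : ψ 1 ≠ 1) :
    (∀ a b : E, (∀ e, ψ (e * a) = ψ (e * b)) → a = b) ∧
      ∀ χ : AddChar X ℂ, ∃ φ : Dual E X, ∀ x, χ x = ψ (φ x) := by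
  have sep : ∀ a b : E, (∀ e, ψ (e * a) = ψ (e * b)) → a = b := fun a b h => by
    by_contra hne
    have h1 := h (a - b)⁻¹
    have h2 : (a - b)⁻¹ * a = 1 + (a - b)⁻¹ * b := by
      field_simp [sub_ne_zero.2 hne]; ring
    rw [h2, AddChar.map_add_eq_mul, mul_eq_right₀ (ψ.val_isUnit _).ne_zero] at h1
    exact hψ h1
  refine ⟨sep, fun χ => ?_⟩
  haveI := Fintype.ofFinite X
  haveI : FiniteDimensional E X := Module.Finite.of_finite
  let Φ : Dual E X → AddChar X ℂ := fun φ => ψ.compAddMonoidHom φ.toAddMonoidHom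
  have inj : Function.Injective Φ := fun φ φ' h => LinearMap.ext fun x => sep _ _ fun e => by
    have := DFunLike.congr_fun h (e • x)
    simpa [Φ] using this
  have cd : Nat.card (AddChar X ℂ) = Nat.card (Dual E X) := by
    rw [Nat.card_eq_fintype_card, AddChar.card_eq, ← Nat.card_eq_fintype_card,
      Module.natCard_eq_pow_finrank (K := E), Module.natCard_eq_pow_finrank (K := E) (V := Dual E X),
      Subspace.dual_finrank_eq]
  obtain ⟨φ, rfl⟩ := (inj.bijective_of_nat_card_le cd.le).2 χ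
  exact ⟨φ, fun x => rfl⟩

variable {E V : Type u} [Field E] [AddCommGroup V] [Module E V] [FiniteDimensional E V]
  {σ : E →+* E} {B : V →ₛₗ[σ] V →ₗ[E] E} (hB : IsHerm B) {u : V} {X : Submodule E V}
  (fl : Fl B u X)
include hB fl

theorem u_perp : u ∈ perp B X := hB.toIsHermSymm.mem_perp'.2 fl.orth

theorem perp_dec {v : V} (hv : v ∈ perp B X) : ∃ x ∈ X, ∃ c : E, v = x + c • u := by
  have hu : u ∉ X := fun h => fl.an (fl.orth u h)
  have le : X ⊔ E ∙ u ≤ perp B X := sup_le (totIso_iff_le_perp.1 fl.ti)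
    ((Submodule.span_singleton_le_iff_mem _ _).2 (u_perp hB fl))
  have e : X ⊔ E ∙ u = perp B X := Submodule.eq_of_le_of_finrank_le le (by
    have h1 := hB.finrank_add_finrank_perp X
    have h2 : finrank E X < finrank E ↥(X ⊔ E ∙ u) := Submodule.finrank_lt_finrank_of_lt
      (lt_of_le_of_ne le_sup_left fun h => hu (h ▸ Submodule.mem_sup_right
        (Submodule.mem_span_singleton_self u)))
    have := fl.dim
    omega)
  rw [← e] at hv
  obtain ⟨x, hx, y, hy, rfl⟩ := Submodule.mem_sup.1 hv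
  obtain ⟨c, rfl⟩ := Submodule.mem_span_singleton.1 hy
  exact ⟨x, hx, c, rfl⟩

theorem ker_p {a : isom B} (ha : a ∈ QX B X) (h : a.1 u = u) : a ∈ CX B X := fun v hv => by
  obtain ⟨x, hx, c, rfl⟩ := perp_dec hB fl hv
  change a.1 _ = _
  rw [map_add, map_smul, h, ha.1 x hx]

theorem ex_p (x : X) : ∃ a ∈ QX B X, a.1 u = u + x := by
  have N := hB.toIsHermSymm.norm_fixed u
  have xx : ∀ y ∈ X, B x y = 0 := fun y hy => fl.ti x x.2 y hy
  obtain ⟨c, hc⟩ := hB.inv.exists_trace_eq (a := -B ((-(B u u)⁻¹) • u) ((-(B u u)⁻¹) • u))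
    (by rw [map_neg, hB.toIsHermSymm.norm_fixed])
  have xu : B x u = 0 := hB.toIsHermSymm.flip_zero (fl.orth x x.2)
  obtain ⟨g, hg, he⟩ := hB.toIsHermSymm.exists_isEich (e := (x : V)) (w := (-(B u u)⁻¹) • u)
    (c := c) (xx x x.2) (by rw [smul_right, xu, mul_zero]) (by rw [hc, neg_add_cancel])
  refine ⟨⟨g, hg.1.1⟩, ⟨fun y hy => ?_, fun v hv => ?_⟩, ?_⟩
  · change g y = y
    rw [he.apply_of_perp (xx y hy), smul_left, fl.orth y hy, mul_zero, zero_smul, sub_zero]
  · change g v - v ∈ X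
    rw [he.apply_of_perp (hv x x.2), sub_sub_cancel_left]
    exact X.neg_mem (X.smul_mem _ x.2)
  · change g u = _
    rw [he.apply_of_perp xu, smul_left, map_neg, map_inv₀, N, neg_mul, inv_mul_cancel₀ fl.an,
      neg_smul, one_smul, sub_neg_eq_add]

theorem p_mul {a b : isom B} (ha : a ∈ QX B X) (hb : b ∈ QX B X) :
    (a * b).1 u - u = (a.1 u - u) + (b.1 u - u) := by
  rw [mul_ap, ← ha.1 _ (hb.2 u (u_perp hB fl)), map_sub]; abel

omit fl in
theorem conj_Q {h : isom B} {t : X ≃ₗ[E] X} (ht : ∀ x : X, h.1 x = t x) {a : isom B}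
    (ha : a ∈ QX B X) : h⁻¹ * a * h ∈ QX B X := by
  have hi : ∀ x ∈ X, h.1⁻¹ x ∈ X := fun x hx => by
    have := ht (t.symm ⟨x, hx⟩)
    rw [LinearEquiv.apply_symm_apply] at this
    change h.1 _ = x at this
    rw [← this, inv_apply_apply]
    exact (t.symm _).2
  refine ⟨fun x hx => ?_, fun v hv => ?_⟩
  · change h.1⁻¹ (a.1 (h.1 x)) = x
    rw [ha.1 _ (ht ⟨x, hx⟩ ▸ (t ⟨x, hx⟩).2), inv_apply_apply]
  · change h.1⁻¹ (a.1 (h.1 v)) - v ∈ X
    have := hi _ (ha.2 (h.1 v) fun x hx => by rw [isom_adj' h.2]; exact hv _ (hi x hx))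
    rwa [map_sub, inv_apply_apply] at this

omit hB fl

/-- **CASE1** -/
theorem case1 (r1 : R1Stmt.{u}) (r2 : R2Stmt.{u}) (r3 : R3Stmt.{u}) (fo : FoStmt.{u})
    (tor : TorStmt.{u}) : Case1Stmt.{u} := by
  intro E V _ _ _ _ _ σ B q S M _ _ _ ρ u X v fl hq hv hv'
  have hB := S.herm
  haveI : FiniteDimensional E V := Module.Finite.of_finite
  have up := u_perp hB fl
  have ap : ∀ a b : isom B, ∀ w, ρ a (ρ b w) = ρ (a * b) w := fun a b w => by
    rw [map_mul, End.mul_apply]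
  obtain ⟨a0, ha0, hne⟩ : ∃ a ∈ QX B X, ρ a v ≠ v := by
    by_contra! h
    exact hv' (mem_Fix.2 h)
  have nrm : ∀ a ∈ QX B X, ∀ z ∈ CX B X, a⁻¹ * z * a ∈ CX B X := fun a ha z hz y hy => by
    change a.1⁻¹ (z.1 (a.1 y)) = y
    have : a.1 y ∈ perp B X := by
      simpa using (perp B X).add_mem (totIso_iff_le_perp.1 fl.ti (ha.2 y hy)) hy
    rw [mem_CX.1 hz _ this, inv_apply_apply]
  have same : ∀ a ∈ QX B X, ∀ b ∈ QX B X, a.1 u = b.1 u → b⁻¹ * a ∈ CX B X :=
    fun a ha b hb e => ker_p hB fl (mul_mem (inv_mem hb) ha) (by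
      change b.1⁻¹ (a.1 u) = u
      rw [e, inv_apply_apply])
  obtain ⟨l, w, hw0, hwN, hw, hl0⟩ := r1 _ M ρ (QX B X) (Fix ρ (CX B X))
    (fun a ha y hy => mem_Fix.2 fun z hz => by
      rw [ap, show z * a = a * (a⁻¹ * z * a) by group, ← ap, mem_Fix.1 hy _ (nrm a ha z hz)])
    (fun a ha b hb y hy => by
      have := same _ (mul_mem ha hb) _ (mul_mem hb ha) (by
        rw [← sub_left_inj (a := u), p_mul hB fl ha hb, p_mul hB fl hb ha, add_comm])
      rw [ap, ap, show a * b = b * a * ((b * a)⁻¹ * (a * b)) by group, ← ap,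
        mem_Fix.1 hy _ this]) a0 ha0 v hv hne
  have lm : ∀ a ∈ QX B X, ∀ b ∈ QX B X, l (a * b) = l a * l b := fun a ha b hb =>
    smul_left_injective ℂ hw0 (by
      simp only
      rw [← hw _ (mul_mem ha hb), ← ap, hw b hb, map_smul, hw a ha, smul_smul, mul_comm])
  have l1 : ∀ z ∈ CX B X, l z = 1 := fun z hz => smul_left_injective ℂ hw0 (by
    simp only
    rw [← hw _ (CX_le_QX fl.ti hz), mem_Fix.1 hwN z hz, one_smul])
  have lp : ∀ a ∈ QX B X, ∀ b ∈ QX B X, a.1 u = b.1 u → l a = l b := fun a ha b hb e => by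
    rw [show a = b * (b⁻¹ * a) by group, lm _ hb _ (mul_mem (inv_mem hb) ha),
      l1 _ (same a ha b hb e), mul_one]
  choose s hs hsu using ex_p hB fl
  let χ : AddChar X ℂ :=
    { toFun := fun x => l (s x)
      map_zero_eq_one' := l1 _ (ker_p hB fl (hs 0) (by simpa using hsu 0))
      map_add_eq_mul' := fun x y => by
        rw [← lm _ (hs x) _ (hs y)]
        refine lp _ (hs _) _ (mul_mem (hs x) (hs y)) ?_
        rw [← sub_left_inj (a := u), p_mul hB fl (hs x) (hs y), hsu, hsu, hsu]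
        simp }
  obtain ⟨ψ, hψ⟩ := (AddChar.exists_apply_ne_zero (α := E) (a := 1)).2 one_ne_zero
  obtain ⟨sep, hφ⟩ := ex_dual (X := X) hψ
  obtain ⟨φ, hφ⟩ := hφ χ
  have lφ : ∀ a ∈ QX B X, ∀ x : X, a.1 u = u + x → l a = ψ (φ x) := fun a ha x e => by
    rw [← hφ, lp a ha _ (hs x) (e.trans (hsu x).symm)]; rfl
  obtain ⟨x0, hx0⟩ : ∃ x, φ x ≠ 0 := ⟨⟨_, ha0.2 u up⟩, fun e => hl0 (by
    rw [lφ a0 ha0 ⟨_, ha0.2 u up⟩ (by simp), e, AddChar.map_zero_eq_one])⟩
  let β : X →ₛₗ[σ] X →ₗ[E] E := LinearMap.mk₂'ₛₗ σ (RingHom.id E) (fun x y => σ (φ x) * φ y)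
    (fun x x' y => by simp [add_mul]) (fun c x y => by simp [mul_assoc])
    (fun x y y' => by simp [mul_add]) (fun c x y => by simp [mul_left_comm])
  have hβ : ∀ x y, β x y = σ (φ x) * φ y := fun _ _ => rfl
  obtain ⟨C, hC, hCt⟩ := fo E X σ q β S.card S.pow
    ⟨hB.inv, fun x y => by rw [hβ, hβ, map_mul, hB.inv.invol, mul_comm]⟩
    (fun e => mul_ne_zero ((map_ne_zero σ).2 hx0) hx0 (by rw [← hβ, e]; rfl)) hq
  obtain ⟨g, gu, gx, hg⟩ := tor E V σ B q S u X C fl hC
  have key : ∀ h : isom B, h * g = g * h → (∀ a ∈ QX B X, l (h⁻¹ * a * h) = l a) → h ∈ Zc B := by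
    intro h hh hl
    obtain ⟨⟨t, tC, ht⟩, ⟨c, hc⟩, H⟩ := hg h hh
    have cc : c * σ c = 1 := by
      have := h.2 u u
      rw [hc, smul_left, smul_right, ← mul_assoc, mul_eq_right₀ fl.an] at this
      rwa [mul_comm]
    have c0 : c ≠ 0 := left_ne_zero_of_mul_eq_one cc
    have ft : ∀ x, φ (t x) = c * φ x := fun x => sep _ _ fun e => by
      rw [← smul_eq_mul e, ← map_smul, ← map_smul, ← lφ _ (hs _) _ (hsu _), ← hl _ (hs _),
        lφ _ (conj_Q hB ht (hs _)) (c • e • x), map_smul φ, map_smul φ, smul_eq_mul, smul_eq_mul,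
        mul_left_comm]
      change h.1⁻¹ ((s _).1 (h.1 u)) = _
      apply h.1.injective
      rw [apply_inv_apply, map_add, ht, hc, map_smul, hsu, smul_add, map_smul t c]
      rfl
    obtain ⟨a, aa, ha⟩ := hCt t tC fun x y => by
      rw [hβ, hβ, ft, ft, map_mul]; linear_combination σ (φ x) * φ y * cc
    have ac : a = c := by
      have := ft x0
      rwa [ha, map_smul, smul_eq_mul, mul_left_inj' hx0] at this
    obtain ⟨z, hz, r, hr, hza, rfl⟩ := H a aa fun x hx => (ht ⟨x, hx⟩).trans (by rw [ha]; rfl)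
    have ru : r.1 u = u := by
      rw [mul_ap, hza, ac] at hc
      exact smul_right_injective V c0 hc
    have : r = 1 := isom_ext fun y => by
      obtain ⟨y1, h1, y2, h2, rfl⟩ := hB.exists_add_perp (nondegOn_span_singleton fl.an) y
      obtain ⟨e, rfl⟩ := Submodule.mem_span_singleton.1 h1
      rw [map_add, map_smul, ru, mem_CX.1 hr y2 h2]; rfl
    rwa [this, mul_one]
  have cQ : ∀ h : isom B, h * g = g * h → ∀ a ∈ QX B X, h⁻¹ * a * h ∈ QX B X := fun h hh a ha =>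
    let ⟨⟨_, _, ht⟩, _⟩ := hg h hh; conj_Q hB ht ha
  refine ⟨?_, fun hZ => ⟨g, r2 _ M ρ (QX B X) _ l w
    (fun h hh => cQ h (Subgroup.mem_centralizer_singleton_iff.1 hh)) hw0 hw fun h hh hl => by
      rw [hZ h (key h (Subgroup.mem_centralizer_singleton_iff.1 hh) hl)]; rfl⟩⟩
  have gp : ∀ i : ℕ, ∀ x : X, (g ^ i).1 x = (C ^ i) x := fun i => by
    induction i with
    | zero => exact fun x => rfl
    | succ i ih => exact fun x => by rw [pow_succ, pow_succ, mul_ap, gx, ih]; rfl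
  have gu' : ∀ i : ℕ, (g ^ i).1 u = u := fun i => by
    induction i with
    | zero => rfl
    | succ i ih => rw [pow_succ, mul_ap, gu, ih]
  have cg : ∀ i : ℕ, g ^ i * g = g * g ^ i := fun i => (Commute.self_pow g i).symm
  have R := r3 _ M ρ (QX B X) ⊤ (orderOf C) (fun i a => l ((g ^ i.1)⁻¹ * a * g ^ i.1))
    fun i j hij => by
      by_contra! h
      obtain ⟨a, ha⟩ := key ((g ^ j.1)⁻¹ * g ^ i.1)
        ((Commute.self_pow g j).symm.inv_left.mul_left (Commute.self_pow g i).symm) fun a ha => by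
          have m := cQ (g ^ j.1)⁻¹ (Commute.self_pow g j).symm.inv_left a ha
          have := h _ m
          rw [show (g ^ j.1)⁻¹ * ((g ^ j.1)⁻¹⁻¹ * a * (g ^ j.1)⁻¹) * g ^ j.1 = a by group] at this
          rw [← this]; simp only [mul_inv_rev, mul_assoc]
      have e : ∀ y, (g ^ i.1).1 y = a • (g ^ j.1).1 y := fun y => by
        rw [← map_smul, ← ha, ← mul_ap, mul_inv_cancel_left]
      have a1 : a = 1 := by
        have := e u
        rw [gu', gu'] at this
        exact smul_left_injective E (fun h => fl.an (by rw [h, map_zero]))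
          (this.symm.trans (one_smul E u).symm)
      refine hij (Fin.ext (pow_injOn_Iio_orderOf i.2 j.2 (LinearEquiv.ext fun x => Subtype.ext ?_)))
      rw [← gp, ← gp, e, a1, one_smul]
  rw [finrank_top] at R
  refine le_trans ?_ R
  rw [← hC.1]
  calc orderOf C = ∑ _i : Fin (orderOf C), 1 := by simp
    _ ≤ _ := Finset.sum_le_sum fun i _ => Nat.one_le_iff_ne_zero.2 fun e => ?_
  have m : ρ (g ^ i.1) w ∈ ⊤ ⊓ Wt ρ (QX B X) fun a => l ((g ^ i.1)⁻¹ * a * g ^ i.1) :=
    ⟨trivial, fun a ha => by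
      rw [← map_smul, ← hw _ (cQ _ (cg i) a ha), ap, ap]; congr 2; group⟩
  rw [Submodule.finrank_eq_zero.1 e, Submodule.mem_bot] at m
  apply hw0
  have := ap (g ^ i.1)⁻¹ (g ^ i.1) w
  rw [m, map_zero, inv_mul_cancel, map_one] at this
  exact this.symm

end Cfsg.Agent.H51.UwCase1
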