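import Cfsg.Agent.H53.UwDefs

/-!
# The Weil character sums to zero over the centralizer of a cyclic primary element
-/

set_option autoImplicit false
set_option linter.unusedSectionVars false

namespace Cfsg.Agent.H51.UwSum

open Module Polynomial Finset Cfsg.Agent.H31 Cfsg.Agent.H53.Uw

universe u

section Ring

open Classical

variable {A : Type*} [CommRing A] [Fintype A] {τ : A →+* A} (ττ : ∀ a, τ (τ a) = a) {π : A}
  (loc : ∀ a, IsUnit a ∨ π ∣ a) (nu : ¬ IsUnit π)
include ττ loc nu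

theorem nu' {a : A} (h : π ∣ a) : ¬ IsUnit a := fun hu => nu (isUnit_of_dvd_unit h hu)

theorem tau_pi : π ∣ τ π := (loc _).resolve_left fun h => nu (ττ π ▸ h.map τ)

theorem tau_dvd {j : ℕ} {a : A} (h : π ^ j ∣ a) : π ^ j ∣ τ a :=
  (pow_dvd_pow_of_dvd (tau_pi ττ loc nu) j).trans (map_pow τ π j ▸ map_dvd τ h)

theorem cayley {δ : A} (hδ : δ + τ δ = 1) (W : A → ℂ) (hW : ∀ a u, IsUnit u → W (a * u) = W a) :
    ∑ s with τ s = -s, W s = ∑ h with h * τ h = 1 ∧ IsUnit (δ + τ δ * h), W (h - 1) := by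
  have un : ∀ s, τ s = -s → IsUnit (1 - τ δ * s) := fun s hs => (loc _).resolve_right fun h => by
    have h2 := tau_dvd ττ loc nu (j := 1) (a := 1 - τ δ * s) (by rwa [pow_one])
    rw [pow_one, map_sub, map_mul, ττ, hs, map_one] at h2
    refine nu' ττ loc nu ?_ isUnit_one
    convert (h.mul_left δ).add (h2.mul_left (τ δ)) using 1
    linear_combination -hδ
  have e1 : ∀ s, τ s = -s → Ring.inverse (1 - τ δ * s) * (1 - τ δ * s) = 1 := fun s hs =>
    Ring.inverse_mul_cancel _ (un s hs)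
  have e2 : ∀ s, τ s = -s → δ + τ δ * ((1 + δ * s) * Ring.inverse (1 - τ δ * s)) =
      Ring.inverse (1 - τ δ * s) := fun s hs => by
    linear_combination (-δ) * e1 s hs + Ring.inverse (1 - τ δ * s) * hδ
  have e3 : ∀ s, τ s = -s → (1 + δ * s) * Ring.inverse (1 - τ δ * s) - 1 =
      s * Ring.inverse (1 - τ δ * s) := fun s hs => by
    linear_combination e1 s hs + s * Ring.inverse (1 - τ δ * s) * hδ
  refine sum_bij (fun s _ => (1 + δ * s) * Ring.inverse (1 - τ δ * s)) (fun s hs => ?_)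
    (fun s hs s' hs' e => ?_) (fun h hh => ?_) (fun s hs => ?_)
  · have hs := (mem_filter.1 hs).2
    refine mem_filter.2 ⟨mem_univ _, ?_, ?_⟩
    · have := congrArg τ (e1 s hs)
      rw [map_mul, map_sub, map_mul, ττ, hs, map_one] at this
      rw [map_mul, map_add, map_mul, hs, map_one]
      linear_combination this + (τ (Ring.inverse (1 - τ δ * s)) * (1 + δ * s)) * e1 s hs
    · rw [e2 s hs]; exact IsUnit.of_mul_eq_one _ (e1 s hs)
  · have hs := (mem_filter.1 hs).2
    have hs' := (mem_filter.1 hs').2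
    have h1 := e2 s hs
    have h2 := e3 s hs
    rw [e, e2 s' hs'] at h1
    rw [e, e3 s' hs', h1] at h2
    exact ((IsUnit.of_mul_eq_one _ (e1 s hs)).mul_left_inj.1 h2).symm
  · obtain ⟨h1, h2⟩ := (mem_filter.1 hh).2
    obtain ⟨y, hy⟩ := h2.exists_left_inv
    have ty : τ y = h * y := by
      have := congrArg τ hy
      rw [map_mul, map_add, map_mul, ττ, map_one] at this
      linear_combination (-τ y) * hy + h * y * this - τ y * y * δ * h1
    have hs : τ ((h - 1) * y) = -((h - 1) * y) := by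
      rw [map_mul, map_sub, map_one, ty]; linear_combination y * h1
    refine ⟨(h - 1) * y, mem_filter.2 ⟨mem_univ _, hs⟩, ?_⟩
    have e4 : 1 - τ δ * ((h - 1) * y) = y := by linear_combination -hy + y * hδ
    have e5 := e1 _ hs
    rw [e4] at e5 ⊢
    have e6 : Ring.inverse y = δ + τ δ * h := by
      linear_combination (-Ring.inverse y) * hy + (δ + τ δ * h) * e5
    rw [e6]
    linear_combination δ * (h - 1) * hy + h * hδ
  · have hs := (mem_filter.1 hs).2
    rw [e3 s hs, hW _ _ (IsUnit.of_mul_eq_one _ (e1 s hs))]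

theorem card_skew {θ : A} (hθ : IsUnit (θ - τ θ)) (j : ℕ) :
    #{s | τ s = -s ∧ π ^ j ∣ s} ^ 2 = #{a | π ^ j ∣ a} := by
  obtain ⟨y, hy⟩ := hθ.exists_left_inv
  have ty : τ y = -y := by
    have := congrArg τ hy
    rw [map_mul, map_sub, ττ, map_one] at this
    linear_combination (-τ y) * hy - y * this
  rw [pow_two, ← card_product]
  refine card_bij (fun x _ => x.1 + θ * x.2) (fun x hx => ?_) (fun x hx x' hx' e => ?_)
    (fun a ha => ?_)
  · simp only [mem_product, mem_filter, mem_univ, true_and] at hx ⊢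
    exact hx.1.2.add (hx.2.2.mul_left θ)
  · simp only [mem_product, mem_filter, mem_univ, true_and] at hx hx'
    have := congrArg τ e
    rw [map_add, map_add, map_mul, map_mul, hx.1.1, hx.2.1, hx'.1.1, hx'.2.1] at this
    have e2 : x.2 = x'.2 := by linear_combination y * e + y * this - (x.2 - x'.2) * hy
    exact Prod.ext (by linear_combination e - θ * e2) e2
  · have ha := (mem_filter.1 ha).2
    have h1 : π ^ j ∣ y * (a + τ a) := (ha.add (tau_dvd ττ loc nu ha)).mul_left y
    have h2 : τ (y * (a + τ a)) = -(y * (a + τ a)) := by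
      rw [map_mul, map_add, ττ, ty]; ring
    refine ⟨(a - θ * (y * (a + τ a)), y * (a + τ a)), ?_, by simp⟩
    simp only [mem_product, mem_filter, mem_univ, true_and]
    refine ⟨⟨?_, ha.sub (h1.mul_left θ)⟩, h2, h1⟩
    rw [map_sub, map_mul, h2]
    linear_combination (-(a + τ a)) * hy

theorem skew_sum {m Q : ℕ} (hm : Even m) (pk : π ^ (m + 1) = 0) {w : A → ℂ}
    (hw : ∀ a u, IsUnit u → w (a * u) = w a) (wp : ∀ j ≤ m + 1, w (π ^ j) = (-(Q : ℂ)) ^ j)
    (cd : ∀ i j, i + j = m + 1 → #{s | τ s = -s ∧ π ^ j ∣ s} = Q ^ i) (i : ℕ) :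
    ∀ j, i + j = m + 1 → 2 * ∑ s with τ s = -s ∧ π ^ j ∣ s, w s =
      -2 * Q ^ (m + 1) + Q ^ m * (Q - 1) * (1 + (-1) ^ j) := by
  induction i with
  | zero =>
    intro j hj
    rw [zero_add] at hj
    subst hj
    have : ({s | τ s = -s ∧ π ^ (m + 1) ∣ s} : Finset A) = {0} := by
      ext s
      simp only [mem_filter, mem_univ, true_and, mem_singleton, pk, zero_dvd_iff]
      exact ⟨fun h => h.2, fun h => ⟨by simp [h], h⟩⟩
    rw [this, sum_singleton, ← pk, wp _ le_rfl, hm.add_one.neg_pow, hm.add_one.neg_one_pow]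
    ring
  | succ i ih =>
    intro j hj
    have sub : (univ.filter fun s => τ s = -s ∧ π ^ (j + 1) ∣ s) ⊆
        univ.filter fun s => τ s = -s ∧ π ^ j ∣ s :=
      fun s hs => mem_filter.2 ⟨mem_univ _, (mem_filter.1 hs).2.1,
        (pow_dvd_pow π j.le_succ).trans (mem_filter.1 hs).2.2⟩
    have c : ∀ s ∈ (univ.filter fun s => τ s = -s ∧ π ^ j ∣ s) \
        univ.filter fun s => τ s = -s ∧ π ^ (j + 1) ∣ s, w s = (-(Q : ℂ)) ^ j := fun s hs => by
      simp only [mem_sdiff, mem_filter, mem_univ, true_and] at hs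
      obtain ⟨⟨h1, a, rfl⟩, h2⟩ := hs
      rw [hw _ _ ((loc a).resolve_right fun h => h2 ⟨h1, pow_succ π j ▸ mul_dvd_mul_left _ h⟩),
        wp j (by omega)]
    rw [← sum_sdiff sub, mul_add, ih (j + 1) (by omega), sum_congr rfl c, sum_const,
      card_sdiff_of_subset sub, nsmul_eq_mul, Nat.cast_sub (card_le_card sub), cd _ _ hj,
      cd i (j + 1) (by omega), show m = i + j by omega, neg_pow (Q : ℂ)]
    push_cast
    ring

theorem ring_sum {θ : A} (hθ : IsUnit (θ - τ θ)) (hθ' : IsUnit θ) {m Q : ℕ} (hm : Even m)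
    (pk : π ^ (m + 1) = 0) {w : A → ℂ} (hw : ∀ a u, IsUnit u → w (a * u) = w a)
    (wp : ∀ j ≤ m + 1, w (π ^ j) = (-(Q : ℂ)) ^ j)
    (cd : ∀ i j, i + j = m + 1 → #{a | π ^ j ∣ a} = Q ^ (2 * i)) :
    ∑ h with h * τ h = 1, w (h - 1) = 0 := by
  have cd' : ∀ i j, i + j = m + 1 → #{s | τ s = -s ∧ π ^ j ∣ s} = Q ^ i := fun i j h =>
    Nat.pow_left_injective two_ne_zero (by
      simp only; rw [card_skew ττ loc nu hθ, cd i j h, ← pow_mul, mul_comm])
  obtain ⟨y, hy⟩ := hθ.exists_left_inv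
  have ty : τ y = -y := by
    have := congrArg τ hy
    rw [map_mul, map_sub, ττ, map_one] at this
    linear_combination (-τ y) * hy - y * this
  obtain ⟨x, hx⟩ := (hθ'.mul (IsUnit.of_mul_eq_one _ hy)).exists_left_inv
  have hδ : θ * y + τ (θ * y) = 1 := by rw [map_mul, ty]; linear_combination hy
  generalize θ * y = δ at hx hδ
  have hx' : τ x * τ δ = 1 := by rw [← map_mul, hx, map_one]
  have s0 := skew_sum ττ loc nu hm pk hw wp cd' (m + 1) 0 rfl
  simp only [pow_zero, one_dvd, and_true] at s0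
  have s1 := cayley ττ loc nu hδ (fun a => if π ∣ a then 1 else 0) fun a u hu => by
    simp only [hu.dvd_mul_right]
  rw [sum_boole, sum_boole, filter_filter, filter_filter, Nat.cast_inj] at s1
  have s2 := cd' m 1 rfl
  rw [pow_one, s1] at s2
  have s3 : #{h | h * τ h = 1 ∧ ¬ IsUnit (δ + τ δ * h)} = Q ^ m := by
    rw [← s2]
    refine card_bij (fun h _ => -(x * τ δ) * h) (fun h hh => ?_) (fun h _ h' _ e => ?_)
      (fun h hh => ?_)
    · simp only [mem_filter, mem_univ, true_and] at hh ⊢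
      have d : π ∣ -(x * τ δ) * h - 1 := by
        convert ((loc _).resolve_left hh.2).mul_left (-x) using 1
        linear_combination hx
      refine ⟨⟨?_, (loc _).resolve_right fun h2 => nu' ττ loc nu ?_ isUnit_one⟩, d⟩
      · rw [map_mul, map_neg, map_mul, ττ]
        linear_combination x * δ * τ x * τ δ * hh.1 + τ x * τ δ * hx + hx'
      · convert h2.sub (d.mul_left (τ δ)) using 1
        linear_combination -hδ
    · linear_combination (-(δ * τ x)) * e - (h - h') * τ x * τ δ * hx - (h - h') * hx'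
    · simp only [mem_filter, mem_univ, true_and] at hh
      refine ⟨-(δ * τ x) * h, mem_filter.2 ⟨mem_univ _, ?_, nu' ττ loc nu ?_⟩, ?_⟩
      · rw [map_mul, map_neg, map_mul, ττ]
        linear_combination x * δ * τ x * τ δ * hh.1.1 + τ x * τ δ * hx + hx'
      · convert hh.2.mul_left (-δ) using 1
        linear_combination (-(δ * h)) * hx'
      · linear_combination h * τ x * τ δ * hx + h * hx'
  have c : ∀ h ∈ ({h | h * τ h = 1 ∧ ¬ IsUnit (δ + τ δ * h)} : Finset A), w (h - 1) = 1 := by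
    intro h hh
    have hh := (mem_filter.1 hh).2.2
    have : IsUnit (h - 1) := (loc _).resolve_right fun d => nu' ττ loc nu (by
      convert ((loc _).resolve_left hh).sub (d.mul_left (τ δ)) using 1
      linear_combination -hδ) isUnit_one
    rw [← one_mul (h - 1), hw _ _ this, ← pow_zero π, wp 0 (by omega), pow_zero]
  rw [← sum_filter_add_sum_filter_not _ fun h => IsUnit (δ + τ δ * h), filter_filter,
    filter_filter, ← cayley ττ loc nu hδ w hw, sum_congr rfl c, sum_const, s3, nsmul_eq_mul]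
  push_cast
  linear_combination (1 / 2 : ℂ) * s0

end Ring

theorem ring_fin {A : Type*} [CommRing A] [Finite A] {τ : A →+* A} (ττ : ∀ a, τ (τ a) = a) {π : A}
    (loc : ∀ a, IsUnit a ∨ π ∣ a) (nu : ¬ IsUnit π) {θ : A} (hθ : IsUnit (θ - τ θ))
    (hθ' : IsUnit θ) {m Q : ℕ} (hm : Even m) (pk : π ^ (m + 1) = 0) {w : A → ℂ}
    (hw : ∀ a u, IsUnit u → w (a * u) = w a) (wp : ∀ j ≤ m + 1, w (π ^ j) = (-(Q : ℂ)) ^ j)
    (cd : ∀ i j, i + j = m + 1 → Nat.card {a // π ^ j ∣ a} = Q ^ (2 * i)) :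
    ∑ᶠ h : {h : A // h * τ h = 1}, w (h - 1) = 0 := by
  classical
  haveI := Fintype.ofFinite A
  rw [finsum_eq_sum_of_fintype, ← Finset.sum_subtype (univ.filter fun h => h * τ h = 1) (by simp)
    fun h => w (h - 1)]
  convert ring_sum ττ loc nu hθ hθ' hm pk hw wp fun i j h => ?_
  rw [← cd i j h, Nat.card_eq_fintype_card, Fintype.card_subtype]

section Geo

variable {E V : Type u} [Field E] [AddCommGroup V] [Module E V] {σ : E →+* E}
  {B : V →ₛₗ[σ] V →ₗ[E] E}

theorem ex_adj (hB : IsHerm B) {g : V ≃ₗ[E] V} (hg : g ∈ isom B) (p : E[X]) :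
    ∃ T : End E V, Commute (g : End E V) T ∧
      ∀ x y, B (aeval (g : End E V) p x) y = B x (T y) := by
  induction p using Polynomial.induction_on with
  | C a =>
    refine ⟨σ a • 1, (Commute.one_right _).smul_right _, fun x y => ?_⟩
    simp [smul_left, Module.algebraMap_end_apply]
  | add p q hp hq =>
    obtain ⟨T, h1, h2⟩ := hp
    obtain ⟨T', h1', h2'⟩ := hq
    exact ⟨T + T', h1.add_right h1', fun x y => by simp [h2, h2']⟩
  | monomial n a hp =>
    obtain ⟨T, h1, h2⟩ := hp
    refine ⟨((g⁻¹ : V ≃ₗ[E] V) : End E V) * T, Commute.mul_right ?_ h1, fun x y => ?_⟩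
    · exact LinearMap.ext fun x => by simp
    · rw [pow_succ, ← mul_assoc, map_mul, aeval_X, End.mul_apply, h2]
      exact isom_adj hg _ _

variable {G : End E V} {v : V} (cyc : ∀ w, ∃ p : E[X], w = aeval G p v)
include cyc

omit cyc in
theorem com_aeval {T : End E V} (h : Commute G T) (p : E[X]) : Commute (aeval G p) T := by
  induction p using Polynomial.induction_on with
  | C a => rw [aeval_C]; exact Algebra.commutes a T
  | add p q hp hq => rw [map_add]; exact hp.add_left hq
  | monomial n a hp => rw [pow_succ, ← mul_assoc, map_mul, aeval_X]; exact hp.mul_left h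

theorem ext_v {S T : End E V} (hS : Commute G S) (hT : Commute G T) (e : S v = T v) : S = T := by
  refine LinearMap.ext fun w => ?_
  obtain ⟨p, rfl⟩ := cyc w
  rw [← End.mul_apply, ← End.mul_apply, ← (com_aeval hS p).eq, ← (com_aeval hT p).eq,
    End.mul_apply, End.mul_apply, e]

theorem ex_poly {S : End E V} (hS : Commute G S) : ∃ p : E[X], S = aeval G p :=
  let ⟨p, hp⟩ := cyc (S v)
  ⟨p, ext_v cyc hS (com_aeval (Commute.refl G) p).symm hp⟩

theorem rank_pow {f : E[X]} (hf : f ≠ 0) {k : ℕ} (hk : ∀ p, aeval G p = 0 ↔ f ^ k ∣ p) {i j : ℕ}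
    (h : i + j = k) : finrank E (LinearMap.range (aeval G f ^ j)) = i * f.natDegree := by
  let Φ : E[X] →ₗ[E] V := (LinearMap.applyₗ v).comp
    ((aeval G).toLinearMap.comp (LinearMap.mulLeft E (f ^ j)))
  have hΦ : ∀ p, Φ p = aeval G (f ^ j * p) v := fun p => rfl
  have r : LinearMap.range Φ = LinearMap.range (aeval G f ^ j) := by
    ext w
    constructor
    · rintro ⟨p, rfl⟩
      exact ⟨aeval G p v, by rw [hΦ, map_mul, map_pow, End.mul_apply]⟩
    · rintro ⟨w, rfl⟩
      obtain ⟨p, rfl⟩ := cyc w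
      exact ⟨p, by rw [hΦ, map_mul, map_pow, End.mul_apply]⟩
  have kr : LinearMap.ker Φ = (Ideal.span {f ^ i}).restrictScalars E := by
    ext p
    rw [LinearMap.mem_ker, hΦ, Submodule.restrictScalars_mem, Ideal.mem_span_singleton,
      ← mul_dvd_mul_iff_left (pow_ne_zero j hf), ← pow_add, add_comm, h, ← hk]
    exact ⟨fun e => ext_v cyc (com_aeval (Commute.refl G) _).symm (Commute.zero_right _) e,
      fun e => by rw [e]; rfl⟩
  rw [← r, ← Φ.quotKerEquivRange.finrank_eq, kr,
    (Submodule.Quotient.restrictScalarsEquiv E _).finrank_eq, finrank_quotient_span_eq_natDegree,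
    natDegree_pow]

end Geo

/-- **SUM** -/
theorem sum : SumStmt.{u} := by
  intro E V _ _ _ _ _ σ B q S hn g f k0 v hf hk0 cyc
  have hB := S.herm
  haveI : FiniteDimensional E V := Module.Finite.of_finite
  haveI : Finite (End E V) := Finite.of_injective _ DFunLike.coe_injective
  set G : End E V := (g.1 : V →ₗ[E] V) with hG
  obtain ⟨k, -, hk⟩ := (dvd_prime_pow hf.prime k0).1 (minpoly.dvd E G hk0)
  have hk' : ∀ p, aeval G p = 0 ↔ f ^ k ∣ p := fun p => by
    rw [← minpoly.dvd_iff, hk.dvd_iff_dvd_left]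
  have rk := fun i j => rank_pow cyc hf.ne_zero hk' (i := i) (j := j)
  have n0 := rk k 0 rfl
  rw [pow_zero, End.one_eq_id, LinearMap.range_id, finrank_top] at n0
  obtain ⟨hko, hdo⟩ := Nat.odd_mul.1 (n0 ▸ hn)
  obtain ⟨m, rfl⟩ : ∃ m, k = m + 1 := ⟨k - 1, by have := hko.pos; omega⟩
  have hm : Even m := by rwa [Nat.odd_add_one, Nat.not_odd_iff_even] at hko
  let A := Subalgebra.centralizer E ({G} : Set (End E V))
  have mA : ∀ {T}, Commute G T → T ∈ A := fun h => by rintro _ rfl; exact h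
  have cA : ∀ a : A, Commute G a := fun a => a.2 G rfl
  let P : E[X] → A := fun p => ⟨aeval G p, mA (com_aeval (Commute.refl G) p).symm⟩
  have sP : ∀ a : A, ∃ p, a = P p := fun a =>
    let ⟨p, hp⟩ := ex_poly cyc (cA a); ⟨p, Subtype.ext hp⟩
  letI : CommRing A := { (inferInstance : Ring A) with
    mul_comm := fun a b => by
      obtain ⟨p, rfl⟩ := sP a
      exact Subtype.ext (com_aeval (cA b) p) }
  have adj : ∀ a : A, ∃ b : A, ∀ x y, B (a.1 x) y = B x (b.1 y) := fun a => by
    obtain ⟨p, rfl⟩ := sP a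
    obtain ⟨T, h1, h2⟩ := ex_adj hB g.2 p
    exact ⟨⟨T, mA h1⟩, h2⟩
  choose t ht using adj
  have uq : ∀ a b : A, (∀ x y, B (a.1 x) y = B x (b.1 y)) → t a = b := fun a b h =>
    Subtype.ext (LinearMap.ext fun y => hB.ext_right fun x => by rw [← ht, h])
  let τ : A →+* A :=
    { toFun := t
      map_one' := uq _ _ fun x y => rfl
      map_mul' := fun a b => uq _ _ fun x y => by
        rw [mul_comm (t a)]
        exact (ht a _ _).trans (ht b _ _)
      map_zero' := uq _ _ fun x y => by simp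
      map_add' := fun a b => uq _ _ fun x y => by simp [ht] }
  have ττ : ∀ a, τ (τ a) = a := fun a => uq _ _ fun x y => by
    rw [← hB.symm, ← hB.symm (a.1 y), ht]; rfl
  have pk : P f ^ (m + 1) = 0 := Subtype.ext (by
    change aeval G f ^ (m + 1) = 0
    rw [← map_pow, hk'])
  have loc : ∀ a : A, IsUnit a ∨ P f ∣ a := fun a => by
    obtain ⟨p, rfl⟩ := sP a
    by_cases h : f ∣ p
    · obtain ⟨r, rfl⟩ := h
      exact Or.inr ⟨P r, Subtype.ext (map_mul (aeval G) f r)⟩
    · obtain ⟨r, s, e⟩ := (hf.coprime_iff_not_dvd.2 h).pow_left (m := m + 1)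
      refine Or.inl (IsUnit.of_mul_eq_one (P s) (Subtype.ext ?_))
      have := congrArg (aeval G) e
      rw [map_add, map_mul, (hk' _).2 dvd_rfl, mul_zero, zero_add, mul_comm, map_mul,
        map_one] at this
      exact this
  have nu : ¬ IsUnit (P f) := fun h => by
    have h1 := h.pow (m + 1)
    rw [pk, isUnit_zero_iff] at h1
    have h2 : aeval G (1 : E[X]) = 0 := by rw [map_one]; exact (congrArg Subtype.val h1).symm
    exact hf.not_isUnit (isUnit_of_dvd_one ((dvd_pow_self f m.succ_ne_zero).trans ((hk' 1).1 h2)))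
  obtain ⟨c, hc⟩ := hB.inv.ne_id
  have un : ∀ c : E, c ≠ 0 → IsUnit (P (C c)) := fun c hc =>
    IsUnit.of_mul_eq_one (P (C c⁻¹)) (Subtype.ext (by
      change aeval G (C c) * aeval G (C c⁻¹) = 1
      rw [← map_mul, ← C_mul, mul_inv_cancel₀ hc, C_1, map_one]))
  have tc : τ (P (C c)) = P (C (σ c)) := uq _ _ fun x y => by
    simp [P, smul_left, Module.algebraMap_end_apply]
  have key := ring_fin ττ loc nu (θ := P (C c)) (by
      rw [tc]
      convert un (c - σ c) (sub_ne_zero.2 hc.symm) using 1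
      exact Subtype.ext (by simp [P]))
    (un c fun e => hc (by simp [e])) (Q := q ^ f.natDegree) hm pk
    (w := fun a => (-(q : ℂ)) ^ finrank E (LinearMap.ker a.1)) (fun a u hu => by
      obtain ⟨y, hy⟩ := hu.exists_left_inv
      have : LinearMap.ker (a * u).1 = LinearMap.ker a.1 := by
        rw [mul_comm]
        ext x
        refine ⟨fun h => ?_, fun h => ?_⟩
        · have e : a.1 x = y.1 ((u * a).1 x) := by
            change _ = (y * (u * a)).1 x
            rw [← mul_assoc, hy, one_mul]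
          rw [LinearMap.mem_ker, e, LinearMap.mem_ker.1 h, map_zero]
        · change u.1 (a.1 x) = 0
          rw [LinearMap.mem_ker.1 h, map_zero]
      rw [this])
    (fun j hj => by
      obtain ⟨i, hi⟩ : ∃ i, i + j = m + 1 := ⟨m + 1 - j, by omega⟩
      have h1 := LinearMap.finrank_range_add_finrank_ker (aeval G f ^ j)
      rw [rk i j hi, n0, ← hi, add_mul, add_right_inj] at h1
      change (-(q : ℂ)) ^ finrank E (LinearMap.ker (aeval G f ^ j)) = _
      rw [h1, mul_comm, pow_mul, hdo.neg_pow, Nat.cast_pow])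
    (fun i j h => by
      have : Nat.card {a : A // P f ^ j ∣ a} = Nat.card (LinearMap.range (aeval G f ^ j)) := by
        refine Nat.card_eq_of_bijective (fun a => ⟨a.1.1 v, ?_⟩) ⟨fun a b e => ?_, ?_⟩
        · obtain ⟨_, b, rfl⟩ := a
          exact ⟨b.1 v, rfl⟩
        · exact Subtype.ext (Subtype.ext (ext_v cyc (cA _) (cA _) (congrArg Subtype.val e)))
        · rintro ⟨_, w, rfl⟩
          obtain ⟨p, rfl⟩ := cyc w
          exact ⟨⟨P f ^ j * P p, dvd_mul_right _ _⟩, rfl⟩
      rw [this, Module.natCard_eq_pow_finrank (K := E), rk i j h, Nat.card_eq_fintype_card, S.card,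
        ← pow_mul, ← pow_mul]
      congr 1; ring)
  have cg : ∀ h : Subgroup.centralizer ({g} : Set (isom B)), Commute G (h.1.1 : V →ₗ[E] V) :=
    fun h => LinearMap.ext fun x => congrArg (fun z : isom B => z.1 x) (h.2 g rfl)
  have iso : ∀ h : Subgroup.centralizer ({g} : Set (isom B)),
      (⟨_, mA (cg h)⟩ : A) * τ ⟨_, mA (cg h)⟩ = 1 := fun h => by
    rw [mul_comm]
    refine Subtype.ext (LinearMap.ext fun y => hB.ext_right fun x => ?_)
    exact (ht _ _ _).symm.trans (h.1.2 x y)
  have e := finsum_eq_of_bijective (f := fun h : Subgroup.centralizer ({g} : Set (isom B)) =>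
      (-(q : ℂ)) ^ finrank E (fx h.1.1))
    (g := fun h : {h : A // h * τ h = 1} => (-(q : ℂ)) ^ finrank E (LinearMap.ker (h.1 - 1).1))
    (fun h => ⟨⟨_, mA (cg h)⟩, iso h⟩) ⟨fun a b e => ?_, fun a => ?_⟩ fun h => rfl
  · unfold om
    rw [← mul_finsum, e, key, mul_zero]
  · exact Subtype.ext (isom_ext fun x => congrArg (fun z : {h : A // h * τ h = 1} => z.1.1 x) e)
  · obtain ⟨a, ha⟩ := a
    have ha' : τ a * a = 1 := by rw [mul_comm, ha]
    refine ⟨⟨⟨LinearEquiv.ofLinear a.1 (τ a).1 (congrArg Subtype.val ha)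
      (congrArg Subtype.val ha'), fun x y => ?_⟩, ?_⟩, rfl⟩
    · exact (ht a _ _).trans (congrArg (fun z : A => B x (z.1 y)) ha')
    · rintro _ rfl
      exact isom_ext fun x => congrArg (fun z : End E V => z x) (cA a).eq

end Cfsg.Agent.H51.UwSum
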