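import Mathlib

/-! Weight projectors of a normal abelian subgroup acting on a module; base change of
representations from a prime field. -/

set_option autoImplicit false

namespace Cfsg.Agent.H51.Wt

open Subgroup

variable {S : Type*} [Group S] {k : Type*} [Field k] {W : Type*} [AddCommGroup W] [Module k W]

/-- linear characters of `V` -/
def Ch (k : Type*) [Field k] (V : Subgroup S) : Type _ := V →* kˣ

instance (V : Subgroup S) : Group (Ch k V) := inferInstanceAs (Group (V →* kˣ))

instance (V : Subgroup S) : FunLike (Ch k V) V kˣ := inferInstanceAs (FunLike (V →* kˣ) V kˣ)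

instance (V : Subgroup S) : MonoidHomClass (Ch k V) V kˣ :=
  inferInstanceAs (MonoidHomClass (V →* kˣ) V kˣ)

theorem Ch.ext {V : Subgroup S} {l m : Ch k V} (h : ∀ v, l v = m v) : l = m := MonoidHom.ext h

theorem Ch.one_apply {V : Subgroup S} (v : V) : (1 : Ch k V) v = 1 := rfl

theorem Ch.mul_apply {V : Subgroup S} (l m : Ch k V) (v : V) : (l * m) v = l v * m v := rfl

theorem Ch.inv_apply {V : Subgroup S} (l : Ch k V) (v : V) : l⁻¹ v = (l v)⁻¹ := rfl

instance (V : Subgroup S) [Finite V] : Finite (Ch k V) := inferInstanceAs (Finite (V →* kˣ))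

instance (V : Subgroup S) [V.Normal] : MulAction S (Ch k V) where
  smul g l := MonoidHom.comp l (MulAut.conjNormal g⁻¹ : MulAut V).toMonoidHom
  one_smul l := Ch.ext fun v => by
    change l (MulAut.conjNormal (1 : S)⁻¹ v) = l v
    simp
  mul_smul g h l := Ch.ext fun v => by
    change l (MulAut.conjNormal (g * h)⁻¹ v) = l (MulAut.conjNormal h⁻¹ (MulAut.conjNormal g⁻¹ v))
    rw [mul_inv_rev, map_mul]; rfl

theorem Ch.smul_apply {V : Subgroup S} [V.Normal] (g : S) (l : Ch k V) (v : V) :
    (g • l) v = l (MulAut.conjNormal g⁻¹ v) := rfl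

theorem Ch.smul_one {V : Subgroup S} [V.Normal] (g : S) : g • (1 : Ch k V) = 1 := rfl

/-- the weight projector -/
noncomputable def pr (ρ : Representation k S W) {V : Subgroup S} [Fintype V] (l : Ch k V) :
    W →ₗ[k] W :=
  (Fintype.card V : k)⁻¹ • ∑ v : V, ((l v⁻¹ : kˣ) : k) • ρ v

variable (ρ : Representation k S W) {V : Subgroup S} [Fintype V]

theorem pr_apply (l : Ch k V) (w : W) :
    pr ρ l w = (Fintype.card V : k)⁻¹ • ∑ v : V, ((l v⁻¹ : kˣ) : k) • ρ v w := by
  simp [pr, LinearMap.sum_apply]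

theorem act (g h : S) (w : W) : ρ g (ρ h w) = ρ (g * h) w := by rw [map_mul]; rfl

theorem rho_pr (l : Ch k V) (u : V) (w : W) :
    ρ u (pr ρ l w) = ((l u : kˣ) : k) • pr ρ l w := by
  rw [pr_apply, map_smul, map_sum, smul_comm, Finset.smul_sum (r := ((l u : kˣ) : k))]
  congr 1
  refine Fintype.sum_equiv (Equiv.mulLeft u) _ _ fun v => ?_
  simp only [Equiv.coe_mulLeft, map_smul, act, smul_smul, coe_mul, mul_inv_rev, map_mul l,
    map_inv l]
  congr 1
  rw [← Units.val_mul, mul_comm (l v)⁻¹, mul_inv_cancel_left]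

open Classical in
theorem pr_of_weight (hc : (Fintype.card V : k) ≠ 0) (l m : Ch k V) {w : W}
    (hw : ∀ u : V, ρ u w = ((m u : kˣ) : k) • w) : pr ρ l w = if l = m then w else 0 := by
  rw [pr_apply]
  simp only [hw, smul_smul]
  rw [← Finset.sum_smul, smul_smul]
  let f : V →* k := (Units.coeHom k).comp (l⁻¹ * m : Ch k V)
  have h1 : ∀ v : V, ((l v⁻¹ : kˣ) : k) * ((m v : kˣ) : k) = f v := fun v => by
    rw [map_inv l, ← Units.val_mul]; rfl
  simp only [h1]
  split_ifs with h
  · subst h
    have : ∀ v, f v = 1 := fun v => by simp only [f, inv_mul_cancel]; rfl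
    simp [this, hc]
  · rw [sum_hom_units_eq_zero f, mul_zero, zero_smul]
    intro h2
    apply h
    rw [← inv_mul_eq_one]
    exact Ch.ext fun v => Units.ext (DFunLike.congr_fun h2 v)

open Classical in
theorem pr_pr (hc : (Fintype.card V : k) ≠ 0) (l m : Ch k V) (w : W) :
    pr ρ l (pr ρ m w) = if l = m then pr ρ m w else 0 :=
  pr_of_weight ρ hc l m fun u => rho_pr ρ m u w

theorem rho_pr_conj [V.Normal] (g : S) (l : Ch k V) (w : W) :
    ρ g (pr ρ l w) = pr ρ (g • l) (ρ g w) := by
  rw [pr_apply, pr_apply, map_smul, map_sum]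
  congr 1
  refine Fintype.sum_equiv (MulAut.conjNormal g : MulAut V).toEquiv _ _ fun v => ?_
  simp only [map_smul, act, Ch.smul_apply]
  congr 2
  · simp
  · simp

theorem sum_pr [Fintype (Ch k V)] (hc : (Fintype.card V : k) ≠ 0) (hV : IsMulCommutative V)
    (hk : HasEnoughRootsOfUnity k (Monoid.exponent V)) (w : W) : ∑ l : Ch k V, pr ρ l w = w := by
  classical
  letI : CommGroup V := { (inferInstance : Group V) with mul_comm := hV.is_comm.comm }
  simp only [pr_apply]
  rw [← Finset.smul_sum, Finset.sum_comm]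
  simp only [← Finset.sum_smul]
  have h1 : ∀ v : V, ∑ l : Ch k V, ((l v⁻¹ : kˣ) : k) = if v = 1 then (Fintype.card V : k) else 0 := by
    intro v
    split_ifs with h
    · subst h
      have := CommGroup.card_monoidHom_of_hasEnoughRootsOfUnity V k
      rw [Nat.card_eq_fintype_card (α := V)] at this
      simp only [inv_one, map_one, Units.val_one, Finset.sum_const, Finset.card_univ, nsmul_eq_mul,
        mul_one]
      rw [← this, ← Nat.card_eq_fintype_card]; rfl
    · let f : Ch k V →* k :=
        { toFun := fun l => ((l v⁻¹ : kˣ) : k)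
          map_one' := rfl
          map_mul' := fun l m => by rw [Ch.mul_apply, Units.val_mul] }
      refine sum_hom_units_eq_zero f fun h2 => ?_
      obtain ⟨φ, hφ⟩ := CommGroup.exists_apply_ne_one_of_hasEnoughRootsOfUnity V k
        (a := v⁻¹) (inv_ne_one.2 h)
      exact hφ (Units.ext (DFunLike.congr_fun h2 φ))
  simp only [h1, ite_smul, zero_smul, Finset.sum_ite_eq', Finset.mem_univ, if_true]
  rw [smul_smul, inv_mul_cancel₀ hc, one_smul, OneMemClass.coe_one, map_one]; rfl

theorem exists_pr_ne_zero (hc : (Fintype.card V : k) ≠ 0) (hV : IsMulCommutative V)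
    (hk : HasEnoughRootsOfUnity k (Monoid.exponent V)) {w : W} (hw : w ≠ 0) :
    ∃ l : Ch k V, pr ρ l w ≠ 0 := by
  haveI := Fintype.ofFinite (Ch k V)
  by_contra h
  push Not at h
  apply hw
  rw [← sum_pr ρ hc hV hk w]
  simp [h]

/-! ### base change -/

section BC

open TensorProduct

variable {F : Type*} [Field F] {E : Type*} [AddCommGroup E] [Module F E]

/-- base change of a representation -/
noncomputable def bc (k : Type*) [Field k] [Algebra F k] (σ : Representation F S E) :
    Representation k S (k ⊗[F] E) where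
  toFun g := LinearMap.baseChange k (σ g)
  map_one' := by rw [map_one]; exact LinearMap.baseChange_one F E
  map_mul' g h := by rw [map_mul]; exact LinearMap.baseChange_mul _ _

theorem coord_bc [Algebra F k] {ι : Type*} [DecidableEq ι] (b : Module.Basis ι F k)
    (σ : Representation F S E) (g : S) (w : k ⊗[F] E) (i : ι) :
    equivFinsuppOfBasisLeft b (bc k σ g w) i = σ g (equivFinsuppOfBasisLeft b w i) := by
  induction w using TensorProduct.induction_on with
  | zero => simp
  | tmul a e =>
    change equivFinsuppOfBasisLeft b (LinearMap.baseChange k (σ g) _) i = _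
    rw [LinearMap.baseChange_tmul, equivFinsuppOfBasisLeft_apply_tmul_apply,
      equivFinsuppOfBasisLeft_apply_tmul_apply, map_smul]
  | add x y hx hy => simp only [map_add, Finsupp.add_apply, hx, hy]

theorem bc_fix_iff [Algebra F k] {ι : Type*} [DecidableEq ι] (b : Module.Basis ι F k)
    (σ : Representation F S E) (g : S) (w : k ⊗[F] E) :
    bc k σ g w = w ↔ ∀ i, σ g (equivFinsuppOfBasisLeft b w i) = equivFinsuppOfBasisLeft b w i := by
  rw [← (equivFinsuppOfBasisLeft b).injective.eq_iff, Finsupp.ext_iff]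
  simp only [coord_bc]

theorem card_fix_bc [Algebra F k] {ι : Type*} [DecidableEq ι] [Fintype ι] (b : Module.Basis ι F k)
    (σ : Representation F S E) (T : Set S) :
    Nat.card {w : k ⊗[F] E // ∀ g ∈ T, bc k σ g w = w} =
      Nat.card {v : E // ∀ g ∈ T, σ g v = v} ^ Fintype.card ι := by
  rw [← Nat.card_eq_fintype_card, ← Nat.card_fun]
  refine Nat.card_congr ((Equiv.subtypeEquiv ((equivFinsuppOfBasisLeft b).toEquiv.trans
    Finsupp.equivFunOnFinite) (q := fun f => ∀ i, ∀ g ∈ T, σ g (f i) = f i) ?_).trans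
    (Equiv.subtypePiEquivPi (β := fun _ : ι => E) (p := fun _ v => ∀ g ∈ T, σ g v = v)))
  intro w
  simp only [bc_fix_iff b]
  exact ⟨fun h i g hg => h g hg i, fun h g hg i => h i g hg⟩

end BC

/-- a finite field of characteristic `p` with enough `n`-th roots of unity -/
theorem galoisField_roots (p : ℕ) [hp : Fact p.Prime] {n : ℕ} (hn : n.Coprime p) :
    HasEnoughRootsOfUnity (GaloisField p n.totient) n := by
  have hn0 : n ≠ 0 := by
    rintro rfl
    exact hp.out.one_lt.ne' (by simpa using hn)
  haveI : NeZero n := ⟨hn0⟩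
  have ht : n.totient ≠ 0 := (Nat.totient_pos.2 (Nat.pos_of_ne_zero hn0)).ne'
  refine ⟨?_, rootsOfUnity.isCyclic _ _⟩
  have h1 : n ∣ Nat.card (GaloisField p n.totient)ˣ := by
    rw [Nat.card_units, GaloisField.card p _ ht]
    exact (Nat.modEq_iff_dvd' (Nat.one_le_pow _ _ hp.out.pos)).1 (Nat.ModEq.pow_totient hn.symm).symm
  obtain ⟨g, hg⟩ := IsCyclic.exists_ofOrder_eq_natCard (α := (GaloisField p n.totient)ˣ)
  have h2 : orderOf (g ^ (orderOf g / n)) = n :=
    orderOf_pow_orderOf_div (orderOf_pos g).ne' (hg ▸ h1)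
  refine ⟨((g ^ (orderOf g / n) : (GaloisField p n.totient)ˣ) : GaloisField p n.totient), ?_⟩
  rw [IsPrimitiveRoot.coe_units_iff]
  have h3 := IsPrimitiveRoot.orderOf (g ^ (orderOf g / n))
  rwa [h2] at h3

end Cfsg.Agent.H51.Wt
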